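import Mathlib
import Cfsg.Agent.Pres.HomA

/-!
# Central automorphisms of `2`-groups with a normal subgroup of automorphisms

If `Γ` is normal in `Aut P` and the central automorphisms in `Γ` are inner, then many central
automorphisms are inner; this is compared with upper bounds for their number.
-/

set_option autoImplicit false

namespace Cfsg.Agent.Pr

open Subgroup

variable {P : Type*} [Group P] {n : ℕ}

theorem sg_mul_self (z : Fin n → ℤˣ) : z * z = 1 := funext fun i => Int.units_mul_self (z i)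

theorem card_sg : Nat.card (Fin n → ℤˣ) = 2 ^ n := by simp

/-- The rank one maps `x ↦ z ^ l x`. -/
def rk (P : Type*) [Group P] (z : Fin n → ℤˣ) : (P →* ℤˣ) →* (P →* (Fin n → ℤˣ)) :=
  MonoidHom.mk' (fun l => MonoidHom.mk' (fun x => pw z (l x)) fun a b => by
    rw [map_mul, pw_mul (sg_mul_self z)]) fun _ _ => MonoidHom.ext fun _ => pw_mul (sg_mul_self z) _ _

theorem rk_apply (z : Fin n → ℤˣ) (l : P →* ℤˣ) (x : P) : rk P z l x = pw z (l x) := rfl

theorem mul_rk (z w : Fin n → ℤˣ) (l : P →* ℤˣ) : rk P (z * w) l = rk P z l * rk P w l :=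
  MonoidHom.ext fun _ => mul_pw _ _ _

theorem one_rk (l : P →* ℤˣ) : rk P (1 : Fin n → ℤˣ) l = 1 := MonoidHom.ext fun _ => one_pw _

theorem eq_prod_rk (f : P →* (Fin n → ℤˣ)) :
    f = ∏ i, rk P (Pi.mulSingle i (-1)) ((Pi.evalMonoidHom _ i).comp f) := by
  ext x j : 2
  rw [MonoidHom.finsetProd_apply, Finset.prod_apply, Finset.prod_eq_single j]
  · rw [rk_apply, show ((Pi.evalMonoidHom _ j).comp f) x = f x j from rfl]
    rcases Int.units_eq_one_or (f x j) with h | h <;> simp [h, pw_one, pw_neg]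
  · intro i _ hi
    rw [rk_apply]
    rcases Int.units_eq_one_or (((Pi.evalMonoidHom _ i).comp f) x) with h | h <;>
      simp [h, pw_one, pw_neg, Pi.mulSingle_eq_of_ne hi.symm]
  · simp

theorem card_hom_sg : Nat.card (P →* (Fin n → ℤˣ)) = Nat.card (P →* ℤˣ) ^ n := by
  let e : (P →* (Fin n → ℤˣ)) ≃ (Fin n → (P →* ℤˣ)) :=
    { toFun := fun f i => (Pi.evalMonoidHom _ i).comp f
      invFun := fun g => MonoidHom.pi g
      left_inv := fun _ => rfl
      right_inv := fun _ => rfl }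
  rw [Nat.card_congr e, Nat.card_fun]
  simp

theorem hom_sg_phi (f : P →* (Fin n → ℤˣ)) {x : P} (hx : x ∈ phi P) : f x = 1 :=
  funext fun i => hx ((Pi.evalMonoidHom _ i).comp f)

/-- A central elementary abelian subgroup inside the Frattini subgroup. -/
structure CE (ι : (Fin n → ℤˣ) →* P) : Prop where
  inj : Function.Injective ι
  cen : ∀ z, ι z ∈ center P
  phi : ∀ z, ι z ∈ phi P

namespace CE

variable {ι : (Fin n → ℤˣ) →* P} (h : CE ι)

/-- The elements inducing central automorphisms. -/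
def Y : Subgroup P where
  carrier := {y | ∃ f : P →* (Fin n → ℤˣ), ∀ x, y * x * y⁻¹ = x * ι (f x)}
  one_mem' := ⟨1, by simp⟩
  mul_mem' := by
    rintro a b ⟨f, hf⟩ ⟨g, hg⟩
    refine ⟨f * g, fun x => ?_⟩
    have : a * b * x * (a * b)⁻¹ = a * (b * x * b⁻¹) * a⁻¹ := by group
    rw [this, hg, hf, MonoidHom.mul_apply, map_mul f, hom_sg_phi f (h.phi _), mul_one, map_mul,
      mul_assoc, ← mem_center_iff.1 (h.cen _)]
  inv_mem' := by
    rintro a ⟨f, hf⟩
    refine ⟨f, fun x => ?_⟩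
    have h1 := hf (x * ι (f x))
    rw [map_mul f, hom_sg_phi f (h.phi _), mul_one, mul_assoc x, ← map_mul, sg_mul_self, map_one,
      mul_one] at h1
    conv_lhs => rw [← h1]
    group

/-- The central automorphism induced by an element of `Y`. -/
noncomputable def beta : h.Y →* (P →* (Fin n → ℤˣ)) :=
  MonoidHom.mk' (fun y => y.2.choose) fun a b => MonoidHom.ext fun x => h.inj <| by
    have h1 := (a * b).2.choose_spec x
    have : ((a * b : h.Y) : P) * x * ((a * b : h.Y) : P)⁻¹ = a * (b * x * (b : P)⁻¹) * (a : P)⁻¹ := by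
      rw [coe_mul]; group
    rw [this, b.2.choose_spec, a.2.choose_spec, map_mul a.2.choose, hom_sg_phi _ (h.phi _), mul_one,
      mul_assoc, mul_right_inj] at h1
    rw [← h1, MonoidHom.mul_apply, map_mul, mem_center_iff.1 (h.cen _)]

theorem beta_spec (y : h.Y) (x : P) : y * x * (y : P)⁻¹ = x * ι (h.beta y x) := y.2.choose_spec x

theorem mem_range_beta {f : P →* (Fin n → ℤˣ)} {y : P} (hy : ∀ x, y * x * y⁻¹ = x * ι (f x)) :
    f ∈ h.beta.range :=
  ⟨⟨y, f, hy⟩, MonoidHom.ext fun x => h.inj (mul_left_cancel ((h.beta_spec _ x).symm.trans (hy x)))⟩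

theorem beta_eq_one {y : h.Y} (hy : ∀ x : P, y * x = x * y) : h.beta y = 1 :=
  MonoidHom.ext fun x => h.inj <| by
    have := h.beta_spec y x
    rw [hy, mul_inv_cancel_right, left_eq_mul] at this
    rw [this, MonoidHom.one_apply, map_one]

theorem comm_of_phi (y : h.Y) {x : P} (hx : x ∈ Pr.phi P) : y * x = x * y := by
  have := h.beta_spec y x
  rw [hom_sg_phi _ hx, map_one, mul_one] at this
  exact mul_inv_eq_iff_eq_mul.1 this

variable [Finite P]

theorem card_le_of_top (hY : h.Y = ⊤) : Nat.card h.beta.range ≤ Nat.card (P →* ℤˣ) := by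
  have h1 : (Pr.phi P).subgroupOf h.Y ≤ h.beta.ker := fun y hy => h.beta_eq_one fun x =>
    (h.comm_of_phi ⟨x, hY ▸ mem_top x⟩ hy).symm
  rw [← index_ker]
  refine (index_antitone h1).trans (le_trans ?_ index_phi_le)
  exact Nat.le_of_dvd (Nat.pos_of_ne_zero index_ne_zero_of_finite)
    (relIndex_dvd_index_of_normal _ _)

theorem two_mul_card_le {Y : Subgroup P} (hY : Y ≠ ⊤) : 2 * Nat.card Y ≤ Nat.card P := by
  rw [← Y.index_mul_card]
  refine Nat.mul_le_mul_right _ ?_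
  have h1 : Y.index ≠ 1 := fun e => hY (index_eq_one.1 e)
  have h0 : Y.index ≠ 0 := index_ne_zero_of_finite
  omega

theorem card_le_of_ne_top (hY : h.Y ≠ ⊤) : 2 * (Nat.card h.beta.range * 2 ^ n) ≤ Nat.card P := by
  refine le_trans (Nat.mul_le_mul_left _ ?_) (two_mul_card_le hY)
  rw [← index_ker, ← h.beta.ker.index_mul_card, ← card_sg]
  refine Nat.mul_le_mul_left _ (Nat.card_le_card_of_injective
    (fun z => (⟨⟨ι z, 1, fun x => ?_⟩, h.beta_eq_one fun x => ?_⟩ : h.beta.ker)) fun a b e => ?_)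
  · rw [← mem_center_iff.1 (h.cen z) x]; simp
  · exact (mem_center_iff.1 (h.cen z) x).symm
  · exact h.inj (congrArg (fun t : h.beta.ker => ((t : h.Y) : P)) e)

theorem card_le_of_inv (hP : IsPGroup 2 P) (hY : h.Y ≠ ⊤) (hi : ∀ x : P, x * x = 1 → x ∈ ι.range) :
    2 * Nat.card h.beta.range ≤ Nat.card (P →* ℤˣ) * 2 ^ n := by
  set Y1 := (Pr.phi P).subgroupOf h.Y with hY1
  have hc : ∀ a b : Y1, a * b = b * a := fun a b =>
    Subtype.ext (Subtype.ext (h.comm_of_phi a b.2))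
  let s : Y1 →* Y1 := MonoidHom.mk' (fun a => a * a) fun a b => by
    rw [mul_assoc, ← mul_assoc b, ← hc a b]; group
  have h1 : s.range ≤ h.beta.ker.subgroupOf Y1 := by
    rintro _ ⟨a, rfl⟩
    change h.beta (a * a) = 1
    rw [map_mul]
    exact MonoidHom.ext fun x => sg_mul_self _
  have h2 : Nat.card s.ker ≤ 2 ^ n := by
    have : ∀ a : s.ker, ∃ z, ι z = ((a : Y1) : h.Y) := fun a =>
      hi _ (congrArg (fun t : Y1 => ((t : h.Y) : P)) a.2)
    choose c hc using this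
    rw [← card_sg]
    refine Nat.card_le_card_of_injective c fun a b e => Subtype.ext (Subtype.ext (Subtype.ext ?_))
    rw [← hc, ← hc, e]
  have h3 : h.beta.ker.relIndex Y1 ≤ 2 ^ n :=
    (index_antitone h1).trans (by rw [index_range]; exact h2)
  have h4 : 2 * Y1.index ≤ Nat.card (P →* ℤˣ) := by
    obtain ⟨l, hl, hlY⟩ := exists_char_of_ne_top hP hY
    refine le_trans ?_ index_phi_le
    have e1 : Y1 = ((QuotientGroup.mk' (Pr.phi P)).comp h.Y.subtype).ker := by
      ext y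
      simp [hY1, mem_subgroupOf]
    rw [e1, index_ker, index_eq_card]
    refine two_mul_card_le fun e => hl (MonoidHom.ext fun x => ?_)
    obtain ⟨y, hy⟩ : (x : P ⧸ Pr.phi P) ∈ _ := e ▸ mem_top _
    have h5 : (y : P)⁻¹ * x ∈ Pr.phi P := QuotientGroup.eq.1 hy
    have h6 := h5 l
    rwa [map_mul, map_inv, hlY y y.2, inv_one, one_mul] at h6
  rw [← index_ker]
  have h5 : h.beta.ker.index ≤ h.beta.ker.relIndex Y1 * Y1.index := by
    rw [← inf_relIndex_right, relIndex_mul_index inf_le_right]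
    exact index_antitone inf_le_left
  calc 2 * h.beta.ker.index ≤ 2 * (2 ^ n * Y1.index) :=
        Nat.mul_le_mul_left _ (h5.trans (Nat.mul_le_mul_right _ h3))
    _ = 2 * Y1.index * 2 ^ n := by ring
    _ ≤ _ := Nat.mul_le_mul_right _ h4

variable {Γ : Subgroup (MulAut P)} [Γ.Normal]
  (hinn : ∀ γ ∈ Γ, (∀ x, x⁻¹ * γ x ∈ ι.range) → ∃ y, ∀ x, γ x = y * x * y⁻¹)

omit [Finite P] in
include hinn in
theorem rk_eq {α : MulAut P} (hα : α ∈ Γ) {z z' : Fin n → ℤˣ} (hz : α (ι z) = ι z')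
    (l : P →* ℤˣ) : (rk P z l : _ ⧸ h.beta.range) = rk P z' (l.comp α⁻¹.toMonoidHom) := by
  obtain ⟨γ, hγ, hs⟩ := exists_comm hα l (h.cen z) (by rw [← map_mul, sg_mul_self, map_one])
    (h.phi z l) (by rw [hz]; exact h.phi z' l)
  have h1 : ∀ x, γ x = x * ι ((rk P z l * rk P z' (l.comp α⁻¹.toMonoidHom)) x) := fun x => by
    rw [hs, hz, MonoidHom.mul_apply, map_mul, rk_apply, rk_apply, map_pw, map_pw]
    rfl
  obtain ⟨y, hy⟩ := hinn γ hγ fun x => ⟨_, by rw [h1, inv_mul_cancel_left]⟩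
  have h2 := h.mem_range_beta (y := y) fun x => (hy x).symm.trans (h1 x)
  rw [QuotientGroup.eq]
  have : (rk P z l)⁻¹ = rk P z l := inv_eq_of_mul_eq_one_left (MonoidHom.ext fun x => sg_mul_self _)
  rwa [this]

include hinn in
theorem lower (htr : ∀ z z', z ≠ 1 → z' ≠ 1 → ∃ α ∈ Γ, α (ι z) = ι z')
    {z w w' : Fin n → ℤˣ} (hz : z ≠ 1) (hw : w ≠ w') {α : MulAut P} (hα : α ∈ Γ)
    (h1 : α (ι z) = ι z) (h2 : α (ι w) = ι w') (hL : 2 ≤ Nat.card (P →* ℤˣ)) :
    2 * Nat.card (P →* ℤˣ) ^ n ≤ Nat.card (P →* ℤˣ) * Nat.card h.beta.range := by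
  have : Finite (P →* ℤˣ) := Finite.of_injective _ DFunLike.coe_injective
  have : Finite (P →* (Fin n → ℤˣ)) := Finite.of_injective _ DFunLike.coe_injective
  let π : (P →* ℤˣ) →* (_ ⧸ h.beta.range) := (QuotientGroup.mk' _).comp (rk P z)
  have hπ : π.range = ⊤ := by
    refine eq_top_iff.2 fun f _ => ?_
    obtain ⟨f, rfl⟩ := QuotientGroup.mk'_surjective _ f
    rw [eq_prod_rk f, map_prod]
    refine prod_mem fun i _ => ?_
    obtain ⟨β, hβ, e⟩ := htr (Pi.mulSingle i (-1)) z (by simp) hz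
    exact ⟨_, (h.rk_eq hinn hβ e _).symm⟩
  have hk : π.ker ≠ ⊥ := by
    intro e
    have hi := (MonoidHom.ker_eq_bot_iff π).1 e
    have h3 : ∀ l : P →* ℤˣ, l = l.comp α⁻¹.toMonoidHom := fun l => hi (h.rk_eq hinn hα h1 l)
    have hne : w * w' ≠ 1 := fun e => hw (by
      rw [← mul_one w, ← sg_mul_self w', ← mul_assoc, e, one_mul])
    have h4 : ∀ l : P →* ℤˣ, (rk P (w * w') l : _ ⧸ h.beta.range) = 1 := fun l => by
      rw [mul_rk, QuotientGroup.mk_mul, h.rk_eq hinn hα h2 l, ← h3, ← QuotientGroup.mk_mul,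
        ← mul_rk, sg_mul_self, one_rk, QuotientGroup.mk_one]
    obtain ⟨β, hβ, e⟩ := htr z (w * w') hz hne
    have h5 : ∀ l : P →* ℤˣ, l = 1 := fun l =>
      hi ((h.rk_eq hinn hβ e l).trans ((h4 _).trans (map_one π).symm))
    have : Nat.card (P →* ℤˣ) = 1 := Nat.card_eq_one_iff_exists.2 ⟨1, h5⟩
    omega
  have h6 : 2 ≤ Nat.card π.ker := (one_lt_card_iff_ne_bot _).2 hk
  have h7 := π.ker.card_mul_index
  rw [index_ker, hπ, card_top] at h7
  rw [← card_hom_sg, card_eq_card_quotient_mul_card_subgroup h.beta.range, ← h7, ← mul_assoc]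
  exact Nat.mul_le_mul_right _ (Nat.mul_le_mul_right _ h6)

include h hinn in
/-- The two numerical contradictions. -/
theorem false_of (hP : IsPGroup 2 P) (htr : ∀ z z', z ≠ 1 → z' ≠ 1 → ∃ α ∈ Γ, α (ι z) = ι z')
    {z w w' : Fin n → ℤˣ} (hz : z ≠ 1) (hw : w ≠ w') {α : MulAut P} (hα : α ∈ Γ)
    (h1 : α (ι z) = ι z) (h2 : α (ι w) = ι w') (hn : 2 ≤ n)
    (hc : (3 ≤ n ∧ ∀ x : P, x * x = 1 → x ∈ ι.range) ∨ Nat.card P ≤ 2 * (2 ^ n * 2 ^ n)) :
    False := by
  have hL : 3 ≤ Nat.card (P →* ℤˣ) := three_le_card_char hP fun hc => by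
    have := isCyclic_of_injective ι h.inj
    have h3 : Monoid.exponent (Fin n → ℤˣ) ∣ 2 :=
      Monoid.exponent_dvd_of_forall_pow_eq_one fun a => by rw [pow_two, sg_mul_self]
    rw [IsCyclic.exponent_eq_card, card_sg] at h3
    have := Nat.le_of_dvd two_pos h3
    have := Nat.pow_le_pow_right two_pos hn
    omega
  have hlow := h.lower hinn htr hz hw hα h1 h2 (by omega)
  have hlt : ∀ m, m ≠ 0 → 2 ^ m < Nat.card (P →* ℤˣ) ^ m := fun m hm =>
    Nat.pow_lt_pow_left (by omega) hm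
  by_cases hY : h.Y = ⊤
  · have h3 := hlow.trans (Nat.mul_le_mul_left _ (h.card_le_of_top hY))
    have h4 := Nat.pow_le_pow_right (by omega : 0 < Nat.card (P →* ℤˣ)) hn
    have h5 : 0 < Nat.card (P →* ℤˣ) ^ n := by positivity
    rw [pow_two] at h4
    omega
  rcases hc with ⟨h3, hi⟩ | hc
  · have h4 := h.card_le_of_inv hP hY hi
    obtain ⟨m, rfl⟩ : ∃ m, n = m + 2 := ⟨n - 2, by omega⟩
    have h5 := hlt m (by omega)
    generalize Nat.card (P →* ℤˣ) = L at *
    generalize Nat.card h.beta.range = M at *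
    have h6 : L * L * (4 * L ^ m) ≤ L * L * (4 * 2 ^ m) := calc
      L * L * (4 * L ^ m) = 2 * (2 * L ^ (m + 2)) := by ring
      _ ≤ 2 * (L * M) := Nat.mul_le_mul_left _ hlow
      _ = L * (2 * M) := by ring
      _ ≤ L * (L * 2 ^ (m + 2)) := Nat.mul_le_mul_left _ h4
      _ = _ := by ring
    have := Nat.le_of_mul_le_mul_left h6 (by positivity)
    omega
  · have h4 := Nat.le_of_mul_le_mul_right (Nat.le_of_mul_le_mul_left
      ((h.card_le_of_ne_top hY).trans hc) two_pos) (by positivity)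
    obtain ⟨m, rfl⟩ : ∃ m, n = m + 1 := ⟨n - 1, by omega⟩
    have h5 := hlt m (by omega)
    generalize Nat.card (P →* ℤˣ) = L at *
    have h6 : L * (2 * L ^ m) ≤ L * (2 * 2 ^ m) := calc
      L * (2 * L ^ m) = 2 * L ^ (m + 1) := by ring
      _ ≤ L * 2 ^ (m + 1) := hlow.trans (Nat.mul_le_mul_left _ h4)
      _ = _ := by ring
    have := Nat.le_of_mul_le_mul_left h6 (by omega)
    omega

end CE

/-! ### Automorphisms of odd order -/

theorem fix_of_comm [Finite P] (hP : IsPGroup 2 P) {g : MulAut P} (hg : Odd (orderOf g))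
    (hi : ∀ x : P, x * x = 1 → g x = x) {S : Set P} (hS : ∀ a ∈ S, ∀ b ∈ S, a * b = b * a)
    (hm : ∀ a ∈ S, a * a ∈ S) (hgS : ∀ a ∈ S, g a ∈ S) {a : P} (ha : a ∈ S) : g a = a := by
  obtain ⟨k, hk⟩ := hP a
  induction k generalizing a with
  | zero => rw [pow_zero, pow_one] at hk; rw [hk, map_one]
  | succ k ih =>
    have h1 := ih (hm a ha) (by rw [← pow_two, ← pow_mul, ← pow_succ', hk])
    have hc : Commute (g a) a := hS _ (hgS a ha) _ ha
    set e := a⁻¹ * g a with he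
    have h2 : e * e = 1 := by
      have : e * e = a⁻¹ * (g a * a⁻¹) * g a := by rw [he]; group
      rw [this, hc.inv_right.eq, mul_assoc, mul_assoc, ← map_mul, h1]; group
    have h3 : ∀ j : ℕ, (g ^ j) a = a * e ^ j := fun j => by
      induction j with
      | zero => simp
      | succ j ih =>
        rw [pow_succ', MulAut.mul_apply, ih, map_mul, map_pow, hi e h2, pow_succ', ← mul_assoc, he,
          mul_inv_cancel_left]
    have h4 := h3 (orderOf g)
    obtain ⟨j, hj⟩ := hg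
    rw [pow_orderOf_eq_one, MulAut.one_apply, left_eq_mul, hj, pow_succ, pow_mul, pow_two, h2,
      one_pow, one_mul, he] at h4
    exact (inv_mul_eq_one.1 h4).symm

theorem eq_one_of_char [Finite P] (hP : IsPGroup 2 P) {g : MulAut P} (hg : Odd (orderOf g))
    {Z : Subgroup P} (hZ : ∀ z ∈ Z, g z = z)
    (hl : ∀ l : P →* ℤˣ, (∀ z ∈ Z, l z = 1) → ∀ x, l (g x) = l x) : g = 1 := by
  classical
  by_contra h1
  have h0 : orderOf g ≠ 1 := fun e => h1 (orderOf_eq_one_iff.1 e)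
  obtain ⟨r, hr, k, hk⟩ := Nat.exists_prime_and_dvd h0
  have hk0 : k ≠ 0 := by rintro rfl; exact (orderOf_pos g).ne' hk
  have : Fact r.Prime := ⟨hr⟩
  set g' := g ^ k with hg'
  have hZ' : ∀ j : ℕ, ∀ z ∈ Z, (g ^ j) z = z := fun j z hz => by
    induction j with
    | zero => rfl
    | succ j ih => rw [pow_succ, MulAut.mul_apply, hZ z hz, ih]
  have hl' : ∀ j : ℕ, ∀ l : P →* ℤˣ, (∀ z ∈ Z, l z = 1) → ∀ x, l ((g ^ j) x) = l x :=
    fun j l h x => by
      induction j with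
      | zero => rfl
      | succ j ih => rw [pow_succ', MulAut.mul_apply, hl l h, ih]
  let C : Subgroup P := g'.toMonoidHom.eqLocus (MonoidHom.id P)
  have hC : C ≠ ⊤ := fun e => by
    have : g' = 1 := MulEquiv.ext fun x => (e ▸ mem_top x : x ∈ C)
    have h2 := Nat.le_of_dvd (Nat.pos_of_ne_zero hk0) (orderOf_dvd_of_pow_eq_one this)
    have := hr.two_le
    rw [hk] at h2
    have := Nat.pos_of_ne_zero hk0
    nlinarith
  obtain ⟨l, hl1, hlC⟩ := exists_char_of_ne_top hP hC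
  obtain ⟨x, hx⟩ : ∃ x, l x ≠ 1 := by
    by_contra h
    push Not at h
    exact hl1 (MonoidHom.ext h)
  let N : Subgroup P :=
    { carrier := {y | ∀ l : P →* ℤˣ, (∀ z ∈ Z, l z = 1) → l y = 1}
      one_mem' := fun l _ => map_one l
      mul_mem' := fun ha hb l h => by rw [map_mul, ha l h, hb l h, mul_one]
      inv_mem' := fun ha l h => by rw [map_inv, ha l h, inv_one] }
  have hN : ∀ y, x⁻¹ * g' y ∈ N ↔ x⁻¹ * y ∈ N := fun y => by
    refine forall_congr' fun l => forall_congr' fun h => ?_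
    rw [map_mul, map_mul, hl' k l h]
  let σ : Equiv.Perm {y // x⁻¹ * y ∈ N} := Equiv.Perm.subtypePerm g'.toEquiv hN
  have := Fintype.ofFinite {y // x⁻¹ * y ∈ N}
  have hcard : Fintype.card {y // x⁻¹ * y ∈ N} = Nat.card N := by
    rw [← Nat.card_eq_fintype_card]
    exact Nat.card_congr ((Equiv.mulLeft x⁻¹).subtypeEquiv fun _ => Iff.rfl)
  obtain ⟨y, hy⟩ := Equiv.Perm.exists_fixed_point_of_prime (p := r) (n := 1) (σ := σ) (by
    obtain ⟨m, hm⟩ := IsPGroup.iff_card.1 (hP.to_subgroup N)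
    rw [hcard, hm]
    intro hd
    have h2 := (Nat.prime_dvd_prime_iff_eq hr Nat.prime_two).1 (hr.dvd_of_dvd_pow hd)
    rw [hk, h2] at hg
    exact (Nat.not_odd_iff_even.2 (even_two_mul k)) hg) (by
    have h2 : g' ^ r = 1 := by rw [hg', ← pow_mul, mul_comm, ← hk, pow_orderOf_eq_one]
    ext y
    rw [pow_one, Equiv.Perm.subtypePerm_pow, Equiv.Perm.subtypePerm_apply]
    change ((MulAut.toPerm P g' ^ r) y) = y
    rw [← map_pow, h2, map_one, Equiv.Perm.one_apply])
  have h3 : l y = 1 := hlC y (congrArg Subtype.val hy)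
  have h4 := y.2 l fun z hz => hlC z (hZ' k z hz)
  rw [map_mul, h3, mul_one, map_inv, inv_eq_one] at h4
  exact hx h4

/-- If all involutions lie in a central subgroup with at least two involutions, then an element of
odd order of `Γ` centralising them is trivial. -/
theorem eq_one_of_central [Finite P] (hP : IsPGroup 2 P) {Z : Subgroup P} (hc : Z ≤ center P)
    (hi : ∀ x : P, x * x = 1 ↔ x ∈ Z) {z₁ z₂ : P} (h1 : z₁ ∈ Z) (h2 : z₂ ∈ Z) (n1 : z₁ ≠ 1)
    (n2 : z₂ ≠ 1) (n3 : z₁ ≠ z₂) {Γ : Subgroup (MulAut P)} [Γ.Normal]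
    (hinn : ∀ γ ∈ Γ, (∀ x, x⁻¹ * γ x ∈ Z) → ∃ y, ∀ x, γ x = y * x * y⁻¹) {g : MulAut P}
    (hg : g ∈ Γ) (ho : Odd (orderOf g)) (hZ : ∀ z ∈ Z, g z = z) : g = 1 := by
  have key : ∀ z ∈ Z, ∀ l : P →* ℤˣ, (∀ z ∈ Z, l z = 1) →
      ∃ y, ∀ x, y * x * y⁻¹ = x * pw z (l x * l (g⁻¹ x)) := fun z hz l hl => by
    obtain ⟨γ, hγ, hs⟩ := exists_comm hg l (hc hz) ((hi z).2 hz) (hl z hz) (by
      rw [hZ z hz]; exact hl z hz)
    simp only [hZ z hz, ← pw_mul ((hi z).2 hz)] at hs
    obtain ⟨y, hy⟩ := hinn γ hγ fun x => by rw [hs, inv_mul_cancel_left]; exact pw_mem hz _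
    exact ⟨y, fun x => (hy x).symm.trans (hs x)⟩
  have hZ' : ∀ z ∈ Z, g⁻¹ z = z := fun z hz => by
    conv_lhs => rw [← hZ z hz]
    exact MulAut.inv_apply_self _ g z
  let S : Set P := {y | ∃ l : P →* ℤˣ, (∀ z ∈ Z, l z = 1) ∧
    ∀ x, y * x * y⁻¹ = x * pw z₁ (l x * l (g⁻¹ x))}
  have hk : ∀ y ∈ S, ∀ l : P →* ℤˣ, (∀ z ∈ Z, l z = 1) → l y * l (g⁻¹ y) = 1 := by
    rintro y ⟨m, hm, hy⟩ l hl
    obtain ⟨w, hw⟩ := key z₂ h2 l hl
    have e1 := hy w
    have e2 := hw y
    set a := pw z₁ (m w * m (g⁻¹ w)) with ha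
    set b := pw z₂ (l y * l (g⁻¹ y)) with hb
    have ca : ∀ t, t * a = a * t := mem_center_iff.1 (pw_mem (hc h1) _)
    have cb : ∀ t, t * b = b * t := mem_center_iff.1 (pw_mem (hc h2) _)
    have e3 : a * b = 1 := by
      have f1 : y * w = w * a * y := by rw [← e1]; group
      have f2 : w * y = y * b * w := by rw [← e2]; group
      rw [mul_assoc, ← ca y, ← mul_assoc, f2, mul_assoc y, ← cb w, ← mul_assoc, mul_assoc,
        left_eq_mul] at f1
      rw [cb, f1]
    rcases Int.units_eq_one_or (l y * l (g⁻¹ y)) with e | e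
    · exact e
    rw [e, pw_neg] at hb
    rcases Int.units_eq_one_or (m w * m (g⁻¹ w)) with e' | e'
    · rw [e', pw_one] at ha
      rw [ha, hb, one_mul] at e3
      exact absurd e3 n2
    · rw [e', pw_neg] at ha
      rw [ha, hb, ← (hi z₂).2 h2, mul_left_inj] at e3
      exact absurd e3 n3
  have hS : ∀ a ∈ S, ∀ b ∈ S, a * b = b * a := by
    rintro a ⟨m, hm, ha⟩ b hb
    have := ha b
    rw [hk b hb m hm, pw_one, mul_one] at this
    exact mul_inv_eq_iff_eq_mul.1 this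
  have hfix : ∀ a ∈ S, g a = a := fun a ha => by
    refine fix_of_comm hP ho (fun x hx => hZ x ((hi x).1 hx)) hS ?_ ?_ ha
    · rintro a ⟨m, hm, ha⟩
      refine ⟨1, fun _ _ => rfl, fun x => ?_⟩
      have : a * a * x * (a * a)⁻¹ = a * (a * x * a⁻¹) * a⁻¹ := by group
      rw [this, ha x, ← mul_assoc, mul_assoc, mem_center_iff.1 (pw_mem (hc h1) _) a⁻¹ |>.symm,
        ← mul_assoc, ha x, mul_assoc, pw_mul_self ((hi z₁).2 h1)]
      simp [pw_one]
    · rintro a ⟨m, hm, ha⟩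
      refine ⟨m.comp g⁻¹.toMonoidHom, fun z hz => ?_, fun x => ?_⟩
      · change m (g⁻¹ z) = 1
        rw [hZ' z hz, hm z hz]
      · have := congrArg g (ha (g⁻¹ x))
        rw [map_mul, map_mul, map_mul, map_inv, MulAut.apply_inv_self, map_pw, hZ z₁ h1] at this
        exact this
  refine eq_one_of_char hP ho hZ fun l hl => ?_
  obtain ⟨y, hy⟩ := key z₁ h1 l hl
  have h3 : ∀ x, l (g (g x)) = l x := fun x => by
    have e1 := congrArg g (hy (g x))
    rw [map_mul, map_mul, map_mul, map_inv, map_pw, hZ z₁ h1, hfix y ⟨l, hl, hy⟩, hy,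
      mul_right_inj, MulAut.inv_apply_self, MulAut.inv_apply_self] at e1
    have e2 := pw_inj n1 e1
    rw [mul_comm, mul_right_inj] at e2
    exact e2
  have h4 : ∀ j : ℕ, ∀ x, l ((g ^ (2 * j)) x) = l x := fun j => by
    induction j with
    | zero => intro x; rfl
    | succ j ih =>
      intro x
      rw [mul_add, mul_one, pow_add, MulAut.mul_apply, ih, pow_two, MulAut.mul_apply, h3]
  intro x
  obtain ⟨j, hj⟩ := ho
  rw [← h4 j (g x), ← MulAut.mul_apply, ← pow_succ, ← hj, pow_orderOf_eq_one, MulAut.one_apply]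

end Cfsg.Agent.Pr
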