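import Mathlib
import Cfsg.Agent.Pres.HomB
import Cfsg.Agent.Cl.LinearBasic
import Cfsg.Agent.S0071
import Cfsg.Agent.S0215

/-!
# The `2`-local structure of homogeneous groups
-/

set_option autoImplicit false

namespace Cfsg.Agent.Pr

open Subgroup Inv.Fz

theorem CE.fix {P : Type*} [Group P] {n : ℕ} {ι : (Fin n → ℤˣ) →* P} (h : CE ι) {γ : MulAut P}
    (hγ : ∀ x, x⁻¹ * γ x ∈ ι.range) :
    (∀ z, γ (ι z) = ι z) ∧ ∀ x, γ (γ x) = x := by
  choose s hs using hγ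
  have h1 : ∀ x, γ x = x * ι (s x) := fun x => by rw [hs, mul_inv_cancel_left]
  let f : P →* (Fin n → ℤˣ) := MonoidHom.mk' s fun a b => h.inj <| by
    rw [hs, map_mul, h1 a, h1 b, map_mul, mul_assoc a, ← mul_assoc (ι (s a)),
      ← mem_center_iff.1 (h.cen _) b]
    group
  have h2 : ∀ z, γ (ι z) = ι z := fun z => by
    rw [h1, show s (ι z) = 1 from hom_sg_phi f (h.phi z), map_one, mul_one]
  refine ⟨h2, fun x => ?_⟩
  rw [h1 x, map_mul, h2, h1 x, mul_assoc, ← map_mul, sg_mul_self, map_one, mul_one]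

variable {G : Type*} [Group G] [Finite G]

theorem exists_iota {H P : Subgroup G} (hHP : H ≤ P) (hc : ∀ a ∈ H, ∀ b ∈ H, a * b = b * a)
    (h2 : ∀ a ∈ H, a * a = 1) {n : ℕ} (hn : Nat.card H = 2 ^ n) :
    ∃ ι : (Fin n → ℤˣ) →* P, Function.Injective ι ∧ ∀ x : P, x ∈ ι.range ↔ (x : G) ∈ H := by
  obtain ⟨e⟩ := GT.PG.nonempty_mulEquiv_of_elementary (G := Fin n → ℤˣ) (H := H) (p := 2)
    inferInstance (fun x => by rw [pow_two, sg_mul_self])
    ⟨⟨fun a b => Subtype.ext (hc a a.2 b b.2)⟩⟩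
    (fun x => Subtype.ext (by rw [pow_two]; exact h2 x x.2)) (card_sg.trans hn.symm)
  refine ⟨(inclusion hHP).comp e.toMonoidHom, (inclusion_injective hHP).comp e.injective,
    fun x => ⟨?_, fun hx => ⟨e.symm ⟨x, hx⟩, Subtype.ext (by simp)⟩⟩⟩
  rintro ⟨z, rfl⟩
  exact (e z).2

theorem Homog.false_of_local (hG : Homog G) {H P L : Subgroup G} (hP : IsSylIn 2 P L)
    (hHP : H ≤ P) (h2 : ∀ a ∈ H, a * a = 1) (hL : L ≤ centralizer (H : Set G))
    (hphi : ∀ a : P, (a : G) ∈ H → a ∈ phi P)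
    (hmem : ∀ t ∈ normalizer (P : Set G), t ∈ centralizer (H : Set G) →
      (∀ x ∈ P, x⁻¹ * (t * x * t⁻¹) ∈ H) → t ∈ L)
    (htr : ∀ z ∈ H, ∀ z' ∈ H, z ≠ 1 → z' ≠ 1 → ∃ g ∈ normalizer (L : Set G), g * z * g⁻¹ = z')
    (hst : ∀ z ∈ H, ∀ w ∈ H, w ∉ zpowers z →
      ∃ g ∈ normalizer (L : Set G), g * z * g⁻¹ = z ∧ g * w * g⁻¹ = w * z)
    {n : ℕ} (hn : Nat.card H = 2 ^ n) (h2n : 2 ≤ n)
    (hc : (3 ≤ n ∧ ∀ x ∈ P, x * x = 1 → x ∈ H) ∨ Nat.card P ≤ 2 * (2 ^ n * 2 ^ n)) : False := by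
  have hcm : ∀ x ∈ L, ∀ a ∈ H, a * x = x * a := fun x hx => mem_centralizer_iff.1 (hL hx)
  obtain ⟨ι, hι, hr⟩ := exists_iota hHP (fun a ha b hb => hcm b (hP.le (hHP hb)) a ha) h2 hn
  have hm : ∀ z, (ι z : G) ∈ H := fun z => (hr _).1 ⟨z, rfl⟩
  have h : CE ι := ⟨hι, fun z => mem_center_iff.2 fun x =>
    Subtype.ext (hcm x (hP.le x.2) _ (hm z)).symm, fun z => hphi _ (hm z)⟩
  have := hG.autG_normal P
  have hind : ∀ g ∈ normalizer (L : Set G), ∃ α ∈ autG P, ∀ a : P, g * a * g⁻¹ ∈ H →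
      (α a : G) = g * a * g⁻¹ := fun g hg => by
    obtain ⟨k, hk, hkg⟩ := hP.frattini hg
    obtain ⟨α, hα, hs⟩ := exists_aut_of_mem hkg
    refine ⟨α, hα, fun a ha => ?_⟩
    rw [hs, show k * g * a * (k * g)⁻¹ = k * (g * a * g⁻¹) * k⁻¹ by group, ← hcm k hk _ ha,
      mul_inv_cancel_right]
  have hne : ∀ z, z ≠ 1 → (ι z : G) ≠ 1 := fun z hz e =>
    hz (hι (Subtype.ext (e.trans (by rw [map_one]; rfl))))
  obtain ⟨m, rfl⟩ : ∃ m, n = m + 2 := ⟨n - 2, by omega⟩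
  let z : Fin (m + 2) → ℤˣ := Pi.mulSingle 0 (-1)
  let w : Fin (m + 2) → ℤˣ := Pi.mulSingle 1 (-1)
  have hz : z ≠ 1 := by simp [z]
  obtain ⟨g, hg, e1, e2⟩ := hst _ (hm z) _ (hm w) (by
    rintro ⟨k, hk⟩
    have : z ^ k = w := hι (Subtype.ext (by rw [map_zpow]; exact hk))
    have := congrFun this 1
    simp [z, w] at this)
  obtain ⟨α, hα, hs⟩ := hind g hg
  refine h.false_of (Γ := autG P) ?_ hP.isPGroup ?_ (z := z) (w := w) (w' := w * z) hz
    (by simpa using hz) hα (Subtype.ext ((hs _ (e1.symm ▸ hm z)).trans e1))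
    (Subtype.ext ((hs _ (e2.symm ▸ mul_mem (hm w) (hm z))).trans (by rw [e2, map_mul]; rfl))) h2n
    (hc.imp_left fun hc => ⟨hc.1, fun x hx =>
      (hr x).2 (hc.2 x x.2 (congrArg Subtype.val hx))⟩)
  · rintro γ ⟨t, ht⟩ hγ
    obtain ⟨f1, f2⟩ := h.fix hγ
    have htn := mem_normalizer_of_aut ht
    obtain ⟨y, hy, hs⟩ := inner_of_syl hP htn (hmem t htn (mem_centralizer_iff.2 fun a ha => by
      obtain ⟨u, hu⟩ := (hr ⟨a, hHP ha⟩).2 ha
      have := ht (ι u)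
      rw [f1, hu] at this
      exact mul_inv_eq_iff_eq_mul.1 this.symm |>.symm) fun x hx => by
        have := (hr _).1 (hγ ⟨x, hx⟩)
        rwa [coe_mul, ht] at this) fun x hx => by
      have := congrArg Subtype.val (f2 ⟨x, hx⟩)
      rw [ht, ht] at this
      conv_rhs => rw [← show t * (t * x * t⁻¹) * t⁻¹ = x from this]
      group
    exact ⟨⟨y, hy⟩, fun x => Subtype.ext ((ht x).trans (hs x x.2))⟩
  · intro a b ha hb
    obtain ⟨g, hg, e⟩ := htr _ (hm a) _ (hm b) (hne a ha) (hne b hb)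
    obtain ⟨α, hα, hs⟩ := hind g hg
    exact ⟨α, hα, Subtype.ext ((hs _ (e.symm ▸ hm b)).trans e)⟩

section full

variable {E : Subgroup G} (hc : ∀ a ∈ E, ∀ b ∈ E, a * b = b * a) (h2 : ∀ a ∈ E, a * a = 1)
  (hE : autG E = ⊤)
include hc h2 hE

omit [Finite G] in
theorem exists_tv {v : G} (hv : v ∈ E) (l : E →* ℤˣ) (hl : l ⟨v, hv⟩ = 1) :
    ∃ g ∈ normalizer (E : Set G), ∀ x : E, g * x * g⁻¹ = x * pw v (l x) := by
  obtain ⟨g, hg⟩ : tv (⟨v, hv⟩ : E) l (mem_center_iff.2 fun x => Subtype.ext (hc _ x.2 _ hv))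
    (Subtype.ext (h2 v hv)) hl ∈ autG E := hE ▸ mem_top _
  refine ⟨g, mem_normalizer_of_aut hg, fun x => ?_⟩
  rw [← hg, tv_apply, coe_mul]
  exact congrArg _ (map_pw E.subtype _ _)

theorem exists_stab {H : Subgroup G} (hH : H ≤ E) {z w : G} (hz : z ∈ H) (hw : w ∈ E)
    (h : w ∉ zpowers z) : ∃ g ∈ normalizer (E : Set G) ⊓ normalizer (H : Set G),
      g * z * g⁻¹ = z ∧ g * w * g⁻¹ = w * z := by
  obtain ⟨l, h1, h3⟩ := exists_char_sep (P := E) (fun a b => Subtype.ext (hc _ a.2 _ b.2))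
    (fun a => Subtype.ext (h2 _ a.2)) (W := (zpowers z).subgroupOf E) (v := ⟨w, hw⟩) h
  have h4 := h1 ⟨z, hH hz⟩ (mem_zpowers z)
  obtain ⟨g, hg, hs⟩ := exists_tv hc h2 hE (hH hz) l h4
  refine ⟨g, ⟨hg, mem_normalizer_of_conj_mem fun x hx => ?_⟩, ?_, ?_⟩
  · exact (hs ⟨x, hH hx⟩).symm ▸ mul_mem hx (pw_mem hz _)
  · have := hs ⟨z, hH hz⟩
    rwa [h4, pw_one, mul_one] at this
  · have := hs ⟨w, hw⟩
    rwa [h3, pw_neg] at this

theorem exists_trans {H : Subgroup G} (hH : H ≤ E) {z w : G} (hz : z ∈ H) (hw : w ∈ H)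
    (h1 : z ≠ 1) (h3 : w ≠ 1) :
    ∃ g ∈ normalizer (E : Set G) ⊓ normalizer (H : Set G), g * z * g⁻¹ = w := by
  by_cases e : z = w
  · exact ⟨1, one_mem _, by simp [e]⟩
  obtain ⟨g, hg, -, h4⟩ := exists_stab hc h2 hE hH (mul_mem hz hw) (hH hz) (by
    intro h
    have h5 : (z * w) ^ 2 = 1 := by rw [pow_two]; exact h2 _ (hH (mul_mem hz hw))
    obtain ⟨k, hk⟩ := mem_zpowers_iff.1 h
    rw [zpow_eq_zpow_emod' k h5] at hk
    rcases Int.emod_two_eq_zero_or_one k with e | e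
    · rw [show k % ((2 : ℕ) : ℤ) = 0 from e, zpow_zero] at hk
      exact h1 hk.symm
    · rw [show k % ((2 : ℕ) : ℤ) = 1 from e, zpow_one, mul_eq_left] at hk
      exact h3 hk)
  exact ⟨g, hg, by rw [h4, ← mul_assoc, h2 z (hH hz), one_mul]⟩

end full

/-- The normaliser of a maximal elementary abelian `2`-subgroup of rank at least three
centralises it. -/
theorem Homog.normalizer_le (hG : Homog G) {E : Subgroup G} (hc : ∀ a ∈ E, ∀ b ∈ E, a * b = b * a)
    (h2 : ∀ a ∈ E, a * a = 1) (hmax : ∀ x ∈ centralizer (E : Set G), x * x = 1 → x ∈ E) {n : ℕ}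
    (hn : Nat.card E = 2 ^ n) (h3 : 3 ≤ n) : normalizer (E : Set G) ≤ centralizer (E : Set G) := by
  have hcE : IsMulCommutative E := ⟨⟨fun a b => Subtype.ext (hc a a.2 b b.2)⟩⟩
  have hsq : ∀ x : E, x ^ 2 = 1 := fun x => Subtype.ext (by rw [pow_two]; exact h2 x x.2)
  obtain ⟨e⟩ := GT.PG.nonempty_mulAut_equiv_GL hcE hsq hn
  have := Cl.psl_fin_isSimpleGroup (F := ZMod 2) (n := n) (by omega) (by omega)
  have := ((Cl.pslEquivGLOfCardTwo (ι := Fin n) (F := ZMod 2) (by simp)).trans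
    e.symm).symm.isSimpleGroup
  rcases (hG.autG_normal E).eq_bot_or_eq_top with hE | hE
  · intro g hg
    obtain ⟨α, hα, hs⟩ := exists_aut_of_mem hg
    rw [hE, mem_bot] at hα
    refine mem_centralizer_iff.2 fun a ha => ?_
    have := hs ⟨a, ha⟩
    rw [hα] at this
    exact (mul_inv_eq_iff_eq_mul.1 this.symm).symm
  exfalso
  have hEp : IsPGroup 2 E := IsPGroup.of_card hn
  have hEC : E ≤ centralizer (E : Set G) := fun a ha => mem_centralizer_iff.2 fun b hb => hc b hb a ha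
  obtain ⟨D, hD, hED⟩ := exists_isSylIn hEp hEC
  have hNC := normalizer_le_normalizer_centralizer E
  by_cases hDE : D ≤ E
  swap
  · refine hG.false_of_local hD hED h2 le_rfl ?_ (fun t _ ht _ => ht) ?_ ?_ hn (by omega)
      (Or.inl ⟨h3, fun x hx => hmax x (hD.le hx)⟩)
    · obtain ⟨a, ha, haE⟩ : ∃ a ∈ D, a ∉ E ∧ a * a ∈ E := by
        obtain ⟨a, ha, haE⟩ := SetLike.not_le_iff_exists.1 hDE
        obtain ⟨k, hk⟩ := hD.isPGroup ⟨a, ha⟩
        have hk' : a ^ 2 ^ k = 1 := congrArg Subtype.val hk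
        clear hk
        induction k generalizing a with
        | zero => exact absurd ((by simpa using hk' : a = 1) ▸ one_mem E) haE
        | succ k ih =>
          by_cases h : a * a ∈ E
          · exact ⟨a, ha, haE, h⟩
          · exact ih (a * a) (mul_mem ha ha) h (by rw [← pow_two, ← pow_mul, ← pow_succ', hk'])
      intro z hz l
      by_cases h1 : (z : G) = 1
      · rw [show z = 1 from Subtype.ext h1, map_one]
      obtain ⟨g, hg, e⟩ := exists_trans hc h2 hE le_rfl haE.2 hz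
        (fun e => haE.1 (hmax a (hD.le ha) e)) h1
      obtain ⟨k, hk, hkg⟩ := hD.frattini (hNC hg.1)
      have hb : k * g * a * (k * g)⁻¹ ∈ D := (mem_normalizer_iff.1 hkg a).1 ha
      have : z = ⟨_, hb⟩ * ⟨_, hb⟩ := Subtype.ext (by
        change _ = k * g * a * (k * g)⁻¹ * (k * g * a * (k * g)⁻¹)
        rw [show k * g * a * (k * g)⁻¹ * (k * g * a * (k * g)⁻¹) = k * (g * (a * a) * g⁻¹) * k⁻¹ by
          group, e, ← mem_centralizer_iff.1 hk _ hz, mul_inv_cancel_right])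
      rw [this, map_mul, Int.units_mul_self]
    · intro z hz w hw h1 h4
      obtain ⟨g, hg, e⟩ := exists_trans hc h2 hE le_rfl hz hw h1 h4
      exact ⟨g, hNC hg.1, e⟩
    · intro z hz w hw h1
      obtain ⟨g, hg, e⟩ := exists_stab hc h2 hE le_rfl hz hw h1
      exact ⟨g, hNC hg.1, e⟩
  obtain rfl : D = E := le_antisymm hDE hED
  obtain ⟨m, rfl⟩ : ∃ m, n = m + 1 := ⟨n - 1, by omega⟩
  have hnt : (⊥ : Subgroup D) ≠ ⊤ := fun e => by
    have := card_bot (G := D)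
    rw [e, card_top, hn] at this
    simp at this
  obtain ⟨l, hl, -⟩ := exists_char_of_ne_top hEp hnt
  obtain ⟨e0, he0⟩ : ∃ x, l x = -1 := by
    by_contra h
    push Not at h
    exact hl (MonoidHom.ext fun x => (Int.units_eq_one_or _).resolve_right (h x))
  set H := l.ker.map D.subtype with hH
  have hHD : H ≤ D := map_subtype_le _
  have hmH : ∀ x : D, (x : G) ∈ H ↔ l x = 1 := fun x =>
    ⟨fun ⟨y, hy, e⟩ => (Subtype.ext e : y = x) ▸ hy, fun h => ⟨x, h, rfl⟩⟩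
  have hcH : Nat.card H = 2 ^ m := by
    have h4 := l.ker.card_mul_index
    have h5 : l.range = ⊤ := eq_top_iff.2 fun u _ => by
      rcases Int.units_eq_one_or u with rfl | rfl
      · exact one_mem _
      · exact ⟨e0, he0⟩
    rw [index_ker, h5, card_top, hn, pow_succ] at h4
    rw [hH, card_subtype]
    simpa using h4
  set L := normalizer (D : Set G) ⊓ centralizer (H : Set G) with hL
  have hCL : centralizer (D : Set G) ≤ L :=
    le_inf (centralizer_le_normalizer _) (centralizer_le hHD)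
  obtain ⟨R, hR, hDR⟩ := exists_isSylIn hEp (hEC.trans hCL)
  have hNL : normalizer (D : Set G) ⊓ normalizer (H : Set G) ≤ normalizer (L : Set G) := by
    intro g hg
    rw [← cj_eq_iff, hL, cj_inf, cj_normalizer, cj_centralizer, cj_eq_iff.2 hg.1, cj_eq_iff.2 hg.2]
  have hdel : ∀ r ∈ L, r * e0 * r⁻¹ * (e0 : G)⁻¹ ∈ H := fun r hr => by
    have h4 : r * e0 * r⁻¹ ∈ D := (mem_normalizer_iff.1 hr.1 _).1 e0.2
    refine (hmH (⟨_, h4⟩ * e0⁻¹)).2 ?_
    rw [map_mul, map_inv, he0, (Int.units_eq_one_or (l ⟨_, h4⟩)).resolve_left fun e => ?_,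
      mul_inv_cancel]
    have h5 := mem_centralizer_iff.1 hr.2 _ ((hmH _).2 e)
    have h6 : r * e0 * r⁻¹ = e0 := by
      have h7 : r * e0 * r⁻¹ * r = r * (r * e0 * r⁻¹) := h5
      rw [inv_mul_cancel_right, mul_right_inj] at h7
      exact h7.symm
    rw [show (⟨_, h4⟩ : D) = e0 from Subtype.ext h6, he0] at e
    exact absurd e (by decide)
  have hcen : ∀ r ∈ L, r * e0 * r⁻¹ * (e0 : G)⁻¹ = 1 → r ∈ centralizer (D : Set G) := by
    intro r hr e
    refine mem_centralizer_iff.2 fun a ha => ?_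
    have h4 : r * e0 = e0 * r := by rw [← mul_inv_eq_iff_eq_mul, ← mul_inv_eq_one, e]
    rcases Int.units_eq_one_or (l ⟨a, ha⟩) with h | h
    · exact mem_centralizer_iff.1 hr.2 _ ((hmH ⟨a, ha⟩).2 h)
    · have h5 := mem_centralizer_iff.1 hr.2 _ ((hmH (⟨a, ha⟩ * e0)).2 (by
        rw [map_mul, h, he0]; decide))
      change a * e0 * r = r * (a * e0) at h5
      rw [mul_assoc, ← h4, ← mul_assoc, ← mul_assoc, mul_left_inj] at h5
      exact h5
  have hmul : ∀ r ∈ L, ∀ s ∈ L, r * s * e0 * (r * s)⁻¹ * (e0 : G)⁻¹ =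
      r * e0 * r⁻¹ * (e0 : G)⁻¹ * (s * e0 * s⁻¹ * (e0 : G)⁻¹) := fun r hr s hs => by
    rw [hc _ (hHD (hdel r hr)) _ (hHD (hdel s hs)), mul_assoc _ _ (e0 : G)⁻¹ |>.symm,
      ← mul_assoc _ _ r⁻¹, ← mul_assoc _ r, mem_centralizer_iff.1 hr.2 _ (hdel s hs)]
    group
  refine hG.false_of_local hR (hHD.trans hDR) (fun a ha => h2 a (hHD ha)) inf_le_right ?_ ?_ ?_ ?_
    hcH (by omega) (Or.inr ?_)
  · intro z hz l'
    obtain ⟨g, hg, hs⟩ := exists_tv hc h2 hE (hHD hz) l ((hmH ⟨z, hHD hz⟩).1 hz)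
    have hgL : g ∈ L := ⟨hg, mem_centralizer_iff.2 fun a ha => by
      have := hs ⟨a, hHD ha⟩
      rw [(hmH ⟨a, hHD ha⟩).1 ha, pw_one, mul_one] at this
      exact (mul_inv_eq_iff_eq_mul.1 this).symm⟩
    obtain ⟨a, ha, b, hb, rfl⟩ := hR.exists_mul_of_pow_mem hCL (inf_le_left.trans hNC)
      (fun r hr => ⟨1, hcen _ (pow_mem hr _) (by
        rw [pow_one, pow_two, hmul r hr r hr, h2 _ (hHD (hdel r hr))])⟩) hgL
    have h4 := hs e0
    rw [he0, pw_neg, mul_assoc a, ← mem_centralizer_iff.1 hb _ e0.2] at h4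
    have : z = (⟨e0, hDR e0.2⟩ : R)⁻¹ * (⟨a, ha⟩ * ⟨e0, hDR e0.2⟩ * (⟨a, ha⟩ : R)⁻¹) :=
      Subtype.ext (by
        change _ = (e0 : G)⁻¹ * (a * e0 * a⁻¹)
        rw [eq_inv_mul_iff_mul_eq, ← h4]; group)
    rw [this, map_mul, map_mul, map_mul, map_inv, map_inv, mul_inv_cancel_comm, inv_mul_cancel]
  · intro t _ ht h
    refine ⟨mem_normalizer_of_conj_mem fun x hx => ?_, ht⟩
    simpa using mul_mem hx (hHD (h x (hDR hx)))
  · intro z hz w hw h1 h4
    obtain ⟨g, hg, e⟩ := exists_trans hc h2 hE hHD hz hw h1 h4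
    exact ⟨g, hNL hg, e⟩
  · intro z hz w hw h1
    obtain ⟨g, hg, e⟩ := exists_stab hc h2 hE hHD hz (hHD hw) h1
    exact ⟨g, hNL hg, e⟩
  · let δ : R →* H := MonoidHom.mk' (fun r => ⟨_, hdel r (hR.le r.2)⟩) fun r s =>
      Subtype.ext (hmul r (hR.le r.2) s (hR.le s.2))
    have h4 : Nat.card δ.ker ≤ Nat.card D := by
      have h5 : R ⊓ centralizer (D : Set G) = D :=
        hD.eq_of_le (hR.isPGroup.to_le inf_le_left) inf_le_right (le_inf hDR hEC)
      refine Nat.card_le_card_of_injective (fun r => ⟨r, h5.le ⟨r.1.2, hcen _ (hR.le r.1.2)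
        (congrArg Subtype.val r.2)⟩⟩) fun a b e => Subtype.ext (Subtype.ext ?_)
      exact congrArg (fun t : D => (t : G)) e
    have h5 : Nat.card δ.range ≤ Nat.card H := card_le_card_group _
    rw [← δ.ker.card_mul_index, index_ker, ← mul_assoc, ← pow_succ', ← hn]
    exact Nat.mul_le_mul h4 (hcH ▸ h5)

/-- A homogeneous group of `2`-rank at least three has an involution in `Z*`. -/
theorem Homog.zstar (hG : Homog G) (h : ¬ PRankLE 2 2 G) : ∃ u : G, orderOf u = 2 ∧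
    ∃ N : Subgroup G, N.Normal ∧ Odd (Nat.card N) ∧ ∀ g : G, u * g * u⁻¹ * g⁻¹ ∈ N := by
  obtain ⟨A, hA, hA8⟩ : ∃ A : Subgroup G, IsElementaryAbelian 2 A ∧ ¬ Nat.card A ≤ 2 ^ 2 := by
    by_contra hh
    push Not at hh
    exact h fun A h1 h2 => hh A ⟨h1, h2⟩
  obtain ⟨E, hAE, hE⟩ := Finite.exists_le_maximal (p := IsElementaryAbelian 2) hA
  obtain ⟨n, hn⟩ := hE.prop.card_eq_pow
  have h3 : 3 ≤ n := by
    by_contra hh
    exact hA8 ((card_le_of_le hAE).trans (hn ▸ Nat.pow_le_pow_right two_pos (by omega)))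
  have hmax : ∀ x ∈ centralizer (E : Set G), x * x = 1 → x ∈ E := fun x hx e =>
    hE.le_of_ge (hE.prop.sup_zpowers (by rw [pow_two, e]) hx) le_sup_left
      (mem_sup_right (mem_zpowers x))
  have h2 : ∀ a ∈ E, a * a = 1 := fun a ha => by rw [← pow_two]; exact hE.prop.2 a ha
  have hN := hG.normalizer_le (fun a ha b hb => hE.prop.comm ha hb) h2 hmax hn h3
  obtain ⟨S, hS⟩ := hE.prop.isPGroup.exists_le_sylow
  have key : ∀ T : Subgroup G, E ≤ T → T ≤ centralizer (E : Set G) →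
      normalizer (T : Set G) ≤ centralizer (E : Set G) := fun T h1 h4 g hg =>
    hN (mem_normalizer_of_conj_mem fun x hx => hmax _ (h4 ((mem_normalizer_iff.1 hg x).1 (h1 hx)))
      (by rw [show g * x * g⁻¹ * (g * x * g⁻¹) = g * (x * x) * g⁻¹ by group, h2 x hx]; group))
  have hSC : (S : Subgroup G) ≤ centralizer (E : Set G) := by
    by_contra hh
    have h4 := lt_inf_normalizer S.isPGroup' (A := S ⊓ centralizer (E : Set G))
      (lt_of_le_of_ne inf_le_left fun e => hh (e ▸ inf_le_right))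
    exact h4.not_ge (inf_le_inf_left _ (key _ (le_inf hS hE.prop.le_centralizer) inf_le_right))
  have hES : E ≤ centralizer ((S : Subgroup G) : Set G) := le_centralizer_iff.1 hSC
  obtain ⟨u, hu, hu1⟩ : ∃ u ∈ E, u ≠ 1 := by
    refine (E.bot_or_exists_ne_one).resolve_left fun e => ?_
    rw [e, card_bot] at hn
    exact absurd hn.symm (Nat.one_lt_two_pow (by omega)).ne'
  have ho : orderOf u = 2 := hE.prop.orderOf_eq hu hu1
  refine ⟨u, ho, S0215.result S u ho (hS hu) fun g hg => ?_⟩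
  have h4 : g * u * g⁻¹ ∈ E := hmax _ (hSC hg)
    (by rw [show g * u * g⁻¹ * (g * u * g⁻¹) = g * (u * u) * g⁻¹ by group, h2 u hu]; group)
  obtain ⟨k, hk, e⟩ := S.conj_eq_normalizer_conj_of_mem_centralizer u g⁻¹ (hES hu)
    (by rw [inv_inv]; exact hES h4)
  rw [inv_inv] at e
  rw [e, mul_assoc, mem_centralizer_iff.1 (key _ hS hSC hk) u hu, inv_mul_cancel_left]

theorem eq_one_of_dvd_cop {a b : ℕ} (h : a ∣ b) (hc : a.Coprime b) : a = 1 :=
  Nat.Coprime.eq_one_of_dvd hc h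

/-- A homogeneous group with at least two involutions, all central, is `2`-nilpotent. -/
theorem Homog.complement (hG : Homog G) (hc : ∀ x : G, x * x = 1 → x ∈ center G) {z₁ z₂ : G}
    (h1 : z₁ * z₁ = 1) (h2 : z₂ * z₂ = 1) (n1 : z₁ ≠ 1) (n2 : z₂ ≠ 1) (n3 : z₁ ≠ z₂)
    (S : Sylow 2 G) : ∃ N : Subgroup G, N.Normal ∧ N.IsComplement' (S : Subgroup G) := by
  let Z : Subgroup G :=
    { carrier := {x | x * x = 1}
      one_mem' := mul_one 1
      mul_mem' := fun {a b} ha hb => by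
        change a * b * (a * b) = 1
        rw [mul_assoc, ← mul_assoc b, mem_center_iff.1 (hc a ha) b, mul_assoc, show b * b = 1 from hb,
          mul_one, show a * a = 1 from ha]
      inv_mem' := fun {a} ha => by
        change a⁻¹ * a⁻¹ = 1
        rw [← mul_inv_rev, show a * a = 1 from ha, inv_one] }
  have hZc : ∀ z ∈ Z, ∀ g, g * z * g⁻¹ = z := fun z hz g => by
    rw [mem_center_iff.1 (hc z hz), mul_inv_cancel_right]
  have : Z.Normal := ⟨fun z hz g => (hZc z hz g).symm ▸ hz⟩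
  have hZ : IsPGroup 2 Z := fun z => ⟨1, Subtype.ext (by rw [pow_one, pow_two]; exact z.2)⟩
  refine (S0071.result S).2 fun Q hQ g hg ho => ?_
  by_contra hgQ
  obtain ⟨P, -, hP⟩ := Finite.exists_le_maximal (p := fun P : Subgroup G => IsPGroup 2 P ∧ Z ≤ P ∧
    ∃ g ∈ normalizer (P : Set G), Odd (orderOf g) ∧ g ∉ centralizer (P : Set G)) (a := Q ⊔ Z)
    ⟨(S.isPGroup'.to_le hQ).to_sup_of_normal_right hZ, le_sup_right, g, by
      rw [← cj_eq_iff, cj_sup, cj_eq_iff.2 hg, cj_eq_of_normal], Nat.coprime_two_right.1 ho,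
      fun h => hgQ (centralizer_le (show (Q : Set G) ⊆ (Q ⊔ Z : Subgroup G) from
        (le_sup_left : Q ≤ Q ⊔ Z)) h)⟩
  clear hgQ ho hg g hQ Q
  obtain ⟨hPp, hZP, g, hg, ho, hgP⟩ := hP.prop
  obtain ⟨α, hα, hs⟩ := exists_aut_of_mem hg
  have hpow : ∀ {β : MulAut P} {t : G}, (∀ x : P, (β x : G) = t * x * t⁻¹) → ∀ j : ℕ, ∀ x : P,
      ((β ^ j) x : G) = t ^ j * x * (t ^ j)⁻¹ := fun {β t} h j x => by
    induction j with
    | zero => simp
    | succ j ih => rw [pow_succ', MulAut.mul_apply, h, ih, pow_succ']; group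
  have hoα : Odd (orderOf α) := ho.of_dvd_nat (orderOf_dvd_of_pow_eq_one (MulEquiv.ext fun x =>
    Subtype.ext (by rw [hpow hs, pow_orderOf_eq_one]; simp)))
  have hα1 : α ≠ 1 := fun e => hgP (mem_centralizer_iff.2 fun a ha => by
    have := hs ⟨a, ha⟩
    rw [e] at this
    exact (mul_inv_eq_iff_eq_mul.1 this.symm).symm)
  have hfix : ∀ β ∈ autG P, ∀ z ∈ Z.subgroupOf P, β z = z := by
    rintro β ⟨t, ht⟩ z hz
    exact Subtype.ext ((ht z).trans (hZc z hz t))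
  let L : Subgroup G :=
    { carrier := {t | ∃ β : MulAut P, (∀ x : P, (β x : G) = t * x * t⁻¹) ∧
        ∀ l : P →* ℤˣ, (∀ z ∈ Z.subgroupOf P, l z = 1) → ∀ x, l (β x) = l x}
      one_mem' := ⟨1, by simp, fun _ _ _ => rfl⟩
      mul_mem' := by
        rintro a b ⟨β, h1, h2⟩ ⟨γ, h3, h4⟩
        exact ⟨β * γ, fun x => by rw [MulAut.mul_apply, h1, h3]; group,
          fun l hl x => by rw [MulAut.mul_apply, h2 l hl, h4 l hl]⟩
      inv_mem' := by
        rintro a ⟨β, h1, h2⟩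
        refine ⟨β⁻¹, fun x => ?_, fun l hl x => ?_⟩
        · have := h1 (β⁻¹ x)
          rw [MulAut.apply_inv_self] at this
          rw [this]; group
        · rw [← h2 l hl, MulAut.apply_inv_self] }
  have hPL : P ≤ L := fun y hy => ⟨MulAut.conj ⟨y, hy⟩, fun _ => rfl, fun l _ x => by
    rw [MulAut.conj_apply, map_mul, map_mul, map_inv, mul_inv_cancel_comm]⟩
  have hgL : g ∈ normalizer (L : Set G) := mem_normalizer_of_conj_mem (by
    rintro t ⟨β, h3, h4⟩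
    refine ⟨α * β * α⁻¹, fun x => ?_, fun l hl x => ?_⟩
    · have := hs (α⁻¹ x)
      rw [MulAut.apply_inv_self] at this
      rw [MulAut.mul_apply, MulAut.mul_apply, hs, h3, this]; group
    · have := h4 (l.comp α.toMonoidHom) (fun z hz => by
        change l (α z) = 1
        rw [hfix α hα z hz, hl z hz]) (α⁻¹ x)
      change l (α (β (α⁻¹ x))) = l (α (α⁻¹ x)) at this
      rwa [MulAut.apply_inv_self] at this)
  obtain ⟨T, hT, hPT⟩ := exists_isSylIn hPp hPL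
  obtain ⟨k, ⟨κ, hκ, hκl⟩, hkg⟩ := hT.frattini hgL
  obtain ⟨a, ha⟩ := exists_two_pow_odd (k * g)
  have hTP : T ≤ P := hP.le_of_ge ⟨hT.isPGroup, hZP.trans hPT, _, pow_mem hkg _, ha, fun h => by
    have h3 : ∀ x : P, ((κ * α) x : G) = k * g * x * (k * g)⁻¹ := fun x => by
      rw [MulAut.mul_apply, hκ, hs]; group
    have h4 : (κ * α) ^ 2 ^ a = 1 := MulEquiv.ext fun x => Subtype.ext (by
      rw [hpow h3, ← mem_centralizer_iff.1 h _ (hPT x.2), mul_inv_cancel_right]; rfl)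
    have h5 : ∀ j : ℕ, ∀ l : P →* ℤˣ, (∀ z ∈ Z.subgroupOf P, l z = 1) → ∀ x,
        l (((κ * α) ^ j) x) = l ((α ^ j) x) := fun j => by
      induction j with
      | zero => intro _ _ _; rfl
      | succ j ih =>
        intro l hl x
        rw [pow_succ', pow_succ', MulAut.mul_apply, MulAut.mul_apply, MulAut.mul_apply, hκl l hl]
        exact ih (l.comp α.toMonoidHom) (fun z hz => by
          change l (α z) = 1
          rw [hfix α hα z hz, hl z hz]) x
    have h6 : α ^ 2 ^ a = 1 := eq_one_of_char hPp (hoα.of_dvd_nat (orderOf_pow_dvd _))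
      (hfix _ (pow_mem hα _)) fun l hl x => by rw [← h5 _ l hl, h4]; rfl
    exact hα1 (orderOf_eq_one_iff.1 (eq_one_of_dvd_cop
      (orderOf_dvd_of_pow_eq_one h6) ((Nat.coprime_two_right.2 hoα).pow_right a)))⟩ hPT
  obtain rfl : T = P := le_antisymm hTP hPT
  have := hG.autG_normal T
  refine hα1 (eq_one_of_central hPp (Z := Z.subgroupOf T)
    (fun z hz => mem_center_iff.2 fun x => Subtype.ext (mem_center_iff.1 (hc z hz) x))
    (fun x => ⟨fun h => congrArg Subtype.val h, fun h => Subtype.ext h⟩)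
    (z₁ := ⟨z₁, hZP h1⟩) (z₂ := ⟨z₂, hZP h2⟩) h1 h2 (fun e => n1 (congrArg Subtype.val e))
    (fun e => n2 (congrArg Subtype.val e)) (fun e => n3 (congrArg Subtype.val e)) ?_ hα hoα
    (hfix α hα))
  rintro γ ⟨t, ht⟩ hγ
  obtain ⟨y, hy, hs⟩ := inner_of_syl hT (mem_normalizer_of_aut ht) ⟨γ, ht, fun l hl x => by
    have := hl _ (hγ x)
    rwa [map_mul, map_inv, inv_mul_eq_one, eq_comm] at this⟩ fun x hx => by
      have h3 : x⁻¹ * (t * x * t⁻¹) ∈ Z := by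
        have : ((⟨x, hx⟩ : T)⁻¹ * γ ⟨x, hx⟩ : T).1 ∈ Z := hγ _
        rwa [coe_mul, ht] at this
      have h4 := hZc _ h3 t
      have h5 : x⁻¹ * (t * x * t⁻¹) * (x⁻¹ * (t * x * t⁻¹)) = 1 := h3
      rw [← mul_inv_eq_iff_eq_mul]
      calc t * t * x * (t * t)⁻¹ = t * x * t⁻¹ * (t * (x⁻¹ * (t * x * t⁻¹)) * t⁻¹) := by group
        _ = x * (x⁻¹ * (t * x * t⁻¹) * (x⁻¹ * (t * x * t⁻¹))) := by rw [h4]; group
        _ = x := by rw [h5, mul_one]
  exact ⟨⟨y, hy⟩, fun x => Subtype.ext ((ht x).trans (hs x x.2))⟩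

end Cfsg.Agent.Pr
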