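import Mathlib
import Cfsg.Agent.Cl.UField
import Cfsg.Agent.Pres.Rels

/-!
# Tools for the Borel subgroup of `SU₃(q)`: Hua's identity, extensions, the affine quotient
-/

set_option autoImplicit false

namespace Cfsg.Agent.Pr

open Subgroup Function Cfsg.Agent.Cl

universe u

section

variable {K J : Type*} [Field K] [Group J]

theorem conj_pow_addv {x : K → J} {g : J} {ν : K} (h : ∀ a, g * x a * g⁻¹ = x (ν * a)) (k : ℕ) (a : K) :
    g ^ k * x a * (g ^ k)⁻¹ = x (ν ^ k * a) := by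
  induction k with
  | zero => simp
  | succ k ih => rw [pow_succ' ν, mul_assoc ν, ← h, ← ih, pow_succ']; group

/-- Two commutation relations suffice, by Hua's identity. -/
theorem commute_of_hua {ν : K} (hν : ∀ a : K, a ≠ 0 → ∃ k : ℕ, ν ^ k = a) (ν0 : ν ≠ 0) {x x' : K → J}
    (hx : Addv x) (hx' : Addv x') {g : J} (h : ∀ a, g * x a * g⁻¹ = x (ν * a))
    (h' : ∀ a, g * x' a * g⁻¹ = x' (ν * a)) (c1 : Commute (x 1) (x' 1)) (c2 : Commute (x ν) (x' 1))
    (a b : K) : Commute (x a) (x' b) := by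
  have sc : ∀ t a b a' b', t ≠ 0 → a' = t * a → b' = t * b → Commute (x a) (x' b) →
      Commute (x a') (x' b') := by
    rintro t a b _ _ ht rfl rfl c
    obtain ⟨k, rfl⟩ := hν t ht
    rw [← conj_pow_addv h, ← conj_pow_addv h']
    exact c.conj _
  have sub : ∀ a c, Commute (x a) (x' 1) → Commute (x c) (x' 1) → Commute (x (a - c)) (x' 1) :=
    fun a c h1 h2 => by rw [sub_eq_add_neg, hx, hx.neg]; exact h1.mul_left h2.inv_left
  have hua : ∀ a c, a ≠ 0 → c ≠ 0 → Commute (x a) (x' 1) → Commute (x c) (x' 1) →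
      Commute (x (a * a / c)) (x' 1) := by
    intro a c a0 c0 h1 h2
    by_cases e : c - a = 0
    · rwa [sub_eq_zero.1 e, mul_div_cancel_right₀ _ a0]
    have h3 := (sc a⁻¹ _ _ 1 a⁻¹ (inv_ne_zero a0) (by field_simp) (by simp) h1).mul_right
      (sc (c - a)⁻¹ _ _ 1 (c - a)⁻¹ (inv_ne_zero e) (by field_simp) (by simp) (sub _ _ h2 h1))
    rw [← hx'] at h3
    simpa using sub _ _ h1 (sc (a * (c - a) / c) _ _ (a - a * a / c) 1
      (div_ne_zero (mul_ne_zero a0 e) c0) (by field_simp) (by field_simp; ring) h3)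
  have key : ∀ k : ℕ, Commute (x (ν ^ k)) (x' 1) ∧ Commute (x (ν ^ (k + 1))) (x' 1) := fun k => by
    induction k with
    | zero => simpa using ⟨c1, c2⟩
    | succ k ih =>
      refine ⟨ih.2, ?_⟩
      convert hua _ _ (pow_ne_zero _ ν0) (pow_ne_zero _ ν0) ih.2 ih.1 using 2
      field_simp
      ring
  by_cases hb : b = 0
  · rw [hb, hx'.zero]; exact Commute.one_right _
  by_cases ha : a = 0
  · rw [ha, hx.zero]; exact Commute.one_left _
  obtain ⟨k, hk⟩ := hν (a / b) (div_ne_zero ha hb)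
  exact sc b _ _ _ _ hb (by rw [hk]; field_simp) (by simp) (key k).1

theorem normal_of_conj {V : Subgroup J} [Finite V] {S : Set J} (hS : closure S = ⊤)
    (h : ∀ g ∈ S, ∀ v ∈ V, g * v * g⁻¹ ∈ V) : V.Normal :=
  normalizer_eq_top_iff.1 (eq_top_iff.2 (hS ▸ (closure_le _).2 fun g hg =>
    mem_normalizer_fintype (S := (V : Set J)) (h g hg)))

end

/-- A presentation of an extension. -/
theorem KerGen.ext {E : Type u} {G H : Type*} [Group E] [Group G] [Group H] {f : E →* G} {ψ : G →* H}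
    {r s : ℕ} (h : KerGen (ψ.comp f) s) {A : Subgroup E} (hA : ψ.ker ≤ A.map f)
    (hr : Rels f r fun J _ π φ => Surjective π → ∃ N : Subgroup J, N.Normal ∧ A.map π ≤ N ∧
      ∀ x ∈ N, φ x = 1 → x = 1) : KerGen f (r + s) := by
  obtain ⟨l, h1, h2, h3⟩ := h.ker_le
  refine (hr.and (Rels.forall l fun x hx => Rels.mem (f := f) (a := x) (hA (h2 x hx)))).mono
    (by omega) (fun _ _ _ _ _ h => h) |>.kerGen fun J _ π φ hπ hφ H => ?_
  obtain ⟨N, hN, h4, h5⟩ := H.1 hπ
  refine (injective_iff_map_eq_one φ).2 fun j hj => ?_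
  obtain ⟨e, rfl⟩ := hπ j
  exact h5 _ (h3 (N.comap π) inferInstance (fun x hx => h4 (H.2 x hx))
    (show ψ (f e) = 1 by rw [← hφ, hj, map_one])) hj

variable {F : Type*} [Field F] {σ : F →+* F}

theorem exists_decomp_fix (hσ : UInvol σ) {l : F} (hl : σ l ≠ l) (b : F) :
    ∃ s t : uFix σ, b = s + l * t := by
  have h0 : l - σ l ≠ 0 := sub_ne_zero.2 hl.symm
  have h1 : σ ((b - σ b) / (l - σ l)) = (b - σ b) / (l - σ l) := by
    rw [map_div₀, map_sub, map_sub, hσ.invol, hσ.invol, ← neg_sub b, ← neg_sub l, neg_div_neg_eq]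
  refine ⟨⟨b - l * ((b - σ b) / (l - σ l)), ?_⟩, ⟨_, h1⟩, by simp⟩
  rw [mem_uFix, map_sub, map_mul, h1]
  field_simp
  ring

/-- The affine group of the field with a cyclic group acting by `l`. -/
theorem kerGen_affine [Finite F] (hσ : UInvol σ) {E : Type u} {H : Type*} [Group E] [Group H] [Finite H]
    {X : F → H} (hX : Addv X) (hi : Injective X) {l : F} (hl : σ l ≠ l) {ν : uFix σ}
    (hν : ∀ a : uFix σ, a ≠ 0 → ∃ k : ℕ, ν ^ k = a) (ν0 : ν ≠ 0) {m : ℕ} (hm : l ^ m = ν)
    {f : E →* H} {u h : E} (hE : closure {u, h} = ⊤) (hu : f u = X 1)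
    (hh : ∀ a, f h * X a * (f h)⁻¹ = X (l * a)) (hk : ∀ a (k : ℤ), X a * f h ^ k = 1 → f h ^ k = 1) :
    KerGen f 8 := by
  have hY : Addv fun a : uFix σ => X a := fun a b => hX _ _
  have hg : ∀ a : uFix σ, f (h ^ m) * X a * (f (h ^ m))⁻¹ = X (ν * a : uFix σ) := fun a => by
    rw [map_pow, conj_pow_addv hh, hm]; rfl
  have hW : ∀ a : uFix σ, ∃ W ∈ closure (Set.range (cj (h ^ m) u)), f W = X a := fun a => by
    by_cases ha : a = 0
    · exact ⟨1, one_mem _, by rw [ha, map_one]; exact hX.zero.symm⟩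
    · obtain ⟨k, rfl⟩ := hν a ha
      exact ⟨_, subset_closure ⟨k, rfl⟩, Addv.map_cj (X := fun a : uFix σ => X a) hu hg k⟩
  obtain ⟨W, hW1, e1⟩ := hW ⟨-(l * σ l), by change σ _ = _; rw [map_neg, hσ.norm_fixed]; rfl⟩
  obtain ⟨W', hW2, e2⟩ := hW ⟨l + σ l, hσ.trace_fixed l⟩
  refine ((Rels.root hY (hi.comp Subtype.val_injective) hν hu hg).and
    ((Rels.commute (a := u) (b := h * u * h⁻¹) ?_).and
    ((Rels.commute (a := h ^ m * u * (h ^ m)⁻¹) (b := h * u * h⁻¹) ?_).and
    ((Rels.eq (a := h * (h * u * h⁻¹) * h⁻¹) (b := W * (h * W' * h⁻¹)) ?_).and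
    (Rels.eq (a := h ^ orderOf (f h)) (b := 1) (by simp)))))).kerGen fun J _ π φ hπ hφ R => ?_
  · simpa only [map_mul, map_inv, hu, hh] using hX.commute _ _
  · simpa only [map_mul, map_inv, map_pow, hu, hh, conj_pow_addv hh] using hX.commute _ _
  · simp only [map_mul, map_inv, hu, hh, e1, e2, ← hX _ _]
    congr 1
    ring
  obtain ⟨⟨x, hx⟩, c1, c2, c3, c4⟩ := R
  simp only [map_mul, map_inv, map_pow, map_one] at hx c1 c2 c3 c4
  have h1 : ∀ a, π h ^ m * x a * (π h ^ m)⁻¹ = x (ν * a) := fun a =>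
    hx.conj_self (by rw [← map_pow, hφ, hg])
  have h2 : ∀ a, π h ^ m * (π h * x a * (π h)⁻¹) * (π h ^ m)⁻¹ = π h * x (ν * a) * (π h)⁻¹ := fun a => by
    rw [← h1]; group
  have hx' : Addv fun a => π h * x a * (π h)⁻¹ := fun a b => by simp only [hx.add _ _]; group
  have cc := commute_of_hua hν ν0 hx.add hx' h1 h2 (by rwa [hx.one])
    (by rwa [← mul_one ν, ← h1, hx.one])
  let V : Subgroup J :=
    { carrier := Set.range fun p : uFix σ × uFix σ => x p.1 * (π h * x p.2 * (π h)⁻¹)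
      one_mem' := ⟨(0, 0), by simp [hx.add.zero]⟩
      mul_mem' := by
        rintro _ _ ⟨p, rfl⟩ ⟨p', rfl⟩
        refine ⟨p + p', ?_⟩
        simp only [Prod.fst_add, Prod.snd_add, hx.add _ _]
        rw [(cc p'.1 p.2).symm.mul_mul_mul_comm]
        group
      inv_mem' := by
        rintro _ ⟨p, rfl⟩
        refine ⟨-p, ?_⟩
        simp only [Prod.fst_neg, Prod.snd_neg, hx.add.neg]
        rw [(cc p.1 p.2).eq]
        group }
  have m1 : ∀ a, x a ∈ V := fun a => ⟨(a, 0), by simp [hx.add.zero]⟩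
  have m2 : ∀ a, π h * x a * (π h)⁻¹ ∈ V := fun a => ⟨(0, a), by simp [hx.add.zero]⟩
  have m3 : ∀ {w}, w ∈ closure (Set.range (cj (h ^ m) u)) → ∃ a, x a = π w := fun hw => by
    have := mem_map_of_mem π hw
    rw [MonoidHom.map_closure, ← Set.range_comp] at this
    exact (hx.range _).1 (by simpa only [Function.comp_def, map_cj, map_pow] using this)
  have m4 : ∀ a, π h * (π h * x a * (π h)⁻¹) * (π h)⁻¹ ∈ V := fun a => by
    by_cases ha : a = 0
    · simp [ha, hx.add.zero]
    obtain ⟨k, rfl⟩ := hν a ha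
    obtain ⟨s, hs⟩ := m3 hW1
    obtain ⟨t, ht⟩ := m3 hW2
    have := mul_mem (m1 (ν ^ k * s)) (m2 (ν ^ k * t))
    rw [← conj_pow_addv h1, ← conj_pow_addv h2 k, hs, ht] at this
    rw [← mul_one (ν ^ k), ← conj_pow_addv h1, hx.one]
    convert this using 1
    calc _ = (π h ^ m) ^ k * (π h * (π h * π u * (π h)⁻¹) * (π h)⁻¹) * ((π h ^ m) ^ k)⁻¹ := by group
      _ = _ := by rw [c3]; group
  have hJ : closure {π u, π h} = ⊤ := by
    rw [← Set.image_pair, ← MonoidHom.map_closure, hE, map_top_of_surjective π hπ]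
  have : Finite V := Set.finite_range _
  have hV : V.Normal := normal_of_conj hJ (by
    rintro g (rfl | rfl) v hv
    · exact mul_mem (mul_mem (hx.one ▸ m1 1) hv) (inv_mem (hx.one ▸ m1 1))
    · obtain ⟨p, rfl⟩ := hv
      convert mul_mem (m2 p.1) (m4 p.2) using 1
      group)
  refine (injective_iff_map_eq_one φ).2 fun j hj => ?_
  obtain ⟨_, ⟨p, rfl⟩, _, ⟨k, rfl⟩, rfl⟩ := mem_sup_of_normal_left.1 (show j ∈ V ⊔ zpowers (π h) from
    (hJ.ge.trans ((closure_le _).2 (by
      rintro g (rfl | rfl)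
      exacts [mem_sup_left (hx.one ▸ m1 1), mem_sup_right (mem_zpowers _)]))) (mem_top j))
  simp only [map_mul, map_inv, map_zpow, hφ, hx.map, hh, ← hX _ _] at hj
  have h3 := hk _ _ hj
  rw [h3, mul_one, ← hX.zero] at hj
  have h4 := hi hj
  have h5 : p.2 = 0 := by
    by_contra e
    have := congrArg σ h4
    rw [map_add, map_mul, show σ p.1 = p.1 from p.1.2, show σ p.2 = p.2 from p.2.2, map_zero,
      ← h4, add_right_inj, mul_left_inj' (by simpa using e)] at this
    exact hl this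
  have h6 : p.1 = 0 := by simpa [h5] using h4
  obtain ⟨c, rfl⟩ := orderOf_dvd_iff_zpow_eq_one.2 h3
  simp [h5, h6, hx.add.zero, zpow_mul, c4]

theorem cube_mem_span [Finite F] {μ : F} (h : ∀ K : Subfield F, μ ∈ K → Module.finrank K F ≤ 3) (l : F) :
    l ^ 3 ∈ AddSubgroup.closure {b | ∃ i < 3, ∃ j : ℕ, b = μ ^ j * l ^ i} := by
  have := Fintype.ofFinite F
  let K : Subfield F :=
    { Subring.closure {μ} with
      inv_mem' := fun x hx => by
        by_cases h0 : x = 0
        · simp [h0]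
        have : x⁻¹ = x ^ (Fintype.card F - 2) := by
          have := Fintype.one_lt_card (α := F)
          rw [inv_eq_iff_eq_inv, ← mul_eq_one_iff_eq_inv₀ (pow_ne_zero _ h0), ← pow_succ',
            show Fintype.card F - 2 + 1 = Fintype.card F - 1 by omega,
            FiniteField.pow_card_sub_one_eq_one x h0]
        exact this ▸ pow_mem (S := Subring.closure {μ}) hx _ }
  have hint : IsIntegral K l := IsIntegral.of_finite _ _
  have hd := (minpoly.natDegree_le (A := K) l).trans (h K (Subring.subset_closure rfl))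
  have key : ∀ y ∈ Submodule.span K (Set.range fun i : Fin (minpoly K l).natDegree => l ^ (i : ℕ)),
      ∀ a ∈ K, a * y ∈ AddSubgroup.closure {b | ∃ i < 3, ∃ j : ℕ, b = μ ^ j * l ^ i} := by
    intro y hy
    induction hy using Submodule.span_induction with
    | mem y hy =>
      obtain ⟨i, rfl⟩ := hy
      intro a ha
      have ha' := Subring.mem_closure_iff.1 ha
      clear ha
      induction ha' using AddSubgroup.closure_induction with
      | mem a ha =>
        obtain ⟨j, rfl⟩ := Submonoid.mem_closure_singleton.1 ha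
        exact AddSubgroup.subset_closure ⟨i, by omega, j, rfl⟩
      | zero => simp
      | add a b _ _ h1 h2 => rw [add_mul]; exact add_mem h1 h2
      | neg a _ h1 => rw [neg_mul]; exact neg_mem h1
    | zero => simp
    | add y z _ _ h1 h2 => exact fun a ha => mul_add a y z ▸ add_mem (h1 a ha) (h2 a ha)
    | smul c y _ h1 =>
      intro a ha
      have := h1 (a * c) (mul_mem ha c.2)
      rwa [mul_assoc] at this
  simpa using key _ (hint.mem_span_pow ⟨Polynomial.X ^ 3, by simp⟩) 1 (one_mem _)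

end Cfsg.Agent.Pr
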