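import Mathlib
import Cfsg.Agent.Cl.U3Data
import Cfsg.Agent.Pres.Rels

/-!
# Four rank one relations suffice for `SU₃(q)`
-/

set_option autoImplicit false

namespace Cfsg.Agent.Pr

open Subgroup Function Cfsg.Agent.Cl

variable {F : Type*} [Field F] {σ : F →+* F} {hσ : UInvol σ} {G J : Type*} [Group G] [Group J]

/-- Lifts of the Borel subgroup and of the Weyl element. -/
structure U3Lift (D : U3Data hσ G) (φ : J →* G) (u : UHeis hσ →* J) (h : Fˣ →* J) (w : J) : Prop where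
  φu : ∀ x, φ (u x) = D.u x
  φh : ∀ a, φ (h a) = D.h a
  φw : φ w = D.w
  h_conj : ∀ a x, h a * u x * (h a)⁻¹ = u (UHeis.torus hσ (uLam σ a) x)
  w_sq : w * w = 1
  w_h : ∀ a, w * h a * w = h (Units.map σ.toMonoidHom a)⁻¹

/-- The big cell. -/
def Big (u : UHeis hσ →* J) (h : Fˣ →* J) (w g : J) : Prop := ∃ y a z, g = u y * w * h a * u z

namespace U3Lift

variable {D : U3Data hσ G} {φ : J →* G} {u : UHeis hσ →* J} {h : Fˣ →* J} {w g : J}

theorem u_mul (x : UHeis hσ) : Big u h w g → Big u h w (u x * g) := by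
  rintro ⟨y, a, z, rfl⟩; exact ⟨x * y, a, z, by simp [mul_assoc]⟩

theorem mul_u (x : UHeis hσ) : Big u h w g → Big u h w (g * u x) := by
  rintro ⟨y, a, z, rfl⟩; exact ⟨y, a, z * x, by simp [mul_assoc]⟩

variable (L : U3Lift D φ u h w)
include L

theorem h_w (a : Fˣ) : h a * w = w * h (Units.map σ.toMonoidHom a)⁻¹ := by
  rw [← L.w_h, ← mul_assoc, ← mul_assoc, L.w_sq, one_mul]

theorem h_mul (b : Fˣ) : Big u h w g → Big u h w (h b * g) := by
  rintro ⟨y, a, z, rfl⟩
  refine ⟨UHeis.torus hσ (uLam σ b) y, (Units.map σ.toMonoidHom b)⁻¹ * a, z, ?_⟩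
  rw [← L.h_conj b y, map_mul, mul_assoc (_ * (h b)⁻¹) w, ← mul_assoc w, ← L.h_w]
  group

theorem mul_h (b : Fˣ) : Big u h w g → Big u h w (g * h b) := by
  rintro ⟨y, a, z, rfl⟩
  exact ⟨y, a * b, _, by rw [← L.h_conj b⁻¹ z, map_mul, map_inv]; group⟩

theorem eq_flip {x : UHeis hσ} (hx : x ≠ 1) (r : Big u h w (w * u x * w)) :
    ∃ a, w * u x * w = u x.flip * w * h a * u x.flip' := by
  obtain ⟨y, a, z, e⟩ := r
  have e1 := congrArg φ e
  simp only [map_mul, L.φu, L.φh, L.φw, D.rel x (mt UHeis.eq_one_iff.2 hx)] at e1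
  have e2 := congrArg (fun g => D.act g none) e1
  simp only [D.act_mul, D.act_u_none, D.act_h_none, D.act_w_none, D.act_u_some, mul_one,
    Option.some.injEq] at e2
  subst e2
  rw [mul_assoc, mul_assoc _ (D.h a), mul_right_inj, D.h_mul_u, D.h_mul_u] at e1
  obtain ⟨e3, e4⟩ := D.u_mul_h_inj e1
  rw [e4, mul_left_inj, ← D.h_conj, ← D.h_conj, e4, mul_left_inj, mul_right_inj] at e1
  exact ⟨a, by rw [e, D.u_injective e1]⟩

theorem big_torus (a : Fˣ) {x : UHeis hσ} (r : Big u h w (w * u x * w)) :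
    Big u h w (w * u (UHeis.torus hσ (uLam σ a) x) * w) := by
  have := L.mul_h (Units.map σ.toMonoidHom a⁻¹)⁻¹ (L.h_mul (Units.map σ.toMonoidHom a)⁻¹ r)
  rw [← L.w_h, ← L.w_h, map_inv] at this
  convert this using 1
  rw [← L.h_conj]
  calc _ = w * h a * 1 * u x * 1 * (h a)⁻¹ * w := by group
    _ = _ := by rw [← L.w_sq]; group

theorem big_mul {x y : UHeis hσ} (hx : x ≠ 1) (hy : y ≠ 1) (r : Big u h w (w * u x * w))
    (r' : Big u h w (w * u y * w)) (r'' : Big u h w (w * u (x.flip' * y.flip) * w)) :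
    Big u h w (w * u (x * y) * w) := by
  obtain ⟨a, e⟩ := L.eq_flip hx r
  obtain ⟨b, e'⟩ := L.eq_flip hy r'
  have := u_mul x.flip (L.h_mul (Units.map σ.toMonoidHom a)⁻¹ (mul_u y.flip' (L.mul_h b r'')))
  convert this using 1
  calc _ = (w * u x * 1 * u y * w) := by rw [map_mul]; group
    _ = (w * u x * w) * (w * u y * w) := by rw [← L.w_sq]; group
    _ = u x.flip * (w * h a * 1 * u x.flip' * u y.flip * w * h b * u y.flip') := by rw [e, e']; group
    _ = _ := by rw [← L.w_sq, ← L.w_h, map_mul]; group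

theorem injective (hi : Injective D.h) (hJ : closure (Set.range u ∪ Set.range h ∪ {w}) = ⊤)
    (r : ∀ x, x ≠ 1 → Big u h w (w * u x * w)) : Injective φ := by
  have key : ∀ g, (∃ x a, g = u x * h a) ∨ Big u h w g := fun g => by
    have hw : ∀ g, (∃ x a, g = u x * h a) ∨ Big u h w g →
        (∃ x a, g * w = u x * h a) ∨ Big u h w (g * w) := by
      rintro _ (⟨x, a, rfl⟩ | ⟨y, a, z, rfl⟩)
      · exact Or.inr ⟨x, _, 1, by rw [mul_assoc, L.h_w, map_one u, mul_one, mul_assoc]⟩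
      · by_cases hz : z = 1
        · exact Or.inl ⟨y, _, by rw [hz, map_one, mul_one, ← L.w_h a]; group⟩
        · refine Or.inr ?_
          convert u_mul y (L.h_mul (Units.map σ.toMonoidHom a)⁻¹ (r z hz)) using 1
          calc _ = u y * (w * h a * 1 * u z * w) := by group
            _ = _ := by rw [← L.w_sq, ← L.w_h]; group
    have hu : ∀ g x, (∃ x a, g = u x * h a) ∨ Big u h w g →
        (∃ y a, g * u x = u y * h a) ∨ Big u h w (g * u x) := by
      rintro _ x (⟨y, a, rfl⟩ | r)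
      · exact Or.inl ⟨y * _, a, by rw [map_mul, ← L.h_conj a x]; group⟩
      · exact Or.inr (mul_u x r)
    have hh : ∀ g b, (∃ x a, g = u x * h a) ∨ Big u h w g →
        (∃ y a, g * h b = u y * h a) ∨ Big u h w (g * h b) := by
      rintro _ b (⟨y, a, rfl⟩ | r)
      · exact Or.inl ⟨y, a * b, by rw [map_mul, mul_assoc]⟩
      · exact Or.inr (L.mul_h b r)
    have hg : g ∈ closure (Set.range u ∪ Set.range h ∪ {w}) := hJ ▸ mem_top g
    induction hg using closure_induction_right with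
    | one => exact Or.inl ⟨1, 1, by simp⟩
    | mul_right g _ k hk ih =>
      rcases hk with (⟨x, rfl⟩ | ⟨a, rfl⟩) | rfl
      exacts [hu g x ih, hh g a ih, hw g ih]
    | mul_inv_cancel g _ k hk ih =>
      rcases hk with (⟨x, rfl⟩ | ⟨a, rfl⟩) | rfl
      · rw [← map_inv]; exact hu g _ ih
      · rw [← map_inv]; exact hh g _ ih
      · rw [inv_eq_of_mul_eq_one_right L.w_sq]; exact hw g ih
  refine (injective_iff_map_eq_one φ).2 fun g hg => ?_
  rcases key g with ⟨x, a, rfl⟩ | ⟨y, a, z, rfl⟩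
  · rw [map_mul, L.φu, L.φh] at hg
    obtain ⟨h1, h2⟩ := D.eq_one_of_u_mul_h hg
    rw [h1, (map_eq_one_iff _ hi).1 h2, map_one, map_one, mul_one]
  · have := congrArg (fun g => D.act g none) hg
    simp [L.φu, L.φh, L.φw, D.act_u_none, D.act_h_none, D.act_w_none, D.act_u_some] at this

end U3Lift

/-- The element with first coordinate `b` whose second coordinate is proportional to `α`. -/
def clsU (hσ : UInvol σ) {α : F} (hα : α + σ α = 1) (b : F) : UHeis hσ :=
  ⟨b, b * σ b * α, by rw [map_mul, hσ.norm_fixed, ← mul_add, hα, mul_one]⟩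

/-- Four elements from which all non-trivial elements are obtained by the two rules. -/
theorem exists_seeds [Finite F] (hσ : UInvol σ) : ∃ l : List (UHeis hσ), l.length = 4 ∧
    (∀ x ∈ l, x ≠ 1) ∧ ∀ R : UHeis hσ → Prop, (∀ x ∈ l, R x) →
      (∀ a x, R x → R (UHeis.torus hσ (uLam σ a) x)) →
      (∀ x y, x ≠ 1 → y ≠ 1 → R x → R y → R (x.flip' * y.flip) → R (x * y)) →
      ∀ x, x ≠ 1 → R x := by
  obtain ⟨θ, θ0, hθ⟩ := hσ.exists_trace_zero
  obtain ⟨ζ, hζ⟩ := exists_prim F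
  have z0 := ζ.ne_zero
  have z1 : σ ζ ≠ 0 := (map_ne_zero σ).2 z0
  have z2 : (ζ : F) - σ ζ ≠ 0 := fun e => by
    obtain ⟨a, ha⟩ := hσ.exists_ne
    obtain ⟨k, rfl⟩ := hζ a (by rintro rfl; simp at ha)
    exact ha (by rw [map_pow, ← sub_eq_zero.1 e])
  have hα : (ζ : F) / (ζ - σ ζ) + σ (ζ / (ζ - σ ζ)) = 1 := by
    rw [map_div₀, map_sub, hσ.invol, ← neg_sub (ζ : F), div_neg, ← sub_eq_add_neg, ← sub_div,
      div_self z2]
  have ne1 : ∀ b, b ≠ 0 → clsU hσ hα b ≠ 1 := fun b hb e => hb (congrArg UHeis.b e)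
  refine ⟨[UHeis.cen hσ θ (by simp [hθ]), clsU hσ hα (ζ ^ 0), clsU hσ hα (ζ ^ 1), clsU hσ hα (ζ ^ 2)],
    rfl, ?_, fun R h1 h2 h3 => ?_⟩
  · simp only [List.forall_mem_cons, List.not_mem_nil, IsEmpty.forall_iff, implies_true, and_true]
    exact ⟨mt UHeis.eq_one_iff.1 θ0, ne1 _ (by simp), ne1 _ (by simp), ne1 _ (by simp)⟩
  have p0 : ∀ x, x ≠ 1 → x.b = 0 → R x := fun x hx hb => by
    have c0 := mt UHeis.eq_one_iff.2 hx
    obtain ⟨a, ha⟩ := hσ.exists_norm_eq (a := x.c / θ) (by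
      rw [map_div₀, hθ, eq_neg_of_add_eq_zero_right (UHeis.trace_c_of_b hb), neg_div_neg_eq])
    have a0 : a ≠ 0 := by rintro rfl; exact div_ne_zero c0 θ0 (by simpa using ha.symm)
    convert h2 (Units.mk0 a a0) _ (h1 _ List.mem_cons_self) using 1
    ext
    · simp [hb]
    · rw [UHeis.torus_c, hσ.norm_uLam, Units.val_mk0, ha, UHeis.cen_c, div_mul_cancel₀ _ θ0]
  have p1 : ∀ b, b ≠ 0 → R (clsU hσ hα b) := fun b hb => by
    obtain ⟨k, rfl⟩ := hζ b hb
    have e : (uLam σ ((ζ * Units.map σ.toMonoidHom ζ ^ 2) ^ (k / 3)) : F) = ζ ^ (3 * (k / 3)) := by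
      rw [map_pow, Units.val_pow_eq_pow_val, pow_mul, coe_uLam]
      congr 1
      simp [hσ.invol]
      field_simp
    have : R (clsU hσ hα (ζ ^ (k % 3))) := h1 _ (by
      obtain e | e | e : k % 3 = 0 ∨ k % 3 = 1 ∨ k % 3 = 2 := by omega
      all_goals simp [e])
    convert h2 ((ζ * Units.map σ.toMonoidHom ζ ^ 2) ^ (k / 3)) _ this using 1
    ext
    · rw [UHeis.torus_b, e, clsU, clsU, ← pow_add, Nat.div_add_mod]
    · rw [UHeis.torus_c, e]
      simp only [clsU]
      conv_lhs => rw [← Nat.div_add_mod k 3, pow_add, map_mul]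
      ring
  have key : ∀ (k : ℕ) x, x ≠ 1 → σ (x.c / (θ * ζ ^ k)) = x.c / (θ * ζ ^ k) → R x := by
    intro k
    induction k with
    | zero =>
      refine fun x hx e => p0 x hx ((u_norm_eq_zero_iff (σ := σ)).1 ?_)
      rw [pow_zero, mul_one, map_div₀, hθ, div_neg, neg_eq_iff_eq_neg, ← neg_div,
        div_left_inj' θ0] at e
      rw [← x.eq, e, add_neg_cancel]
    | succ k ih =>
      intro z hz e
      by_cases hb : z.b = 0
      · exact p0 z hz hb
      set y := (clsU hσ hα z.b)⁻¹ * z with hy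
      have yb : y.b = 0 := by simp [hy, clsU]
      have ez : z = clsU hσ hα z.b * y := by rw [hy, mul_inv_cancel_left]
      by_cases h0 : y = 1
      · rw [ez, h0, mul_one]; exact p1 _ hb
      have c0 := mt UHeis.eq_one_iff.2 h0
      have b1 : σ z.b ≠ 0 := (map_ne_zero σ).2 hb
      have ec : ((clsU hσ hα z.b).flip' * y.flip).c = z.c / ((clsU hσ hα z.b).c * y.c) := by
        have e1 := congrArg UHeis.c ez
        have := mt UHeis.eq_one_iff.2 (ne1 _ hb)
        simp only [UHeis.mul_c, UHeis.flip'_c, UHeis.flip_c, UHeis.flip_b, yb] at e1 ⊢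
        rw [e1]
        field_simp
        ring
      rw [ez]
      refine h3 _ _ (ne1 _ hb) h0 (p1 _ hb) (p0 y h0 yb) (ih _ ?_ ?_)
      · rw [Ne, UHeis.eq_one_iff, ec]
        exact div_ne_zero (mt UHeis.eq_one_iff.2 hz) (mul_ne_zero (mt UHeis.eq_one_iff.2 (ne1 _ hb)) c0)
      · have : z.c / ((clsU hσ hα z.b).c * y.c) / (θ * ζ ^ k) =
            z.c / (θ * ζ ^ (k + 1)) * ((ζ - σ ζ) / y.c) / (z.b * σ z.b) := by
          simp only [clsU, pow_succ]
          field_simp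
        rw [ec, this, map_div₀, map_mul, e, hσ.norm_fixed, map_div₀, map_sub, hσ.invol,
          eq_neg_of_add_eq_zero_right (UHeis.trace_c_of_b yb), ← neg_sub (ζ : F), neg_div_neg_eq]
  intro x hx
  have c0 := mt UHeis.eq_one_iff.2 hx
  obtain ⟨k, hk⟩ := hζ (x.c / θ) (div_ne_zero c0 θ0)
  exact key k x hx (by rw [hk, mul_div_cancel₀ _ θ0, div_self c0, map_one])

end Cfsg.Agent.Pr
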