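import Mathlib
import Cfsg.Agent.Cl.U3
import Cfsg.Agent.Ch.MultSU
import Cfsg.Agent.Pres.U3Rank
import Cfsg.Agent.Pres.U3Aff

/-!
# A presentation of `SU₃(q)`, `q ≥ 3`, with three generators and twenty-two relations
-/

set_option autoImplicit false

namespace Cfsg.Agent.Pr

open Subgroup Function Cfsg.Agent.Cl SemidirectProduct
open scoped commutatorElement

variable {F : Type*} [Field F] {σ : F →+* F} {q : ℕ}

/-- The Borel subgroup of `SU₃(q)`. -/
abbrev U3B (hσ : UInvol σ) := UHeis hσ ⋊[(UHeis.torus hσ).comp (uLam σ)] Fˣ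

theorem u3b_conj (hσ : UInvol σ) (a : Fˣ) (x : UHeis hσ) :
    (inr a * inl x * (inr a)⁻¹ : U3B hσ) = inl (UHeis.torus hσ (uLam σ a) x) := by
  rw [← map_inv]; exact (inl_aut a x).symm

theorem mem_of_b {hσ : UInvol σ} {M : Subgroup (UHeis hσ)} (hZ : ∀ x : UHeis hσ, x.b = 0 → x ∈ M) {S : Set F}
    (hS : ∀ s ∈ S, ∃ y ∈ M, y.b = s) {x : UHeis hσ} (hx : x.b ∈ AddSubgroup.closure S) : x ∈ M := by
  have : ∀ b ∈ AddSubgroup.closure S, ∃ y ∈ M, y.b = b := fun b hb => by
    induction hb using AddSubgroup.closure_induction with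
    | mem b hb => exact hS b hb
    | zero => exact ⟨1, one_mem _, rfl⟩
    | add _ _ _ _ h1 h2 =>
      obtain ⟨y, h1, rfl⟩ := h1
      obtain ⟨z, h2, rfl⟩ := h2
      exact ⟨y * z, mul_mem h1 h2, rfl⟩
    | neg _ _ h1 => obtain ⟨y, h1, rfl⟩ := h1; exact ⟨y⁻¹, inv_mem h1, rfl⟩
  obtain ⟨y, hy, e⟩ := this _ hx
  simpa using mul_mem hy (hZ (y⁻¹ * x) (by simp [e]))

/-- The affine quotient of the Borel subgroup. -/
def u3Aff (hσ : UInvol σ) : U3B hσ →* Equiv.Perm F × Fˣ :=
  lift (((MulAction.toPermHom (Multiplicative F) F).comp (UHeis.bHom hσ)).prod 1)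
    (((MulAction.toPermHom Fˣ F).comp (uLam σ)).prod (MonoidHom.id _)) fun a => by
      ext x y
      · simp [UHeis.bHom_apply, Units.smul_def]
      · simp

theorem u3Aff_inl (hσ : UInvol σ) (x : UHeis hσ) : u3Aff hσ (inl x) = (Equiv.addLeft x.b, 1) := by
  rw [u3Aff, lift_inl]; rfl

theorem hasPres_u3b (hq : UField σ q) (h3 : 3 ≤ q) : HasPres (U3B hq.invol) 2 16 := by
  have := hq.finite
  have hσ := hq.invol
  obtain ⟨ζ, hζ⟩ := exists_prim F
  obtain ⟨x₁, hx₁⟩ := UHeis.exists_b hq.invol 1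
  set l : F := ((uLam σ ζ : Fˣ) : F) with hl
  have z0 := ζ.ne_zero
  have z1 : σ ζ ≠ 0 := (map_ne_zero σ).2 z0
  have hl' : σ l ≠ l := fun e => by
    have h1 : σ (ζ ^ 3) = ζ ^ 3 := by
      rw [hl, coe_uLam, map_div₀, map_pow, hσ.invol] at e
      field_simp at e
      rw [map_pow, e]
    have := subfield_eq_top_of_sq hζ (n := 3 * (q - 1)) (by omega)
      (by rw [pow_mul]; exact (hq.fixed_iff (pow_ne_zero _ z0)).1 h1)
    obtain ⟨q, rfl⟩ : ∃ r, q = r + 1 := ⟨q - 1, by omega⟩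
    rw [hq.card, Nat.add_sub_cancel] at this
    nlinarith
  set ν : uFix σ := ⟨ζ * σ ζ, hσ.norm_fixed _⟩ with hν'
  have ν0 : ν ≠ 0 := fun e => mul_ne_zero z0 z1 (congrArg Subtype.val e)
  have hν : ∀ a : uFix σ, a ≠ 0 → ∃ k : ℕ, ν ^ k = a := fun a ha => by
    obtain ⟨b, hb⟩ := hq.exists_norm_eq a.2
    obtain ⟨k, rfl⟩ := hζ b (by rintro rfl; exact ha (Subtype.ext (by simpa using hb.symm)))
    exact ⟨k, Subtype.ext (by rw [← hb]; simp [hν', mul_pow])⟩
  have hm : l ^ (q + 1) = ν := by rw [← hq.norm_eq_pow, hl, hσ.norm_uLam]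
  let f : FreeGroup (Fin 2) →* U3B hq.invol := FreeGroup.lift ![inl x₁, inr ζ]
  obtain ⟨u, hu'⟩ : ∃ u, u = FreeGroup.of (0 : Fin 2) := ⟨_, rfl⟩
  obtain ⟨h, hh'⟩ : ∃ h, h = FreeGroup.of (1 : Fin 2) := ⟨_, rfl⟩
  have hu : f u = inl x₁ := by simp [f, hu']
  have hh : f h = inr ζ := by simp [f, hh']
  have hE : closure {u, h} = ⊤ := by
    rw [← FreeGroup.closure_range_of, hu', hh']; congr 1; ext; simp [eq_comm]
  have t0 : l - σ l ≠ 0 := sub_ne_zero.2 hl'.symm
  have t1 : ∀ t : uFix σ, t * (l - σ l) + σ (t * (l - σ l)) = 0 := fun t => by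
    rw [map_mul, map_sub, hσ.invol, show σ t = t from t.2]; ring
  let X : uFix σ → U3B hq.invol := fun t => inl (UHeis.cen _ _ (t1 t))
  have hX : Addv X := fun a b => by
    simp only [X, ← map_mul]; congr 1; ext <;> simp [add_mul]
  have hi : Injective X := fun a b e =>
    Subtype.ext (mul_right_cancel₀ t0 (congrArg UHeis.c (inl_injective e)))
  have hXc : ∀ (a : Fˣ) (t t' : uFix σ), (t' : F) = a * σ a * t → inr a * X t * (inr a)⁻¹ = X t' :=
    fun a t t' e => by
      simp only [X, u3b_conj]; congr 1; ext <;> simp [hσ.norm_uLam, e, mul_assoc, -map_mul]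
  have hg : ∀ a, f h * X a * (f h)⁻¹ = X (ν * a) := fun a => hh ▸ hXc _ _ _ rfl
  have hcj : ∀ (k : ℕ) {w : FreeGroup (Fin 2)} {y}, f w = inl y → ∀ i,
      f (cj (h ^ k) w i) = inl (UHeis.torus hσ (uLam σ (ζ ^ (k * i))) y) := fun k w y e i => by
    rw [map_cj, cj, map_pow, hh, e, ← pow_mul, ← map_pow, u3b_conj]
  have hcj1 : ∀ i, f (cj h u i) = inl (UHeis.torus hσ (uLam σ (ζ ^ i)) x₁) := fun i => by
    simpa using hcj 1 hu i
  have hb : ∀ i : ℕ, (UHeis.torus hσ (uLam σ (ζ ^ i)) x₁).b = l ^ i := fun i => by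
    rw [UHeis.torus_b, hx₁, mul_one, map_pow]; simp [hl]
  obtain ⟨z, hz⟩ : ∃ z, f z = X 1 := ⟨⁅u, cj h u 1⁆, by
    rw [map_commutatorElement, hu, hcj1, ← map_commutatorElement]
    congr 1
    ext
    · rw [UHeis.commutator_b]; rfl
    · rw [UHeis.commutator_c, hb, hx₁]; simp⟩
  have hA : ∀ x : UHeis hσ, x.b = 0 → inl x ∈ (closure (Set.range (cj h z))).map f := fun x hx => by
    have e1 : σ (x.c / (l - σ l)) = x.c / (l - σ l) := by
      rw [map_div₀, map_sub, hσ.invol, eq_neg_of_add_eq_zero_right (UHeis.trace_c_of_b hx),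
        ← neg_sub l, neg_div_neg_eq]
    have e : inl x = X ⟨_, e1⟩ := congrArg inl (by ext <;> simp [hx, t0])
    by_cases h0 : (⟨_, e1⟩ : uFix σ) = 0
    · rw [e, h0, hX.zero]; exact one_mem _
    · obtain ⟨k, hk⟩ := hν _ h0
      exact ⟨_, subset_closure ⟨k, rfl⟩, by rw [Addv.map_cj hz hg, e, hk]⟩
  refine ⟨![inl x₁, inr ζ], fun g => (?_ : g ∈ f.range), KerGen.ext (f := f) (r := 8) (s := 8) (ψ := u3Aff hσ) ?_
    (A := closure (Set.range (cj h z))) (fun g hg => ?_) ?_⟩
  · have : ∀ x : UHeis hσ, inl x ∈ f.range := fun x => by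
      refine mem_of_b (M := f.range.comap inl) (fun x hx => map_le_range _ _ (hA x hx))
        (S := Set.range (l ^ ·)) ?_ ?_
      · rintro _ ⟨i, rfl⟩; exact ⟨_, ⟨_, hcj1 i⟩, hb i⟩
      · have key : ∀ (t : uFix σ) (j : ℕ), l ^ j * t ∈ AddSubgroup.closure (Set.range (l ^ ·)) :=
          fun t j => by
            by_cases h0 : t = 0
            · simp [h0]
            obtain ⟨k, rfl⟩ := hν t h0
            exact AddSubgroup.subset_closure ⟨j + (q + 1) * k, by simp [pow_add, pow_mul, hm]⟩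
        obtain ⟨s, t, e⟩ := exists_decomp_fix hσ hl' x.b
        simpa [e] using add_mem (key s 0) (key t 1)
    obtain ⟨k, hk⟩ := hζ g.right g.right.ne_zero
    rw [← inl_left_mul_inr_right g]
    exact mul_mem (this _) ⟨h ^ k, by rw [map_pow, hh, ← map_pow]; congr 1; exact Units.ext hk⟩
  · refine kerGen_affine hσ (X := fun a => (Equiv.addLeft a, 1)) (fun a b => by simp)
      (fun a b e => by simpa using congrArg (fun p => p.1 0) e) hl' hν ν0 hm hE
      (by rw [MonoidHom.comp_apply, hu, u3Aff_inl, hx₁]) (fun a => ?_) fun a k e => ?_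
    · obtain ⟨x, rfl⟩ := UHeis.exists_b hσ a
      rw [MonoidHom.comp_apply, hh, ← u3Aff_inl, ← map_inv, ← map_mul, ← map_mul, u3b_conj, u3Aff_inl]
      rfl
    · rw [MonoidHom.comp_apply, hh, ← map_zpow, ← map_zpow] at e ⊢
      have := congrArg Prod.snd e
      rw [show ζ ^ k = 1 by simpa [u3Aff] using this, map_one, map_one]
  · rw [← inl_left_mul_inr_right g, MonoidHom.mem_ker, map_mul] at hg
    have h1 : g.right = 1 := by simpa [u3Aff] using congrArg Prod.snd hg
    rw [h1, map_one, map_one, mul_one, u3Aff_inl] at hg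
    rw [← inl_left_mul_inr_right g, h1, map_one, mul_one]
    exact hA _ (by simpa using congrArg (fun p => p.1 0) hg)
  set S : Set (FreeGroup (Fin 2)) := Set.range (cj h z) ∪
    {w | ∃ i < 3, ∃ j, w = cj (h ^ (q - 1)) (cj h u i) j} with hS
  refine ((Rels.root hX hi hν hz hg).and ((Rels.forall [0, 1, 2] fun i _ =>
    Rels.commute (a := z) (b := cj h u i) ?_).and (Rels.mem (a := cj h u 3) (H := closure S) ?_))).mono
    le_rfl fun J _ π φ hφ R hπ => ?_
  · rw [hz, hcj1]
    exact Commute.map (UHeis.commute_iff.2 (by simp)) inl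
  · rw [hcj1]
    refine mem_of_b (M := ((closure S).map f).comap inl)
      (fun x hx => map_mono (closure_mono Set.subset_union_left) (hA x hx)) ?_
      (hb 3 ▸ cube_mem_span (μ := l ^ (q - 1)) (fun K hK => ?_) l)
    · rintro _ ⟨i, hi, j, rfl⟩
      exact ⟨_, ⟨_, subset_closure (Or.inr ⟨i, hi, j, rfl⟩), hcj _ (hcj1 i) j⟩, by
        rw [UHeis.torus_b, hb, map_pow, pow_mul]; simp [hl]⟩
    · by_contra hd
      have h4 : 1 < Nat.card K := Finite.one_lt_card
      have h5 : uLam σ (ζ ^ ((q - 1) * (Nat.card K - 1))) = 1 := Units.ext (by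
        have := pow_card_of_mem hK
        rw [show Nat.card K = Nat.card K - 1 + 1 by omega, pow_succ,
          mul_eq_right₀ (pow_ne_zero _ (uLam σ ζ).ne_zero)] at this
        simpa [pow_mul] using this)
      have h6 := subfield_eq_top_of_sq hζ (n := (q - 1) * (Nat.card K - 1) * 3)
        (Nat.mul_pos (Nat.mul_pos (by omega) (by omega)) three_pos)
        (by simpa [pow_mul] using congrArg Units.val (hσ.uLam_eq_one_iff.1 h5).2)
      have h7 : (Nat.card K ^ 2) ^ 2 ≤ q ^ 2 := by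
        rw [← hq.card, Module.natCard_eq_pow_finrank (K := K) (V := F), ← pow_mul]
        exact Nat.pow_le_pow_right Nat.card_pos (by omega)
      rw [Nat.pow_le_pow_iff_left two_ne_zero] at h7
      obtain ⟨r, hr⟩ : ∃ r, Nat.card K = r + 1 := ⟨Nat.card K - 1, by omega⟩
      obtain ⟨q, rfl⟩ : ∃ r, q = r + 1 := ⟨q - 1, by omega⟩
      rw [hq.card, hr, Nat.add_sub_cancel, Nat.add_sub_cancel] at h6
      rw [hr] at h7
      have : q + 2 ≤ 3 * r := by
        by_contra h8
        nlinarith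
      nlinarith
  obtain ⟨⟨x, hx⟩, c1, c2⟩ := R
  have h1 : ∀ a, π h * x a * (π h)⁻¹ = x (ν * a) := fun a => hx.conj_self (by rw [hφ, hg])
  have h2 : Commute (π z) (π h ^ (q - 1)) := by
    have := hx.conj (t := π h ^ (q - 1)) (Commute.pow_self _ _) (subset_closure ⟨q - 1, rfl⟩)
      (a := 1) (b := 1) (by
        rw [map_pow, hφ, hh, ← map_pow]
        refine hXc _ _ _ ?_
        have := (hq.fixed_iff (mul_ne_zero z0 z1)).1 (hσ.norm_fixed _)
        simpa [mul_pow, eq_comm] using this)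
    rw [hx.one] at this
    exact (mul_inv_eq_iff_eq_mul.1 this).symm
  have h4 : (closure S).map π ≤ centralizer {π z} := by
    rw [map_le_iff_le_comap, closure_le]
    rintro _ (⟨j, rfl⟩ | ⟨i, hi, j, rfl⟩) <;> refine mem_centralizer_singleton_iff.2 (Commute.eq ?_)
    · obtain ⟨a, ha⟩ := (hx.range _).1 (subset_closure ⟨j, rfl⟩)
      rw [map_cj, ← ha, ← hx.one]
      exact hx.add.commute _ _
    · rw [map_cj, cj, map_pow]
      exact (((h2.pow_right j).mul_right (c1 i (by interval_cases i <;> simp))).mul_right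
        (h2.pow_right j).inv_right).symm
  have h5 : ∀ w ∈ (closure S).map π, π h * w * (π h)⁻¹ ∈ (closure S).map π := by
    have ms : closure S ≤ (closure S).comap (MulAut.conj (h ^ (q - 1))).toMonoidHom := by
      rw [closure_le]
      rintro _ (⟨j, rfl⟩ | ⟨i, hi, j, rfl⟩)
      · exact subset_closure (Or.inl ⟨q - 1 + j, cj_add _ _ _ _⟩)
      · exact subset_closure (Or.inr ⟨i, hi, j + 1, (cj_succ _ _ _).symm⟩)
    obtain ⟨W, hW, e⟩ := c2
    have mW : ∀ j, cj (h ^ (q - 1)) W j ∈ closure S := fun j => by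
      induction j with
      | zero => rwa [cj_zero]
      | succ j ih => rw [cj_succ]; exact ms ih
    have : closure S ≤ ((closure S).map π).comap (π.comp (MulAut.conj h).toMonoidHom) := by
      rw [closure_le]
      rintro _ (⟨j, rfl⟩ | ⟨i, hi, j, rfl⟩)
      · exact mem_map_of_mem _ (subset_closure (Or.inl ⟨j + 1, cj_succ _ _ _⟩))
      · have e1 : h * cj (h ^ (q - 1)) (cj h u i) j * h⁻¹ = cj (h ^ (q - 1)) (cj h u (i + 1)) j := by
          rw [conj_cj (Commute.self_pow _ _), ← cj_succ]; rfl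
        change π (h * _ * h⁻¹) ∈ (closure S).map π
        rw [e1]
        rcases (show i + 1 < 3 ∨ i = 2 by omega) with hi | rfl
        · exact mem_map_of_mem _ (subset_closure (Or.inr ⟨_, hi, j, rfl⟩))
        · exact ⟨_, mW j, by rw [map_cj, e, ← map_cj]⟩
    rintro _ ⟨w, hw, rfl⟩
    simpa using this hw
  have h6 : ∀ k, cj (π h) (π u) k ∈ (closure S).map π := fun k => by
    induction k with
    | zero => exact ⟨u, subset_closure (Or.inr ⟨0, three_pos, 0, by simp⟩), by simp⟩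
    | succ k ih => rw [cj_succ]; exact h5 _ ih
  have h7 : ∀ a, Commute (π u) (x a) := fun a => by
    by_cases h0 : a = 0
    · rw [h0, hx.add.zero]; exact Commute.one_right _
    obtain ⟨k, hk⟩ := hν _ (inv_ne_zero h0)
    have := mem_centralizer_singleton_iff.1 (h4 (h6 k))
    rw [← hx.one, ← inv_mul_cancel₀ h0, ← hk, ← conj_pow_addv h1] at this
    exact (Commute.conj_iff _).1 this
  have hJ : closure {π u, π h} = ⊤ := by
    rw [← Set.image_pair, ← MonoidHom.map_closure, hE, map_top_of_surjective π hπ]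
  have : Finite (closure (Set.range (cj (π h) (π z)))) :=
    Set.Finite.subset (Set.finite_range x) fun j hj => (hx.range j).1 hj
  refine ⟨_, normal_of_conj (V := closure (Set.range (cj (π h) (π z)))) hJ ?_, ?_, fun j hj e => ?_⟩
  · rintro g (rfl | rfl) v hv <;> obtain ⟨a, rfl⟩ := (hx.range v).1 hv
    · rwa [(h7 a).eq, mul_inv_cancel_right]
    · exact h1 a ▸ hx.mem _
  · rw [MonoidHom.map_closure, ← Set.range_comp]
    simp only [Function.comp_def, map_cj, le_refl]
  · rw [hx.eq_of_mem hj (e.trans hX.zero.symm), hx.add.zero]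

theorem hasPres_u3 [Finite F] {hσ : UInvol σ} {G : Type*} [Group G] (D : U3Data hσ G)
    (hi : Injective D.h) {k r : ℕ} (hB : HasPres (U3B hσ) k r) : HasPres G (k + 1) (r + 6) := by
  obtain ⟨g, hg⟩ := hB
  obtain ⟨ζ, hζ⟩ := exists_prim F
  obtain ⟨l, l4, l1, hl⟩ := exists_seeds hσ
  let ρ : U3B hσ →* G := lift D.u D.h fun a => by ext x; simp [D.h_conj]
  refine (hg.extend (s := 6) ρ (fun _ : Fin 1 => D.w) ?_ fun E _ γ x f hγ hx hE => ?_).hasPres (s := r + 6)
    (by simp) (by simp)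
  · rw [eq_top_iff, ← D.closure_u_w]
    refine closure_mono (Set.union_subset_union ?_ (by simp))
    rintro _ ⟨y, rfl⟩
    exact ⟨inl y, by simp [ρ]⟩
  have fu : ∀ y, f (γ (inl y)) = D.u y := fun y => by simp [hγ, ρ]
  have fh : ∀ a, f (γ (inr a)) = D.h a := fun a => by simp [hγ, ρ]
  have := (Rels.eq (f := f) (a := x 0 * x 0) (b := 1) (by simp [hx, D.w_sq])).and
    ((Rels.eq (a := x 0 * γ (inr ζ) * x 0) (b := γ (inr (Units.map σ.toMonoidHom ζ)⁻¹))
      (by simp only [map_mul, fh, hx, D.w_h])).and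
    (Rels.forall l.attach fun y _ => Rels.eq (a := x 0 * γ (inl y.1) * x 0)
      (b := γ (inl y.1.flip) * x 0 * γ (inr (Units.mk0 y.1.c (mt UHeis.eq_one_iff.2 (l1 _ y.2)))) *
        γ (inl y.1.flip')) (by simp only [map_mul, fh, fu, hx, ← D.rel])))
  rw [List.length_attach, l4] at this
  refine this.kerGen fun J _ π φ hπ hφ R => ?_
  obtain ⟨r1, r2, r3⟩ := R
  simp only [map_mul, map_one] at r1 r2 r3
  have L : U3Lift D φ ((π.comp γ).comp inl) ((π.comp γ).comp inr) (π (x 0)) :=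
    { φu := fun y => (hφ _).trans (fu y)
      φh := fun y => (hφ _).trans (fh y)
      φw := (hφ _).trans (hx 0)
      h_conj := fun a y => by simp only [MonoidHom.comp_apply, ← u3b_conj, map_mul, map_inv]
      w_sq := r1
      w_h := fun a => by
        obtain ⟨k, hk⟩ := hζ a a.ne_zero
        obtain rfl : ζ ^ k = a := Units.ext hk
        simp only [MonoidHom.comp_apply, map_pow, ← inv_pow, ← r2]
        have e := inv_eq_of_mul_eq_one_right r1
        simpa only [e] using (conj_pow (i := k) (a := π (x 0)) (b := π (γ (inr ζ)))).symm }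
  refine L.injective hi ?_ (hl _ (fun y hy => ⟨_, _, _, r3 ⟨y, hy⟩ (List.mem_attach _ _)⟩)
    (fun a y => L.big_torus a) fun y z => L.big_mul)
  rw [eq_top_iff, ← map_top_of_surjective π hπ, ← hE, map_le_iff_le_comap, closure_le]
  rintro _ (⟨y, rfl⟩ | ⟨i, rfl⟩)
  · rw [← inl_left_mul_inr_right y, map_mul]
    exact mul_mem (subset_closure (Or.inl (Or.inl ⟨_, rfl⟩))) (subset_closure (Or.inl (Or.inr ⟨_, rfl⟩)))
  · exact subset_closure (Or.inr (by rw [Subsingleton.elim i 0]; rfl))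

theorem hasPres_su3 (hq : UField σ q) (h3 : 3 ≤ q) : HasPres (SU 3 F q) 3 22 :=
  have := hq.finite
  let ⟨D, hD⟩ := hq.exists_u3Data_SU
  hasPres_u3 D hD (hasPres_u3b hq h3)

theorem HasPres.psu (hq : UField σ q) {n k r : ℕ} (hn : 2 ≤ n) (h : HasPres (SU n F q) k r) :
    HasPres (PSU n F q) k (r + 1) := by
  have := hq.finite
  have : IsCyclic (center (SU n F q)) :=
    (MulEquiv.isCyclic (centerCongr (hq.suEquiv n))).2
      (Ch.isCyclic_center_USG (hq.isHerm_uStd _) (by simpa using hn))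
  exact h.quot_cyclic _

end Cfsg.Agent.Pr
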