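import Mathlib
import Cfsg.Agent.Pres.SymSmall
import Cfsg.Agent.Pres.SymMain

/-!
# The alternating group acting on finite sets
-/

set_option autoImplicit false

namespace Cfsg.Agent.Pr

open Subgroup Function Equiv Equiv.Perm Cfsg.Agent.Sym
open scoped Pointwise

variable {α : Type*} [DecidableEq α] [Fintype α]

theorem alt_smul (g : alternatingGroup α) (x : α) : g • x = (g : Perm α) x := rfl

theorem smul_eq_of_mapsTo {g : alternatingGroup α} {S S' : Finset α} (hc : S.card = S'.card)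
    (h : ∀ x ∈ S, (g : Perm α) x ∈ S') : g • S = S' := by
  refine Finset.eq_of_subset_of_card_le (fun y hy => ?_) (by rw [Finset.card_smul_finset, hc])
  obtain ⟨x, hx, rfl⟩ := Finset.mem_smul_finset.1 hy
  exact h x hx

theorem smul_eq_of_fix {g : alternatingGroup α} {S U : Finset α} (hSU : S ⊆ U)
    (h : ∀ x ∉ S, (g : Perm α) x = x) : g • U = U :=
  smul_eq_of_mapsTo rfl fun x hx => by
    by_contra hn
    have := (g : Perm α).injective (h _ fun h' => hn (hSU h'))
    rw [this] at hn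
    exact hn hx

theorem exists_alt_set {S S' : Finset α} (hc : S.card = S'.card) (h2 : 2 ≤ S.card) {β : Type*}
    {x y : β → α} (hx : Injective x) (hy : Injective y) (hxS : ∀ b, x b ∉ S) (hyS : ∀ b, y b ∉ S') :
    ∃ g : alternatingGroup α, g • S = S' ∧ ∀ b, (g : Perm α) (x b) = y b := by
  have : Finite β := Finite.of_injective x hx
  let e := S.equivOfCardEq hc
  obtain ⟨σ, hσ⟩ := Perm.exists_extending_pair (Sum.elim (fun s : S => (s : α)) x)
    (Sum.elim (fun s : S => (e s : α)) y)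
    (Subtype.val_injective.sumElim hx fun s b h => hxS b (h ▸ s.2))
    ((Subtype.val_injective.comp e.injective).sumElim hy fun s b h => hyS b (h ▸ (e s).2))
  have h1 : ∀ s ∈ S, σ s ∈ S' := fun s hs => by
    have : σ s = e ⟨s, hs⟩ := hσ (Sum.inl ⟨s, hs⟩)
    rw [this]; exact (e _).2
  have h3 : ∀ b, σ (x b) = y b := fun b => hσ (Sum.inr b)
  rcases Int.units_eq_one_or (sign σ) with h | h
  · exact ⟨⟨σ, mem_alternatingGroup.2 h⟩, smul_eq_of_mapsTo hc h1, h3⟩
  · obtain ⟨a, ha, b, hb, hab⟩ := Finset.one_lt_card.1 h2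
    refine ⟨⟨σ * swap a b, mem_alternatingGroup.2 (by simp [h, sign_swap hab])⟩,
      smul_eq_of_mapsTo hc fun s hs => h1 _ ?_, fun c => ?_⟩
    · rw [swap_apply_def]; split_ifs <;> assumption
    · show σ (swap a b (x c)) = y c
      rw [swap_apply_of_ne_of_ne (fun e => hxS c (by rwa [e])) (fun e => hxS c (by rwa [e])), h3]

theorem exists_alt_one {S S' : Finset α} (hc : S.card = S'.card) (h2 : 2 ≤ S.card) :
    ∃ g : alternatingGroup α, g • S = S' :=
  let ⟨g, h, _⟩ := exists_alt_set (x := (Empty.elim : Empty → α)) (y := Empty.elim) hc h2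
    (fun a => a.elim) (fun a => a.elim) (fun a => a.elim) (fun a => a.elim)
  ⟨g, h⟩

theorem exists_alt_in {S S' U : Finset α} (hc : S.card = S'.card) (h2 : 2 ≤ S.card) (hS : S ⊆ U)
    (hS' : S' ⊆ U) : ∃ g : alternatingGroup α, g • S = S' ∧ ∀ x ∉ U, (g : Perm α) x = x :=
  let ⟨g, h, h'⟩ := exists_alt_set (x := fun b : {x // x ∉ U} => b.1) (y := fun b => b.1) hc h2
    Subtype.val_injective Subtype.val_injective (fun b hb => b.2 (hS hb)) (fun b hb => b.2 (hS' hb))
  ⟨g, h, fun x hx => h' ⟨x, hx⟩⟩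

theorem exists_alt_pair {S S' T T' : Finset α} (hc : S.card = S'.card) (h2 : 2 ≤ S.card)
    (hc' : T.card = T'.card) (hd : Disjoint S T) (hd' : Disjoint S' T') :
    ∃ g : alternatingGroup α, g • S = S' ∧ g • T = T' := by
  let e := T.equivOfCardEq hc'
  obtain ⟨g, h, h'⟩ := exists_alt_set (x := fun b : T => b.1) (y := fun b => (e b).1) hc h2
    Subtype.val_injective (Subtype.val_injective.comp e.injective)
    (fun b hb => Finset.disjoint_left.1 hd hb b.2) (fun b hb => Finset.disjoint_left.1 hd' hb (e b).2)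
  exact ⟨g, h, smul_eq_of_mapsTo hc' fun x hx => by rw [h' ⟨x, hx⟩]; exact (e _).2⟩

theorem perm_two_gen (β : Type*) [Finite β] : ∃ u v : Perm β, closure {u, v} = ⊤ := by
  classical
  have := Fintype.ofFinite β
  obtain ⟨g, hg⟩ := (hasPres_perm_two_eight (Fintype.card β)).equiv
    (Fintype.equivFin β).symm.permCongrHom
  refine ⟨g 0, g 1, ?_⟩
  rw [← hg.closure_eq]
  congr 1
  ext x
  simp [Fin.exists_fin_two, eq_comm]

/-- The stabilizer of a set is generated by two elements modulo the alternating group of the set. -/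
theorem exists_setStab_gens (S : Finset α) (h2 : 2 ≤ S.card) : ∃ s t : alternatingGroup α,
    s • S = S ∧ t • S = S ∧ ∀ K : Subgroup (alternatingGroup α), s ∈ K → t ∈ K →
      (∀ g : alternatingGroup α, (∀ x ∉ S, (g : Perm α) x = x) → g ∈ K) → ∀ g, g • S = S → g ∈ K := by
  obtain ⟨u, v, huv⟩ := perm_two_gen {x // x ∉ S}
  have key : ∀ g : MulAction.stabilizer (alternatingGroup α) S, ∀ x,
      ((g.1 : Perm α) x ∉ S) ↔ x ∉ S := fun g x => by
    have h : g.1 • S = S := g.2
    have := Finset.smul_mem_smul_finset_iff (s := S) (b := x) g.1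
    rw [h] at this
    exact not_iff_not.2 this
  let ρ : MulAction.stabilizer (alternatingGroup α) S →* Perm {x // x ∉ S} :=
    MonoidHom.mk' (fun g => (g.1 : Perm α).subtypePerm (key g)) fun _ _ => rfl
  have hs : Surjective ρ := fun τ => by
    obtain ⟨g, h, h'⟩ := exists_alt_set (x := fun b : {x // x ∉ S} => b.1) (y := fun b => (τ b).1)
      rfl h2 Subtype.val_injective (Subtype.val_injective.comp τ.injective) (fun b => b.2)
      fun b => (τ b).2
    exact ⟨⟨g, h⟩, Equiv.ext fun b => Subtype.ext (h' b)⟩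
  obtain ⟨s, rfl⟩ := hs u
  obtain ⟨t, rfl⟩ := hs v
  refine ⟨s, t, s.2, t.2, fun K h1 h3 h4 g hg => ?_⟩
  have : ρ ⟨g, hg⟩ ∈ (K.subgroupOf _).map ρ := by
    refine (huv.ge.trans ((closure_le _).2 ?_)) (mem_top _)
    rintro _ (rfl | rfl)
    exacts [⟨s, h1, rfl⟩, ⟨t, h3, rfl⟩]
  obtain ⟨h, hh, e⟩ := this
  have : h.1⁻¹ * g ∈ K := h4 _ fun x hx => by
    have : (h.1 : Perm α) x = (g : Perm α) x := congrArg (fun τ => (τ ⟨x, hx⟩).1) e
    show (h.1 : Perm α)⁻¹ ((g : Perm α) x) = x
    rw [← this]; simp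
  simpa using K.mul_mem hh this

/-- Generators of the alternating group of a subset. -/
theorem alt_mem_of_cyc3 {A B : α} (hAB : A ≠ B) {U : Finset α} {K : Subgroup (alternatingGroup α)}
    (h : ∀ i ∈ U, i ≠ A → ∀ hi : B ≠ i, altCyc3 hAB hi ∈ K) {g : alternatingGroup α}
    (hg : ∀ x ∉ U, (g : Perm α) x = x) : g ∈ K := by
  have := mem_closure_cyc3 hAB (fun i : {i // i ∈ U ∧ i ≠ A ∧ B ≠ i} => i.1)
    (mem_alternatingGroup.1 g.2) fun i h1 h2 h3 => hg i fun hi => h3 ⟨⟨i, hi, h1, h2.symm⟩, rfl⟩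
  obtain ⟨g', hg', e⟩ := (closure_le (K.map (alternatingGroup α).subtype)).2 (by
    rintro _ ⟨i, rfl⟩
    exact ⟨_, h i.1 i.2.1 i.2.2.1 i.2.2.2, rfl⟩) this
  rwa [← Subtype.ext e]

/-- The alternating group is generated by the alternating groups of intervals of length three. -/
theorem alt_eq_top_of_iv {N : ℕ} {K : Subgroup (alternatingGroup (Fin N))}
    (h : ∀ i, i + 3 ≤ N → ∀ g : alternatingGroup (Fin N),
      (∀ x : Fin N, x.val < i ∨ i + 3 ≤ x.val → (g : Perm (Fin N)) x = x) → g ∈ K) : K = ⊤ := by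
  rcases N with _ | _ | n
  · exact eq_top_iff.2 fun g _ => by rw [Subsingleton.elim g 1]; exact K.one_mem
  · exact eq_top_iff.2 fun g _ => by
      rw [show g = 1 from Subtype.ext (Equiv.ext fun x => Fin.ext (by omega))]; exact K.one_mem
  let s : Fin (n + 1) → Perm (Fin (n + 2)) := fun i => swap i.castSucc i.succ
  have hs : ∀ i, sign (s i) = -1 := fun i => sign_swap (Fin.castSucc_lt_succ (i := i)).ne
  let K' := K.map (alternatingGroup _).subtype
  have h1 : ∀ i : Fin n, s i.castSucc * s i.succ ∈ K' := fun i =>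
    ⟨⟨s i.castSucc * s i.succ, mem_alternatingGroup.2 (by rw [map_mul, hs, hs]; rfl)⟩, h i (by omega) _ fun x hx => by
      show Equiv.swap _ _ (Equiv.swap _ _ x) = x
      rw [swap_apply_of_ne_of_ne (x := x), swap_apply_of_ne_of_ne] <;> simp only [Ne, Fin.ext_iff, Fin.val_succ, Fin.val_castSucc] <;>
        omega, rfl⟩
  have h2 : ∀ i, s 0 * s i ∈ K' := fun i => by
    induction i using Fin.induction with
    | zero => simp [s, K'.one_mem]
    | succ i ih =>
      have := K'.mul_mem ih (h1 i)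
      rwa [mul_assoc, ← mul_assoc (s i.castSucc), swap_mul_self, one_mul] at this
  have h3 : ∀ σ : Perm (Fin (n + 2)), (sign σ = 1 → σ ∈ K') ∧ (sign σ = -1 → s 0 * σ ∈ K') := by
    intro σ
    have : σ ∈ Submonoid.closure (Set.range s) := by
      rw [mclosure_swap_castSucc_succ]; trivial
    induction this using Submonoid.closure_induction_left with
    | one => exact ⟨fun _ => K'.one_mem, fun h => by simp at h⟩
    | mul_left x hx y _ ih =>
      obtain ⟨i, rfl⟩ := hx
      rw [map_mul, hs]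
      refine ⟨fun e => ?_, fun e => ?_⟩
      · have := K'.mul_mem (K'.inv_mem (h2 i)) (ih.2 (by simpa [neg_eq_iff_eq_neg] using e))
        simpa [s, mul_assoc] using this
      · rw [← mul_assoc]
        exact K'.mul_mem (h2 i) (ih.1 (by simpa using e))
  refine eq_top_iff.2 fun g _ => ?_
  obtain ⟨g', hg', e⟩ := (h3 g).1 (mem_alternatingGroup.1 g.2)
  rwa [← Subtype.ext e]

end Cfsg.Agent.Pr
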