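import Mathlib
import Cfsg.Agent.Phan.Chain2
import Cfsg.Agent.Pres.UNAlt

/-!
# Spreading a lifted coordinate block of `SU_N` around by the alternating group
-/

set_option autoImplicit false

namespace Cfsg.Agent.Pr

open Subgroup Function Equiv Cfsg.Agent.Cl Cfsg.Agent.Phan
open scoped Pointwise

section general

variable {F : Type*} [Field F] {σ : F →+* F} {ι : Type*} [Fintype ι] [DecidableEq ι]
  {J : Type*} [Group J] {π : J →* ((ι → F) ≃ₗ[F] (ι → F))} {κ : alternatingGroup ι →* J}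
  {A B D : Subgroup J} {S T U S0 U0 : Finset ι} {g h : alternatingGroup ι}

theorem lift_sup {W : Finset ι} (h1 : Lift σ π A S) (h2 : Lift σ π B T)
    (hb : Blk σ W = Blk σ S ⊔ Blk σ T) (h3 : Lift σ π D U) (hA : A ≤ D) (hB : B ≤ D) :
    Lift σ π (A ⊔ B) W where
  mem g hg := by
    have : A ⊔ B ≤ (Blk σ W).comap π := sup_le (fun x hx => hb ▸ mem_sup_left (h1.mem x hx))
      fun x hx => hb ▸ mem_sup_right (h2.mem x hx)
    exact this hg
  surj k hk := by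
    have : Blk σ W ≤ (A ⊔ B).map π := hb ▸ sup_le
      (fun k hk => let ⟨g, hg, e⟩ := h1.surj k hk; ⟨g, mem_sup_left hg, e⟩)
      fun k hk => let ⟨g, hg, e⟩ := h2.surj k hk; ⟨g, mem_sup_right hg, e⟩
    exact this hk
  inj g hg := h3.inj g (sup_le hA hB hg)

variable (κ) in
/-- Conjugation of subgroups. -/
def cjs (g : alternatingGroup ι) (A : Subgroup J) : Subgroup J := MulAut.conj (κ g) • A

theorem mem_cjs {x : J} : x ∈ cjs κ g A ↔ (κ g)⁻¹ * x * κ g ∈ A := by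
  simp [cjs, mem_pointwise_smul_iff_inv_smul_mem]

theorem conj_mem_cjs {x : J} : κ g * x * (κ g)⁻¹ ∈ cjs κ g A ↔ x ∈ A := by simp [mem_cjs, mul_assoc]

theorem cjs_mul (g h : alternatingGroup ι) (A : Subgroup J) : cjs κ (g * h) A = cjs κ g (cjs κ h A) := by
  simp [cjs, mul_smul]

theorem cjs_one (A : Subgroup J) : cjs κ 1 A = A := by simp [cjs]

theorem cjs_mono (hAB : A ≤ B) : cjs κ g A ≤ cjs κ g B := fun _ hx => mem_cjs.2 (hAB (mem_cjs.1 hx))

theorem cjs_le (hA : A ≤ D) (hg : κ g ∈ D) : cjs κ g A ≤ D := fun x hx => by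
  simpa [mul_assoc] using D.mul_mem (D.mul_mem hg (hA (mem_cjs.1 hx))) (D.inv_mem hg)

theorem commute_cjs (hc : ∀ x ∈ A, ∀ y ∈ B, Commute x y) : ∀ x ∈ cjs κ g A, ∀ y ∈ cjs κ g B,
    Commute x y := fun x hx y hy => by
  simpa [mul_assoc] using (hc _ (mem_cjs.1 hx) _ (mem_cjs.1 hy)).map (MulAut.conj (κ g))

variable (σ π κ) in
/-- `κ` lifts the permutation matrices. -/
structure Perms : Prop where
  mem : ∀ g, π (κ g) ∈ USG (uStd σ ι)
  ev : ∀ g i, π (κ g) (ev i) = ev ((g : Perm ι) i)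

theorem Perms.conj_mem (H : Perms σ π κ) (g : alternatingGroup ι) {x : J} (hx : π x ∈ Blk σ S) :
    π (κ g * x * (κ g)⁻¹) ∈ Blk σ (g • S) := by
  refine ⟨by simpa using mul_mem (mul_mem (H.mem g) hx.1) (inv_mem (H.mem g)), fun k hk => ?_⟩
  obtain ⟨i, rfl⟩ := (g : Perm ι).surjective k
  rw [← H.ev, pi_mul, pi_inv_apply, pi_mul,
    hx.2 i fun hi => hk (Finset.smul_mem_smul_finset (a := g) hi)]

theorem Perms.conj_mem' (H : Perms σ π κ) {x : J} (hx : π x ∈ Blk σ (g • S)) :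
    π ((κ g)⁻¹ * x * κ g) ∈ Blk σ S := by
  simpa using H.conj_mem g⁻¹ hx

theorem Perms.mem_Blk (H : Perms σ π κ) (hg : ∀ i ∉ S, (g : Perm ι) i = i) : π (κ g) ∈ Blk σ S :=
  ⟨H.mem g, fun k hk => by rw [H.ev, hg k hk]⟩

theorem Perms.lift (H : Perms σ π κ) (l : Lift σ π A S)
    (g : alternatingGroup ι) : Lift σ π (cjs κ g A) (g • S) where
  mem x hx := by simpa [mul_assoc] using H.conj_mem g (l.mem _ (mem_cjs.1 hx))
  surj k hk := by
    have : (π (κ g))⁻¹ * k * π (κ g) ∈ Blk σ S := by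
      refine ⟨mul_mem (mul_mem (inv_mem (H.mem g)) hk.1) (H.mem g), fun i hi => ?_⟩
      rw [LinearEquiv.mul_apply, LinearEquiv.mul_apply, H.ev,
        hk.2 ((g : Perm ι) i) fun h => hi ((Finset.smul_mem_smul_finset_iff g).1 h), ← H.ev, ← map_inv,
        pi_inv_apply]
    obtain ⟨x, hx, e⟩ := l.surj _ this
    exact ⟨_, conj_mem_cjs.2 hx, by simp [e, mul_assoc]⟩
  inj x hx e := by
    simpa [mul_assoc] using congrArg (fun y => κ g * y * (κ g)⁻¹) (l.inj _ (mem_cjs.1 hx) (by simp [e]))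

variable (σ π κ) in
/-- A lifted block `D` containing the appropriate permutations, and a smaller block `A` that is
normalized by its stabilizer. -/
structure USeed (A D : Subgroup J) (S0 U0 : Finset ι) : Prop extends Perms σ π κ where
  two : 2 ≤ S0.card
  sub : S0 ⊆ U0
  lA : Lift σ π A S0
  lD : Lift σ π D U0
  le : A ≤ D
  id : ∀ g : alternatingGroup ι, (∀ i ∉ U0, (g : Perm ι) i = i) → κ g ∈ D
  st : ∀ g, g • S0 = S0 → cjs κ g A = A

variable (κ A S0) in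
/-- The lift of the block `S`. -/
def Gm (S : Finset ι) : Subgroup J := ⨆ (g : alternatingGroup ι) (_ : g • S0 = S), cjs κ g A

namespace USeed

variable (H : USeed σ π κ A D S0 U0)
include H

theorem Gm_smul (g : alternatingGroup ι) : Gm κ A S0 (g • S0) = cjs κ g A := by
  refine le_antisymm (iSup₂_le fun h e => ?_) (le_iSup₂_of_le g rfl le_rfl)
  rw [← mul_inv_cancel_left g h, cjs_mul, H.st _ (by rw [mul_smul, e, inv_smul_smul])]

theorem Gm_self : Gm κ A S0 S0 = A := by simpa [cjs_one] using H.Gm_smul 1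

theorem cjs_Gm (hS : S.card = S0.card) (g : alternatingGroup ι) :
    cjs κ g (Gm κ A S0 S) = Gm κ A S0 (g • S) := by
  obtain ⟨h, rfl⟩ := exists_alt_one hS.symm H.two
  rw [← mul_smul, H.Gm_smul, H.Gm_smul, cjs_mul]

theorem lift_Gm (hS : S.card = S0.card) : Lift σ π (Gm κ A S0 S) S := by
  obtain ⟨h, rfl⟩ := exists_alt_one hS.symm H.two
  rw [H.Gm_smul]
  exact H.lift H.lA h

theorem Gm_le (hS : S.card = S0.card) (hU : S ⊆ U0) : Gm κ A S0 S ≤ D := by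
  obtain ⟨h, rfl, e⟩ := exists_alt_in hS.symm H.two H.sub hU
  rw [H.Gm_smul]
  exact cjs_le H.le (H.id h e)

theorem exists_big (hU : U.card = U0.card) : ∃ D', Lift σ π D' U ∧
    (∀ S, S.card = S0.card → S ⊆ U → Gm κ A S0 S ≤ D') ∧
    ∀ g : alternatingGroup ι, (∀ i ∉ U, (g : Perm ι) i = i) → κ g ∈ D' := by
  obtain ⟨h, rfl⟩ := exists_alt_one hU.symm (H.two.trans (Finset.card_le_card H.sub))
  refine ⟨_, H.lift H.lD h, fun S hS hS' => ?_, fun g hg => ?_⟩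
  · have c : (h⁻¹ • S).card = S0.card := by rw [Finset.card_smul_finset, hS]
    rw [← smul_inv_smul h S, ← H.cjs_Gm c]
    exact cjs_mono (H.Gm_le c (Finset.subset_smul_finset_iff.1 hS'))
  · rw [mem_cjs, ← map_inv, ← map_mul, ← map_mul]
    refine H.id _ fun i hi => ?_
    show (h : Perm ι)⁻¹ ((g : Perm ι) ((h : Perm ι) i)) = i
    rw [hg ((h : Perm ι) i) fun e => hi ((Finset.smul_mem_smul_finset_iff h).1 e)]
    simp

theorem exists_big' (h1 : U.card ≤ U0.card) : ∃ D' U', Lift σ π D' U' ∧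
    (∀ S, S.card = S0.card → S ⊆ U → Gm κ A S0 S ≤ D') ∧
    ∀ g : alternatingGroup ι, (∀ i ∉ U, (g : Perm ι) i = i) → κ g ∈ D' := by
  obtain ⟨U', h2, h3⟩ := Finset.exists_superset_card_eq h1 (Finset.card_le_univ U0)
  obtain ⟨D', l, h4, h5⟩ := H.exists_big h3
  exact ⟨D', U', l, fun S hS hS' => h4 S hS (hS'.trans h2), fun g hg => h5 g fun i hi =>
    hg i fun e => hi (h2 e)⟩

theorem commute_Gm {T0 : Finset ι} (hT0 : T0.card = S0.card) (hd0 : Disjoint S0 T0)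
    (hc : ∀ x ∈ A, ∀ y ∈ Gm κ A S0 T0, Commute x y) (hS : S.card = S0.card)
    (hT : T.card = S0.card) (hd : Disjoint S T) :
    ∀ x ∈ Gm κ A S0 S, ∀ y ∈ Gm κ A S0 T, Commute x y := by
  obtain ⟨g, rfl, rfl⟩ := exists_alt_pair hS.symm H.two (hT0.trans hT.symm) hd0 hd
  rw [H.Gm_smul, ← H.cjs_Gm hT0]
  exact commute_cjs hc

theorem commute_sub {R0 T0 R : Finset ι} (hR0 : R0 ⊆ S0) (h2 : 2 ≤ R0.card) (hT0 : T0.card = S0.card)
    (hd0 : Disjoint R0 T0) (hU : 2 * S0.card ≤ U0.card + R0.card)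
    (hc : ∀ x ∈ A, π x ∈ Blk σ R0 → ∀ y ∈ Gm κ A S0 T0, Commute x y) (hR : R.card = R0.card)
    (hS : S.card = S0.card) (hRS : R ⊆ S) (hT : T.card = S0.card) (hd : Disjoint R T) :
    ∀ x ∈ Gm κ A S0 S, π x ∈ Blk σ R → ∀ y ∈ Gm κ A S0 T, Commute x y := by
  obtain ⟨g, rfl, rfl⟩ := exists_alt_pair hR.symm h2 (hT0.trans hT.symm) hd0 hd
  intro x hx hx' y hy
  have c : (g • S0).card = S0.card := Finset.card_smul_finset _ _
  have hs : g • R0 ⊆ g • S0 := Finset.smul_finset_subset_smul_finset hR0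
  obtain ⟨D', U', l, h4, -⟩ := H.exists_big' (U := S ∪ g • S0) (by
    have := Finset.card_union_add_card_inter S (g • S0)
    have := Finset.card_le_card (Finset.subset_inter hRS hs)
    omega)
  have hx2 : x ∈ cjs κ g A := H.Gm_smul g ▸ l.mem_of_le (H.lift_Gm c)
    (h4 _ c Finset.subset_union_right) (h4 _ hS Finset.subset_union_left hx) (Blk_mono hs hx')
  rw [← H.cjs_Gm hT0] at hy
  simpa [mul_assoc] using
    (hc _ (mem_cjs.1 hx2) (H.conj_mem' hx') _ (mem_cjs.1 hy)).map (MulAut.conj (κ g))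

end USeed

end general

section chain

variable {F : Type*} [Field F] {σ : F →+* F} {q N m : ℕ} {J : Type*} [Group J]
  {π : J →* ((Fin N → F) ≃ₗ[F] (Fin N → F))} {κ : alternatingGroup (Fin N) →* J} {A D : Subgroup J}

theorem Iv_subset {i j i' j' : ℕ} (h1 : i' ≤ i) (h2 : j ≤ j') : Iv N i j ⊆ Iv N i' j' := fun x hx => by
  rw [mem_Iv] at *; omega

theorem disjoint_Iv {i j i' j' : ℕ} (h : j ≤ i') : Disjoint (Iv N i j) (Iv N i' j') :=
  Finset.disjoint_left.2 fun x h1 h2 => by rw [mem_Iv] at *; omega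

theorem card_Iv' {i j : ℕ} (h : j ≤ N) (hij : i ≤ j) : (Iv N i j).card = j - i := by
  obtain ⟨k, rfl⟩ := Nat.exists_eq_add_of_le hij
  rw [card_Iv h]; omega

theorem Iv_univ : Iv N 0 N = Finset.univ := by ext x; simp [mem_Iv]

theorem blk_iv3 (hq : UField σ q) (h3 : 3 ≤ q) {i : ℕ} (hi : i + 3 ≤ N) :
    Blk σ (Iv N i (i + 3)) = Blk σ (Iv N i (i + 2)) ⊔ Blk σ (Iv N (i + 1) (i + 1 + 2)) := by
  rw [blk_eq_sup hq h3 (t := Iv N i (i + 3)) (by rw [card_Iv hi]) (a := ⟨i + 2, by omega⟩)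
    (b := ⟨i + 1, by omega⟩) (by simp [mem_Iv]) (by simp [mem_Iv]) (by simp [Fin.ext_iff])]
  congr 2
  · ext x; simp only [Finset.mem_erase, mem_Iv, Ne, Fin.ext_iff]; omega
  · ext x; simp only [Finset.mem_insert, Finset.mem_singleton, mem_Iv, Fin.ext_iff]; omega

theorem blk_iv4 (hq : UField σ q) {i : ℕ} (hi : i + 4 ≤ N) :
    Blk σ (Iv N i (i + 4)) = Blk σ (Iv N i (i + 3)) ⊔ Blk σ (Iv N (i + 1) (i + 1 + 3)) := by
  rw [blk_eq_sup' hq (t := Iv N i (i + 4)) (z := ⟨i + 3, by omega⟩) (b := ⟨i, by omega⟩)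
    (c := ⟨i + 1, by omega⟩) (d := ⟨i + 2, by omega⟩) (by simp [mem_Iv]) (by simp [mem_Iv])
    (by simp [mem_Iv]) (by simp [mem_Iv]) (by simp [Fin.ext_iff]) (by simp [Fin.ext_iff])
    (by simp [Fin.ext_iff]) (by simp [Fin.ext_iff]) (by simp [Fin.ext_iff]) (by simp [Fin.ext_iff])]
  congr 2 <;> ext x <;> simp only [Finset.mem_erase, mem_Iv, Ne, Fin.ext_iff] <;> omega

theorem Jn_three (Γ : ℕ → Subgroup J) (i : ℕ) : Jn Γ i (i + 3) = Γ i ⊔ Γ (i + 1) := by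
  refine le_antisymm (Jn_le fun k k1 k2 => ?_)
    (sup_le (le_Jn Γ le_rfl (by omega)) (le_Jn Γ (by omega) (by omega)))
  obtain rfl | rfl : k = i ∨ k = i + 1 := by omega
  exacts [le_sup_left, le_sup_right]

theorem Jn_four (Γ : ℕ → Subgroup J) (i : ℕ) :
    Jn Γ i (i + 4) = Jn Γ i (i + 3) ⊔ Jn Γ (i + 1) (i + 1 + 3) := by
  refine le_antisymm (Jn_le fun k k1 k2 => ?_)
    (sup_le (Jn_mono Γ le_rfl (by omega)) (Jn_mono Γ (by omega) (by omega)))
  by_cases e : k = i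
  · exact le_sup_of_le_left (le_Jn Γ k1 (by omega))
  · exact le_sup_of_le_right (le_Jn Γ (by omega) (by omega))

/-- The conclusion: a lift of the whole group that contains everything. -/
def Whole (σ : F →+* F) (π : J →* ((Fin N → F) ≃ₗ[F] (Fin N → F)))
    (κ : alternatingGroup (Fin N) →* J) (D : Subgroup J) : Prop :=
  Lift σ π (D ⊔ κ.range) Finset.univ

theorem USeed.whole {S0 U0 : Finset (Fin N)} (H : USeed σ π κ A D S0 U0) {S : ℕ → Finset (Fin N)}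
    {j N' : ℕ} (e : N' = N) (l : Lift σ π (Jn (fun i => Gm κ A S0 (S i)) 0 j) (Iv N 0 N'))
    (h1 : D ≤ Jn (fun i => Gm κ A S0 (S i)) 0 j)
    (h2 : ∀ g, κ g ∈ Jn (fun i => Gm κ A S0 (S i)) 0 j) : Whole σ π κ D := by
  rw [e, Iv_univ] at l
  have : Jn (fun i => Gm κ A S0 (S i)) 0 j = D ⊔ κ.range :=
    le_antisymm (Jn_le fun k _ _ => iSup₂_le fun g _ => cjs_le (H.le.trans le_sup_left)
      (mem_sup_right ⟨g, rfl⟩)) (sup_le h1 (by rintro _ ⟨g, rfl⟩; exact h2 g))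
  rwa [this] at l

theorem whole_pair (hq : UField σ q) (h3 : 3 ≤ q) (hm : 3 ≤ m) (hmN : m ≤ N) (hN : 4 ≤ N)
    (h4 : 4 ≤ q ∨ 4 ≤ m) (H : USeed σ π κ A D (Iv N 0 2) (Iv N 0 m))
    (hc : ∀ x ∈ A, ∀ y ∈ Gm κ A (Iv N 0 2) (Iv N 2 4), Commute x y) : Whole σ π κ D := by
  let Γ : ℕ → Subgroup J := fun i => Gm κ A (Iv N 0 2) (Iv N i (i + 2))
  have c0 : (Iv N 0 2).card = 2 := card_Iv' (by omega) (by omega)
  have cm : (Iv N 0 m).card = m := card_Iv' hmN (by omega)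
  have c2 : ∀ i, i + 2 ≤ N → (Iv N i (i + 2)).card = (Iv N 0 2).card := fun i hi => by
    rw [c0, card_Iv hi]
  have l2 : ∀ i, i + 2 ≤ N → Lift σ π (Γ i) (Iv N i (i + 2)) := fun i hi => H.lift_Gm (c2 i hi)
  have big : ∀ i l, i + l ≤ N → l ≤ m → ∃ D' U', Lift σ π D' U' ∧ Jn Γ i (i + l) ≤ D' ∧
      ∀ g : alternatingGroup (Fin N), (∀ x ∉ Iv N i (i + l), (g : Perm (Fin N)) x = x) → κ g ∈ D' :=
    fun i l h1 h2 => by
      obtain ⟨D', U', a, b, c⟩ := H.exists_big' (U := Iv N i (i + l)) (by rwa [cm, card_Iv h1])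
      exact ⟨D', U', a, Jn_le fun k k1 k2 => b _ (c2 k (by omega)) (Iv_subset k1 k2), c⟩
  have l3 : ∀ i, i + 3 ≤ N → Lift σ π (Jn Γ i (i + 3)) (Iv N i (i + 3)) := fun i hi => by
    obtain ⟨D', U', a, b, -⟩ := big i 3 hi hm
    rw [Jn_three] at b ⊢
    exact lift_sup (l2 i (by omega)) (l2 (i + 1) (by omega)) (blk_iv3 hq h3 hi) a
      (le_sup_left.trans b) (le_sup_right.trans b)
  have main := lift_chain hq Γ l2 l3
    (fun i k h1 h2 => H.commute_Gm (T0 := Iv N 2 4) (c2 2 hN) (disjoint_Iv le_rfl) hc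
      (c2 i (by omega)) (c2 k h2) (disjoint_Iv h1))
    (h4.imp id fun h => ⟨h3, fun i hi => by
      obtain ⟨D', U', a, b, -⟩ := big i 4 hi h
      rw [Jn_four] at b ⊢
      exact lift_sup (l3 i (by omega)) (l3 (i + 1) (by omega)) (blk_iv4 hq hi) a
        (le_sup_left.trans b) (le_sup_right.trans b)⟩)
  refine H.whole (by omega) (main (N - 2) 0 (by omega)) (fun x hx => ?_) fun g => ?_
  · refine Jn_mono Γ le_rfl (by omega) (H.lD.mem_of_le (main (m - 2) 0 (by omega))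
      (Jn_le fun k k1 k2 => H.Gm_le (c2 k (by omega)) (Iv_subset k1 (by omega))) hx ?_)
    rw [show 0 + (m - 2 + 2) = m by omega]
    exact H.lD.mem x hx
  · refine (alt_eq_top_of_iv (K := (Jn Γ 0 (0 + (N - 2 + 2))).comap κ) fun i hi g hg => ?_).ge
      (mem_top g)
    obtain ⟨D', U', a, b, c⟩ := big i 3 hi hm
    have hg' : ∀ x ∉ Iv N i (i + 3), (g : Perm (Fin N)) x = x := fun x hx =>
      hg x (by rw [mem_Iv] at hx; omega)
    exact Jn_mono Γ (by omega) (by omega) (a.mem_of_le (l3 i hi) b (c g hg') (H.mem_Blk hg'))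

theorem whole_triple (hq : UField σ q) (hN : 5 ≤ N) (H : USeed σ π κ A D (Iv N 0 3) (Iv N 0 4))
    (hc : ∀ x ∈ A, π x ∈ Blk σ (Iv N 0 2) → ∀ y ∈ Gm κ A (Iv N 0 3) (Iv N 2 5), Commute x y)
    (hc' : 6 ≤ N → ∀ x ∈ A, ∀ y ∈ Gm κ A (Iv N 0 3) (Iv N 3 6), Commute x y) : Whole σ π κ D := by
  let Γ : ℕ → Subgroup J := fun i => Gm κ A (Iv N 0 3) (Iv N i (i + 3))
  have c0 : (Iv N 0 3).card = 3 := card_Iv' (by omega) (by omega)
  have cm : (Iv N 0 4).card = 4 := card_Iv' (by omega) (by omega)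
  have c1 : (Iv N 0 2).card = 2 := card_Iv' (by omega) (by omega)
  have c2 : ∀ i, i + 3 ≤ N → (Iv N i (i + 3)).card = (Iv N 0 3).card := fun i hi => by
    rw [c0, card_Iv hi]
  have l3 : ∀ i, i + 3 ≤ N → Lift σ π (Γ i) (Iv N i (i + 3)) := fun i hi => H.lift_Gm (c2 i hi)
  have l4 : ∀ i, i + 4 ≤ N → Lift σ π (Jn Γ i (i + 3)) (Iv N i (i + 4)) := fun i hi => by
    obtain ⟨D', a, b, -⟩ := H.exists_big (U := Iv N i (i + 4)) (by rw [cm, card_Iv hi])
    rw [Jn_three]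
    exact lift_sup (l3 i (by omega)) (l3 (i + 1) (by omega)) (blk_iv4 hq hi) a
      (b _ (c2 i (by omega)) (Iv_subset le_rfl (by omega)))
      (b _ (c2 (i + 1) (by omega)) (Iv_subset (by omega) le_rfl))
  have sub := fun {S T R : Finset (Fin N)} => H.commute_sub (S := S) (T := T) (R := R)
    (R0 := Iv N 0 2) (T0 := Iv N 2 5) (Iv_subset le_rfl (by omega)) c1.ge (c2 2 hN)
    (disjoint_Iv le_rfl) (by omega) hc
  have main := lift_chain2 hq Γ l3 l4
    (fun i k h1 h2 => sub (by rw [c1, card_Iv (by omega)]) (c2 i (by omega))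
      (Iv_subset le_rfl (by omega)) (c2 k h2) (disjoint_Iv h1))
    (fun i k h1 h2 => H.commute_Gm (T0 := Iv N 3 6) (c2 3 (by omega)) (disjoint_Iv le_rfl)
      (hc' (by omega)) (c2 i (by omega)) (c2 k h2) (disjoint_Iv h1))
    (fun i hi x hx y hy hy' => (sub (by rw [c1, card_Iv' hi (by omega)]; omega) (c2 (i + 2) hi)
      (Iv_subset (by omega) le_rfl) (c2 i (by omega)) (disjoint_Iv le_rfl).symm y hy hy' x hx).symm)
  refine H.whole (by omega) (main (N - 3) 0 (by omega)) (fun x hx => ?_) fun g => ?_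
  · exact Jn_mono Γ le_rfl (by omega) (H.lD.mem_of_le (l4 0 (by omega))
      (Jn_le fun k k1 k2 => H.Gm_le (c2 k (by omega)) (Iv_subset k1 (by omega))) hx (H.lD.mem x hx))
  · refine (alt_eq_top_of_iv (K := (Jn Γ 0 (0 + (N - 3 + 2))).comap κ) fun i hi g hg => ?_).ge
      (mem_top g)
    obtain ⟨D', U', a, b, c⟩ := H.exists_big' (U := Iv N i (i + 3)) (by rw [cm, card_Iv hi]; omega)
    have hg' : ∀ x ∉ Iv N i (i + 3), (g : Perm (Fin N)) x = x := fun x hx =>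
      hg x (by rw [mem_Iv] at hx; omega)
    exact le_Jn Γ (k := i) (by omega) (by omega)
      (a.mem_of_le (l3 i hi) (b _ (c2 i hi) le_rfl) (c g hg') (H.mem_Blk hg'))

end chain

end Cfsg.Agent.Pr
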