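import Mathlib
import Cfsg.Agent.Phan.AutSU2
import Cfsg.Agent.Pres.UNCore
import Cfsg.Agent.Pres.Rels

/-!
# Presentations of `SU_N(q)` from presentations of `SU₃(q)` or `SU₄(q)` and of `A_N`
-/

set_option autoImplicit false

namespace Cfsg.Agent.Pr

open Subgroup Function Equiv Cfsg.Agent.Cl Cfsg.Agent.Phan Cfsg.Agent.Sym Monoid Matrix
open scoped Pointwise

section rels

variable {E G L L' : Type*} [Group E] [Group G] [Group L] [Group L'] {f : E →* G}

theorem Rels.norm_hom (γ : L →* E) (l : List L) (hl : closure {x | x ∈ l} = ⊤) {g : E}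
    (hg : ∀ x, f g * f (γ x) * (f g)⁻¹ ∈ (f.comp γ).range) : Rels f l.length fun _ _ π _ =>
      ∀ x ∈ (π.comp γ).range, π g * x * (π g)⁻¹ ∈ (π.comp γ).range := by
  refine (Rels.forall l fun a _ => Rels.mem (f := f) (a := g * γ a * g⁻¹) (H := γ.range) (by
    simpa [MonoidHom.range_comp] using hg a)).mono (by simp) fun J _ π φ _ H => ?_
  rintro _ ⟨x, rfl⟩
  have : ⊤ ≤ ((π.comp γ).range.comap (MulAut.conj (π g)).toMonoidHom).comap (π.comp γ) :=
    hl.ge.trans ((closure_le _).2 fun a ha => by simpa [MonoidHom.range_comp] using H a ha)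
  exact this (mem_top x)

theorem Rels.comm_hom (γ : L →* E) (γ' : L' →* E) (l : List L) (hl : closure {x | x ∈ l} = ⊤)
    (l' : List L') (hl' : closure {x | x ∈ l'} = ⊤) (h : ∀ a b, Commute (f (γ a)) (f (γ' b))) :
    Rels f (l.length * l'.length) fun _ _ π _ => ∀ a b, Commute (π (γ a)) (π (γ' b)) := by
  refine (Rels.comm (f := f) (l.map γ) (l'.map γ') (by simpa using fun a _ b _ => h a b)).mono
    (by simp) fun J _ π φ _ H a b => H _ ?_ _ ?_
  · have : ⊤ ≤ (closure {x | x ∈ l.map γ}).comap γ := hl.ge.trans ((closure_le _).2 fun a ha =>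
      subset_closure (List.mem_map_of_mem ha))
    exact this (mem_top a)
  · have : ⊤ ≤ (closure {x | x ∈ l'.map γ'}).comap γ' := hl'.ge.trans ((closure_le _).2 fun a ha =>
      subset_closure (List.mem_map_of_mem ha))
    exact this (mem_top b)

end rels

variable {F : Type*} [Field F] {σ : F →+* F} {q N k m : ℕ}

/-- Permutation matrices. -/
def permU (hq : UField σ q) : alternatingGroup (Fin N) →* SU N F q where
  toFun g := mkU hq ((g : Perm (Fin N))⁻¹.permMatrix F)
    (by simp [det_permutation, Perm.mem_alternatingGroup.1 g.2]) (by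
      have : ((g : Perm (Fin N))⁻¹.permMatrix F).map σ = (g : Perm (Fin N))⁻¹.permMatrix F := by
        ext i j
        simp only [map_apply, PEquiv.toMatrix_apply]
        split_ifs <;> simp
      rw [this]
      simp [transpose_permMatrix, ← permMatrix_mul])
  map_one' := su_ext (by simp [mat_mkU, mat_one])
  map_mul' g h := su_ext (by simp [mat_mkU, mat_mul, permMatrix_mul])

theorem perms_permU (hq : UField σ q) : Perms σ (piU F q N) (permU hq) where
  mem _ := piU_mem hq _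
  ev g i := by
    ext k
    rw [piU_ev]
    show ((g : Perm (Fin N))⁻¹.permMatrix F) k i = _
    simp only [ev, PEquiv.toMatrix_apply, Pi.single_apply, toPEquiv_apply, Option.mem_some_iff,
      Perm.inv_eq_iff_eq]

theorem Perms.comp {ι : Type*} [Fintype ι] [DecidableEq ι] {J G : Type*} [Group J] [Group G]
    {π : G →* ((ι → F) ≃ₗ[F] (ι → F))} {κ : alternatingGroup ι →* G} (H : Perms σ π κ) {φ : J →* G}
    {κ' : alternatingGroup ι →* J} (h : ∀ g, φ (κ' g) = κ g) : Perms σ (π.comp φ) κ' :=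
  ⟨fun g => by simpa [h] using H.mem g, fun g i => by simpa [h] using H.ev g i⟩

theorem lift_range (hq : UField σ q) {i : ℕ} (hi : i + k ≤ N) {J : Type*} [Group J] {φ : J →* SU N F q}
    {ρ : SU k F q →* J} (h : ∀ s, φ (ρ s) = embU hq (iv i hi) s) :
    Lift σ ((piU F q N).comp φ) ρ.range (Iv N i (i + k)) where
  mem := by
    rintro _ ⟨s, rfl⟩
    rw [MonoidHom.comp_apply, h, ← map_iv hi, ← mem_range_embU hq]
    exact ⟨s, rfl⟩
  surj g hg := by
    obtain ⟨g, rfl⟩ := exists_piU hq hg.1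
    rw [← map_iv hi, ← mem_range_embU hq] at hg
    obtain ⟨s, rfl⟩ := hg
    exact ⟨_, ⟨s, rfl⟩, by rw [MonoidHom.comp_apply, h]⟩
  inj := by
    rintro _ ⟨s, rfl⟩ e
    rw [MonoidHom.comp_apply, h, map_eq_one_iff _ piU_injective,
      map_eq_one_iff _ (embU_injective hq _)] at e
    rw [e, map_one]

theorem mem_range_iv' (hq : UField σ q) {i : ℕ} (hi : i + k ≤ N) {g : SU N F q} :
    g ∈ (embU hq (iv i hi)).range ↔ piU F q N g ∈ Blk σ (Iv N i (i + k)) := by
  rw [mem_range_embU hq, map_iv]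

theorem mem_range_iv0 (hq : UField σ q) (hi : 0 + k ≤ N) {g : SU N F q} :
    g ∈ (embU hq (iv 0 hi)).range ↔ piU F q N g ∈ Blk σ (Iv N 0 k) := by
  rw [mem_range_iv', congrArg (Iv N 0) (zero_add k)]

theorem lift_range0 (hq : UField σ q) (hi : 0 + k ≤ N) {J : Type*} [Group J] {φ : J →* SU N F q}
    {ρ : SU k F q →* J} (h : ∀ s, φ (ρ s) = embU hq (iv 0 hi) s) :
    Lift σ ((piU F q N).comp φ) ρ.range (Iv N 0 k) :=
  congrArg (Iv N 0) (zero_add k) ▸ lift_range hq hi h

theorem embU_iv0 (hq : UField σ q) (h : 0 + k ≤ m) (h' : 0 + m ≤ N) (s : SU k F q) :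
    embU hq (iv 0 h') (embU hq (iv 0 h) s) = embU hq (iv 0 (by omega)) s := by
  rw [embU_embU, iv_trans]

/-- The free product of `SU_m` and `A_N` maps to `SU_N`. -/
abbrev fU (hq : UField σ q) (h : 0 + m ≤ N) :
    Coprod (SU m F q) (alternatingGroup (Fin N)) →* SU N F q :=
  Coprod.lift (embU hq (iv 0 h)) (permU hq)

theorem rels_seed (hq : UField σ q) (h2 : 2 ≤ k) (hm2 : 2 ≤ m) (hkm : 0 + k ≤ m) (hm : 0 + m ≤ N)
    (l : List (SU k F q)) (hl : closure {x | x ∈ l} = ⊤) :
    Rels (fU hq hm) (m - 2 + 2 * l.length) fun _ _ π φ => USeed σ ((piU F q N).comp φ)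
      (π.comp Coprod.inr) (π.comp (Coprod.inl.comp (embU hq (iv 0 hkm)))).range
      (π.comp Coprod.inl).range (Iv N 0 k) (Iv N 0 m) := by
  have := hq.finite
  have c0 : (Iv N 0 k).card = k := card_Iv' (by omega) (by omega)
  obtain ⟨s, t, hs, ht, hst⟩ := exists_setStab_gens (Iv N 0 k) (by omega)
  have n01 : (⟨0, by omega⟩ : Fin N) ≠ ⟨1, by omega⟩ := by simp [Fin.ext_iff]
  have n1 : ∀ j : Fin (m - 2), (⟨1, by omega⟩ : Fin N) ≠ ⟨j + 2, by omega⟩ := by simp [Fin.ext_iff]
  have P := perms_permU (N := N) hq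
  have nrm := fun g (hg : g • Iv N 0 k = Iv N 0 k) => Rels.norm_hom (f := fU hq hm)
    (Coprod.inl.comp (embU hq (iv 0 hkm))) l hl (g := Coprod.inr g) fun x => by
      have e : (fU hq hm).comp (Coprod.inl.comp (embU hq (iv 0 hkm))) = embU hq (iv 0 (by omega)) := by
        ext1 x; simp [embU_iv0]
      have := P.conj_mem g ((mem_range_iv0 hq (k := k) (by omega)).1 ⟨x, rfl⟩)
      rw [hg] at this
      rw [e, mem_range_iv0]
      simpa [embU_iv0] using this
  refine (((Rels.forall (List.finRange (m - 2)) fun j _ => Rels.mem (f := fU hq hm)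
    (a := Coprod.inr (altCyc3 n01 (n1 j))) (H := Coprod.inl.range) (by
      rw [← MonoidHom.range_comp, Coprod.lift_comp_inl, mem_range_iv0, Coprod.lift_apply_inr]
      refine P.mem_Blk fun i hi => cyc3_apply_of_ne ?_ ?_ ?_ <;> rintro rfl <;>
        simp [mem_Iv] at hi <;> omega)).and (nrm s hs)).and (nrm t ht)).mono (by simp; omega)
    fun J _ π φ hφ ⟨⟨H1, H2⟩, H3⟩ => ?_
  have P' : Perms σ ((piU F q N).comp φ) (π.comp Coprod.inr) := P.comp fun g => by simp [hφ]
  have lA := lift_range0 hq (φ := φ) (ρ := π.comp (Coprod.inl.comp (embU hq (iv 0 hkm))))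
    (by omega) fun s => by simp [hφ, embU_iv0]
  have lD := lift_range0 hq (φ := φ) (ρ := π.comp Coprod.inl) hm fun s => by simp [hφ]
  have le : (π.comp (Coprod.inl.comp (embU hq (iv 0 hkm)))).range ≤ (π.comp Coprod.inl).range := by
    rintro _ ⟨s, rfl⟩; exact ⟨_, rfl⟩
  have id : ∀ g : alternatingGroup (Fin N), (∀ i ∉ Iv N 0 m, (g : Perm (Fin N)) i = i) →
      π.comp Coprod.inr g ∈ (π.comp Coprod.inl).range := fun g hg =>
    alt_mem_of_cyc3 n01 (K := (π.comp Coprod.inl).range.comap (π.comp Coprod.inr)) (fun i hi h0 h1 => by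
      rw [mem_Iv] at hi
      simp only [Ne, Fin.ext_iff] at h0 h1
      have := H1 ⟨i - 2, by omega⟩ (List.mem_finRange _)
      rw [← MonoidHom.range_comp] at this
      obtain ⟨i, hi'⟩ := i
      obtain ⟨j, rfl⟩ : ∃ j, i = j + 2 := ⟨i - 2, by simp only at h0 h1; omega⟩
      exact this) hg
  refine ⟨P', by omega, Iv_subset le_rfl (by omega), lA, lD, le, id, fun g hg => ?_⟩
  have : Finite (π.comp (Coprod.inl.comp (embU hq (iv 0 hkm)))).range :=
    Finite.of_surjective _ (MonoidHom.rangeRestrict_surjective _)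
  have := hst ((normalizer ((π.comp (Coprod.inl.comp (embU hq (iv 0 hkm)))).range : Set J)).comap
    (π.comp Coprod.inr)) (mem_normalizer_fintype H2) (mem_normalizer_fintype H3)
    (fun g hg => mem_normalizer_fintype fun x hx => by
      have h1 := id g fun i hi => hg i fun e => hi (Iv_subset le_rfl (by omega) e)
      have := P'.conj_mem g (lA.mem x hx)
      rw [smul_eq_of_fix le_rfl hg] at this
      exact lD.mem_of_le lA le (mul_mem (mul_mem h1 (le hx)) (inv_mem h1)) this) g hg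
  ext x
  rw [mem_cjs]
  exact (mem_normalizer_iff''.1 this x).symm

theorem rels_comm (hq : UField σ q) {j : ℕ} (h2 : 2 ≤ k) (hjk : 0 + j ≤ k) (hkm : 0 + k ≤ m)
    (hm : 0 + m ≤ N) (hN : j + k ≤ N) (l' : List (SU j F q)) (hl' : closure {x | x ∈ l'} = ⊤)
    (l : List (SU k F q)) (hl : closure {x | x ∈ l} = ⊤) :
    Rels (fU hq hm) (l'.length * l.length) fun _ _ π φ => ∀ D, USeed σ ((piU F q N).comp φ)
      (π.comp Coprod.inr) (π.comp (Coprod.inl.comp (embU hq (iv 0 hkm)))).range D (Iv N 0 k)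
      (Iv N 0 m) → ∀ x ∈ (π.comp (Coprod.inl.comp (embU hq (iv 0 hkm)))).range,
        (piU F q N).comp φ x ∈ Blk σ (Iv N 0 j) → ∀ y ∈ Gm (π.comp Coprod.inr)
          (π.comp (Coprod.inl.comp (embU hq (iv 0 hkm)))).range (Iv N 0 k) (Iv N j (j + k)),
          Commute x y := by
  have c0 : (Iv N 0 k).card = k := card_Iv' (by omega) (by omega)
  obtain ⟨g, hg⟩ := exists_alt_one (S := Iv N 0 k) (S' := Iv N j (j + k)) (by rw [c0, card_Iv hN])
    (by omega)
  refine (Rels.comm_hom (f := fU hq hm)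
    (Coprod.inl.comp ((embU hq (iv 0 hkm)).comp (embU hq (iv 0 hjk))))
    ((MulAut.conj (Coprod.inr g)).toMonoidHom.comp (Coprod.inl.comp (embU hq (iv 0 hkm)))) l' hl' l hl
    fun a b => ?_).mono le_rfl fun J _ π φ hφ H D S x hx hx' y hy => ?_
  · have := (perms_permU (N := N) hq).conj_mem g
      ((mem_range_iv0 hq (k := k) (by omega)).1 ⟨b, rfl⟩)
    rw [hg, ← mem_range_iv' hq hN] at this
    obtain ⟨c, hc⟩ := this
    simpa [embU_iv0, hc] using commute_embU hq (iv 0 (show 0 + j ≤ N by omega)) (iv j hN)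
      (fun a b e => by
        have : 0 + a.val = j + b.val := congrArg Fin.val e
        omega) a c
  · have l := lift_range0 hq (φ := φ) (by omega)
      (ρ := π.comp (Coprod.inl.comp ((embU hq (iv 0 hkm)).comp (embU hq (iv 0 hjk)))))
      fun s => by simp [hφ, embU_iv0]
    obtain ⟨a, rfl⟩ := S.lA.mem_of_le l (by rintro _ ⟨s, rfl⟩; exact ⟨_, rfl⟩) hx hx'
    rw [← hg, S.Gm_smul, mem_cjs] at hy
    obtain ⟨b, hb⟩ := hy
    have := H a b
    simp only [MonoidHom.comp_apply, MulEquiv.toMonoidHom_eq_coe, MonoidHom.coe_coe,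
      MulAut.conj_apply, map_mul, map_inv] at this hb ⊢
    rw [hb] at this
    simpa [mul_assoc] using this

theorem hasPres_of_whole (hq : UField σ q) (hm : 0 + m ≤ N) {n a r b s : ℕ}
    (h : Rels (fU hq hm) n fun _ _ π φ =>
      Whole σ ((piU F q N).comp φ) (π.comp Coprod.inr) (π.comp Coprod.inl).range)
    (h1 : HasPres (SU m F q) a r) (h2 : HasPres (alternatingGroup (Fin N)) b s) :
    HasPres (SU N F q) (a + b) (r + s + n) := by
  refine (h1.coprod h2).map (fun g => ?_) (h.kerGen fun J _ π φ hπ _ H => ?_)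
  · obtain ⟨l, -, e, H⟩ := h
    obtain ⟨x, hx, e'⟩ := (H _ (fU hq hm) (MonoidHom.id _) e fun _ => rfl).surj (piU F q N g)
      ⟨piU_mem hq g, fun k hk => absurd (Finset.mem_univ k) hk⟩
    rw [← Coprod.range_eq] at hx
    rwa [← piU_injective e']
  · rw [Whole, ← Coprod.range_eq, MonoidHom.range_eq_top.2 hπ] at H
    exact (injective_iff_map_eq_one φ).2 fun x hx => H.inj x trivial (by simp [hx])

theorem su2_two_gen (hq : UField σ q) :
    ∃ l : List (SU 2 F q), l.length = 2 ∧ closure {x | x ∈ l} = ⊤ := by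
  have := hq.finite
  obtain ⟨P, ψ, -⟩ := exists_sl2_model hq
  obtain ⟨a, b, h⟩ := sl_two_gen (F := uFix σ) (ι := Fin 2) (by simp)
  refine ⟨[ψ a, ψ b], rfl, ?_⟩
  rw [← map_top_of_surjective ψ.toMonoidHom ψ.surjective, ← h, MonoidHom.map_closure]
  congr 1
  ext x
  simp [eq_comm]

theorem hasPres_su_pair (hq : UField σ q) (h3 : 3 ≤ q) (hm : 3 ≤ m) (hmN : m ≤ N) (hN : 4 ≤ N)
    (h4 : 4 ≤ q ∨ 4 ≤ m) {a r b s : ℕ} (h1 : HasPres (SU m F q) a r)
    (h2 : HasPres (alternatingGroup (Fin N)) b s) : HasPres (SU N F q) (a + b) (r + s + (m + 6)) := by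
  obtain ⟨l, e, hl⟩ := su2_two_gen hq
  refine hasPres_of_whole hq (m := m) (by omega) (((rels_seed hq le_rfl (by omega) (by omega) _ l hl).and
    (rels_comm hq (j := 2) le_rfl le_rfl (by omega) _ hN l hl l hl)).mono (by rw [e]; omega)
    fun J _ π φ _ H => whole_pair hq h3 hm hmN hN h4 H.1 fun x hx => ?_) h1 h2
  exact H.2 _ H.1 x hx (H.1.lA.mem x hx)

theorem hasPres_su_triple (hq : UField σ q) (hN : 5 ≤ N) (l : List (SU 3 F q))
    (hl : closure {x | x ∈ l} = ⊤) (e : l.length = 3) {a r b s : ℕ} (h1 : HasPres (SU 4 F q) a r)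
    (h2 : HasPres (alternatingGroup (Fin N)) b s) : HasPres (SU N F q) (a + b) (r + s + 23) := by
  obtain ⟨l', e', hl'⟩ := su2_two_gen hq
  have R := (rels_seed hq (k := 3) (m := 4) (N := N) (by omega) (by omega) (by omega) (by omega) l hl).and
    (rels_comm hq (j := 2) (m := 4) (N := N) (by omega) (by omega) (by omega) (by omega) hN l' hl' l hl)
  refine hasPres_of_whole hq (m := 4) (by omega) ?_ h1 h2
  by_cases h6 : 6 ≤ N
  · refine (R.and (rels_comm hq (j := 3) (m := 4) (by omega) le_rfl (by omega) _ h6 l hl l hl)).mono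
      (by rw [e, e']) fun J _ π φ _ H => whole_triple hq hN H.1.1 (H.1.2 _ H.1.1) fun _ x hx => ?_
    exact H.2 _ H.1.1 x hx (H.1.1.lA.mem x hx)
  · exact R.mono (by rw [e, e']; omega) fun J _ π φ _ H =>
      whole_triple hq hN H.1 (H.2 _ H.1) fun h => absurd h h6

end Cfsg.Agent.Pr
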