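import Mathlib
import Cfsg.Agent.Spor.MX.W43Gen
import Cfsg.Agent.Spor.MX.W52
import Cfsg.Agent.Spor.MX.Glue3
import Cfsg.Agent.Cl.Sm.U42
import Cfsg.Agent.Cl.Transport
import Cfsg.Agent.Phan.Two
import Cfsg.Agent.Pres.U3Main
import Cfsg.Agent.Pres.UNMain

/-!
# Presentations of `SU₄(2)`, `SU₄(3)`, and of `SU_n(q)` for `n ≥ 4`
-/

set_option autoImplicit false
set_option maxRecDepth 100000

namespace Cfsg.Agent.Pr

open Subgroup Function Cfsg.Agent.Cl Cfsg.Agent.Phan Cfsg.Agent.Spor

/-- Lifting a presentation along a central extension with cyclic kernel. -/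
theorem HasPres.of_central {G : Type*} [Group G] [Finite G] {Z : Subgroup G} [Z.Normal] [IsCyclic Z]
    (hZ : Z ≤ center G) {k r : ℕ} (h : HasPres (G ⧸ Z) k r) : HasPres G (k + 1) (r + k + 1) := by
  obtain ⟨g', hg'⟩ := h
  choose g hg using fun i => QuotientGroup.mk'_surjective Z (g' i)
  obtain ⟨z, hz⟩ := (isCyclic_iff_exists_zpowers_eq_top.1 ‹IsCyclic Z›)
  have hz' : zpowers (z : G) = Z := by
    have := congrArg (Subgroup.map Z.subtype) hz
    rwa [MonoidHom.map_zpowers, ← MonoidHom.range_eq_map, Z.range_subtype] at this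
  obtain ⟨l, hl, h1, h2⟩ := hg'.univ
  let y : Fin (k + 1) → G := Fin.cons z g
  let f := FreeGroup.lift y
  let x : Fin k → FreeGroup (Fin (k + 1)) := fun i => FreeGroup.of i.succ
  let c : FreeGroup (Fin (k + 1)) := FreeGroup.of 0
  have fc : f c = z := by simp [f, c, y]
  have fx : ∀ i, f (x i) = g i := by simp [f, x, y]
  have fw : ∀ w, QuotientGroup.mk' Z (f (FreeGroup.lift x w)) = FreeGroup.lift g' w := fun w => by
    rw [map_lift f, map_lift]; simp only [fx, hg]
  refine ⟨y, fun a => ?_, ?_⟩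
  · obtain ⟨w, hw⟩ := hg'.1 (QuotientGroup.mk' Z a)
    have : (f (FreeGroup.lift x w))⁻¹ * a ∈ zpowers (f c) := by
      rw [fc, hz', ← QuotientGroup.eq, ← QuotientGroup.mk'_apply, fw]
      exact hw
    obtain ⟨n, hn⟩ := this
    exact ⟨FreeGroup.lift x w * c ^ n, by
      rw [map_mul, map_zpow]; exact (congrArg _ hn).trans (mul_inv_cancel_left _ _)⟩
  refine (((Rels.forall l fun w hw => Rels.mem (f := f) (a := FreeGroup.lift x w) (H := zpowers c) (by
      rw [MonoidHom.map_zpowers, fc, hz', ← QuotientGroup.eq_one_iff, ← QuotientGroup.mk'_apply, fw]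
      exact h1 w hw)).and (Rels.forall (List.finRange k) fun i _ =>
      Rels.commute (f := f) (a := c) (b := x i) (by
        rw [fc]; exact (mem_center_iff.1 (hZ z.2) _).symm))).and
      (Rels.eq (f := f) (a := c ^ orderOf (z : G)) (b := 1) (by rw [map_pow, fc, pow_orderOf_eq_one, map_one]))).kerGen
      (fun J _ π φ hπ hφ ⟨⟨H1, H2⟩, H3⟩ => ?_) |>.mono (by simp; omega)
  have gen : closure (Set.range fun i => π (FreeGroup.of i)) = ⊤ := by
    rw [← lift_surjective_iff]
    exact fun a => let ⟨w, hw⟩ := hπ a; ⟨w, by rw [← eq_lift, hw]⟩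
  have cen : π c ∈ center J := mem_center_iff.2 fun a => by
    refine (commute_of_closure (s := Set.range fun i => π (FreeGroup.of i)) (t := {π c}) ?_
      (gen ▸ mem_top a) (subset_closure rfl)).eq
    rintro _ ⟨i, rfl⟩ _ rfl
    induction i using Fin.cases with
    | zero => exact Commute.refl _
    | succ i => exact (H2 i (List.mem_finRange i)).symm
  have : (zpowers (π c)).Normal := ⟨fun n hn a => by
    rwa [mem_center_iff.1 ((zpowers_le_of_mem cen) hn) a, mul_inv_cancel_right]⟩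
  obtain ⟨θ, hθ⟩ := h2 (J ⧸ zpowers (π c)) (fun i => QuotientGroup.mk' _ (π (x i))) fun w hw => by
    rw [← map_lift, ← map_lift, QuotientGroup.mk'_apply, QuotientGroup.eq_one_iff,
      ← MonoidHom.map_zpowers]
    exact H1 w hw
  have e : θ.comp ((QuotientGroup.mk' Z).comp φ) = QuotientGroup.mk' _ :=
    MonoidHom.eq_of_eqOn_dense gen (by
      rintro _ ⟨i, rfl⟩
      induction i using Fin.cases with
      | zero =>
        have h3 : QuotientGroup.mk' Z (z : G) = 1 := (QuotientGroup.eq_one_iff _).2 z.2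
        have h4 : QuotientGroup.mk' (zpowers (π c)) (π c) = 1 :=
          (QuotientGroup.eq_one_iff _).2 (mem_zpowers _)
        show θ (QuotientGroup.mk' Z (φ (π c))) = QuotientGroup.mk' _ (π c)
        rw [hφ, fc, h3, h4, map_one]
      | succ i =>
        show θ (QuotientGroup.mk' Z (φ (π (x i)))) = QuotientGroup.mk' _ (π (x i))
        rw [hφ, fx, hg, hθ])
  refine (injective_iff_map_eq_one φ).2 fun a ha => ?_
  have : a ∈ zpowers (π c) := by
    rw [← QuotientGroup.eq_one_iff, ← QuotientGroup.mk'_apply, ← e]; simp [ha]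
  obtain ⟨n, rfl⟩ := this
  simp only [map_zpow, hφ, fc, ← orderOf_dvd_iff_zpow_eq_one] at ha
  obtain ⟨m, rfl⟩ := ha
  simp only [map_pow, map_one] at H3
  simp only [zpow_mul, zpow_natCast, H3, one_zpow]

/-- Letters from generators: the second letter is the inverse of the first one. -/
def ltr {J : Type*} [Group J] {k : ℕ} (x : Fin (k + 1) → J) : ℕ → J
  | 0 => x 0
  | 1 => (x 0)⁻¹
  | j + 2 => if h : j < k then x ⟨j + 1, by omega⟩ else 1

theorem map_ltr {J J' : Type*} [Group J] [Group J'] {k : ℕ} (φ : J →* J') (x : Fin (k + 1) → J) :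
    ∀ n, φ (ltr x n) = ltr (fun i => φ (x i)) n
  | 0 => rfl
  | 1 => map_inv φ _
  | j + 2 => by simp only [ltr]; split_ifs <;> simp

theorem hasPres_of_gen {G : Type*} [Group G] {g : ℕ → G} {rels : LT} {k N : ℕ}
    (hg : MX.Gen ⊤ g rels (k + 2) N) (hb : MX.Pres rels (k + 2) N) (idx : List ℕ) (i0 : ℕ)
    (h0 : rels.get i0 = [0, 1]) (h1 : rels.all (lettersLt (k + 2)) = true)
    (h2 : rels.all (fun w => decide (w = [] ∨ w = [0, 1] ∨ w ∈ idx.map rels.get)) = true) :
    HasPres G (k + 1) idx.length := by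
  let y : Fin (k + 1) → G := Fin.cons (g 0) fun i => g (i + 2)
  have hy : ∀ n < k + 2, ltr y n = g n := fun n hn => by
    rcases n with _ | _ | j
    · rfl
    · have := hg.2.1 i0
      rw [h0] at this
      exact inv_eq_of_mul_eq_one_right (a := g 0) (by simpa using this)
    · exact dif_pos (show j < k by omega)
  have ev : ∀ (J : Type) [Group J] (x : Fin (k + 1) → J) (w : List ℕ),
      FreeGroup.lift x (evalW (ltr FreeGroup.of) w) = evalW (ltr x) w := fun J _ x w => by
    rw [map_evalW]; simp [map_ltr]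
  refine ⟨y, Pres.of_univ (idx.map fun i => evalW (ltr FreeGroup.of) (rels.get i)) (by simp) ?_ ?_
    fun J _ x hx => ?_⟩
  · rw [eq_top_iff, ← hg.1]
    refine genLt_le fun n hn => ?_
    rcases n with _ | _ | j
    · exact subset_closure ⟨0, rfl⟩
    · exact hy 1 hn ▸ inv_mem (subset_closure ⟨0, rfl⟩)
    · exact subset_closure ⟨Fin.succ ⟨j, by omega⟩, rfl⟩
  · simp only [List.mem_map]
    rintro _ ⟨i, -, rfl⟩
    rw [map_evalW, ← hg.2.1 i]
    exact evalW_congr fun n hn => by
      rw [map_ltr, ← hy n ((lettersLt_iff _ _).1 (LT.all_get h1 i) n hn)]; simp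
  · obtain ⟨φ, -, hφ⟩ := hg.exists_hom hb (g' := ltr x) fun i => by
      rcases of_decide_eq_true (LT.all_get h2 i) with e | e | e
      · rw [e]; rfl
      · rw [e]; simp [ltr]
      · obtain ⟨j, hj, e⟩ := List.mem_map.1 e
        rw [← e, ← ev]
        exact hx _ (List.mem_map_of_mem hj)
    refine ⟨φ.comp topEquiv.symm.toMonoidHom, fun i => ?_⟩
    induction i using Fin.cases with
    | zero =>
      show φ ⟨g 0, trivial⟩ = ltr x 0
      simpa using hφ [0] (by simp [lettersLt_iff])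
    | succ i =>
      show φ ⟨g (i + 2), trivial⟩ = x ⟨i + 1, by omega⟩
      simpa [ltr] using hφ [i + 2] (by simp [lettersLt_iff])

theorem hasPres_psu43 : HasPres (PSU 4 GF9 3) 3 11 :=
  hasPres_of_gen MX.u4m_gen (MX.w43_bnd (wp_rels _)) [2, 3, 4, 5, 6, 7, 8, 9, 10, 11, 12] 1
    (by decide +kernel) (by decide +kernel) (by decide +kernel)

theorem hasPres_psu42 : HasPres (PSU 4 GF4 2) 2 5 := by
  let _ := PM.psuAct (n := 4) (q := 2) (TF.card_eq (D := gf4)) (by norm_num)
  have h1 := PM.tabs_psu (D := gf4) (n := 4) (q := 2) rfl (by norm_num) (M := Sm.u42M) (m := 2)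
    (by decide +kernel) (by decide +kernel) (P := Sm.u42P) (N := 40) (T := Sm.u42_S) (A := Sm.u42A)
    (by decide +kernel)
  have h2 := PM.injOn_pts (D := gf4) (Equiv.refl (Fin 4)) (P := Sm.u42P) (N := 40) (by decide +kernel)
  obtain ⟨a1, a2⟩ := Sm.u42_spec h2 h1 Sm.card_PSU42
  have hB := fun K : Subgroup (PSU 4 GF4 2) => show IsBase _ K (List.range 40) from
    fun a _ ha => a2 a trivial fun i hi => ha i (List.mem_range.2 hi)
  let ws : LT := .node (.node (.leaf [0]) (.leaf [0, 0, 0, 1, 1, 1, 0, 1, 0, 1, 1, 0, 1]))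
    (.leaf [0, 0, 0, 0])
  have e := (MX.genLt_tabW h1 (hB _) (ws := ws) (m := 3) (back := .node (.leaf [0])
    (.leaf [1, 2, 1, 2, 1, 1, 2, 0, 2, 1, 1, 2, 1, 2, 1, 1, 2])) (by decide +kernel)
    (by decide +kernel)).trans a1
  exact hasPres_of_gen (k := 1) (MX.gen_of_base (MX.tabs_tabW h1 (ws := ws) (by decide +kernel) 3) e
    (hB _) ((Nat.card_congr topEquiv.toEquiv).trans Sm.card_PSU42) (rels := MX.w42_rels)
    (by decide +kernel)) (MX.w42_bnd (wp_rels _)) [2, 3, 4, 5, 6] 1
    (by decide +kernel) (by decide +kernel) (by decide +kernel)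

variable {F : Type*} [Field F] {σ : F →+* F} {q : ℕ}

theorem HasPres.su (hq : UField σ q) {n k r : ℕ} (hn : 2 ≤ n) (h : HasPres (PSU n F q) k r) :
    HasPres (SU n F q) (k + 1) (r + k + 1) := by
  have := hq.finite
  have : IsCyclic (center (SU n F q)) :=
    (MulEquiv.isCyclic (centerCongr (hq.suEquiv n))).2
      (Ch.isCyclic_center_USG (hq.isHerm_uStd _) (by simpa using hn))
  exact HasPres.of_central le_rfl h

theorem hasPres_su42 (hq : UField σ 2) : HasPres (SU 4 F 2) 3 8 :=
  let ⟨e⟩ := nonempty_ringEquiv_GF4' F hq.card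
  (hasPres_psu42.equiv (psuMapEquiv 4 2 e).symm).su hq (by omega)

theorem hasPres_su43 (hq : UField σ 3) : HasPres (SU 4 F 3) 4 15 :=
  let ⟨e⟩ := nonempty_ringEquiv_GF9' F hq.card
  (hasPres_psu43.equiv (psuMapEquiv 4 3 e).symm).su hq (by omega)

theorem su32_gen (hq : UField σ 2) :
    ∃ l : List (SU 3 F 2), l.length = 3 ∧ closure {x | x ∈ l} = ⊤ := by
  have := hq.finite
  have := char_two hq
  have t : (2 : F) = 0 := CharTwo.two_eq_zero
  obtain ⟨D, -⟩ := hq.exists_u3Data_SU
  obtain ⟨ω, hω⟩ := exists_omega hq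
  obtain ⟨x, hx⟩ := UHeis.exists_b hq.invol 1
  obtain ⟨y, hy⟩ := UHeis.exists_b hq.invol ω
  refine ⟨[D.u x, D.u y, D.w], rfl, eq_top_iff.2 (D.closure_u_w.ge.trans ((closure_le _).2 ?_))⟩
  rintro _ (⟨a, rfl⟩ | rfl)
  · have mx : x ∈ (closure {a | a ∈ [D.u x, D.u y, D.w]}).comap D.u := subset_closure (by simp)
    have my : y ∈ (closure {a | a ∈ [D.u x, D.u y, D.w]}).comap D.u := subset_closure (by simp)
    refine mem_of_b (M := (closure {a | a ∈ [D.u x, D.u y, D.w]}).comap D.u) (S := {1, ω})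
      (fun z hz => ?_) (by rintro _ (rfl | rfl); exacts [⟨x, mx, hx⟩, ⟨y, my, hy⟩]) ?_
    · have h := UHeis.trace_c_of_b hz
      rw [hq.pow] at h
      rcases mul_eq_zero.1 (show z.c * (z.c - 1) = 0 by linear_combination h - z.c * t) with e | e
      · rw [UHeis.eq_one_iff.2 e]; exact one_mem _
      · have : z = x * x := UHeis.ext (by simp [hz, hx, CharTwo.add_self_eq_zero])
          (by rw [UHeis.sq_c, hx, sub_eq_zero.1 e]; simp)
        rw [this]; exact mul_mem mx mx
    · have m1 : (1 : F) ∈ AddSubgroup.closure ({1, ω} : Set F) := AddSubgroup.subset_closure (by simp)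
      have m2 : ω ∈ AddSubgroup.closure ({1, ω} : Set F) := AddSubgroup.subset_closure (by simp)
      by_cases h0 : a.b = 0
      · rw [h0]; exact zero_mem _
      have h := norm_of_ne hq h0
      rw [hq.pow] at h
      have : (a.b - 1) * (a.b - ω) * (a.b - (ω + 1)) = 0 := by
        linear_combination h + (a.b - 1) * hω + (1 - a.b ^ 2 * (ω + 1) + a.b * ω) * t
      rcases mul_eq_zero.1 this with e | e
      · rcases mul_eq_zero.1 e with e | e <;> rwa [sub_eq_zero.1 e]
      · rw [sub_eq_zero.1 e]; exact add_mem m2 m1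
  · exact subset_closure (by simp)

theorem hasPres_su_of (hq : UField σ q) {N s : ℕ} (hN : 5 ≤ N)
    (h : HasPres (alternatingGroup (Fin N)) 2 s) : HasPres (SU N F q) 6 (s + 32) := by
  have := hq.two_le
  obtain rfl | rfl | h4 : q = 2 ∨ q = 3 ∨ 4 ≤ q := by omega
  · obtain ⟨l, e, hl⟩ := su32_gen hq
    exact (hasPres_su_triple hq hN l hl e (hasPres_su42 hq) h).mono (by omega) (by omega)
  · exact (hasPres_su_pair hq le_rfl (m := 4) (by omega) (by omega) (by omega) (Or.inr le_rfl)
      (hasPres_su43 hq) h).mono (by omega) (by omega)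
  · exact (hasPres_su_pair hq (by omega) le_rfl (by omega) (by omega) (Or.inl h4)
      (hasPres_su3 hq (by omega)) h).mono (by omega) (by omega)

theorem hasPres_su4 (hq : UField σ q) : HasPres (SU 4 F q) 6 35 := by
  have := hq.two_le
  obtain rfl | rfl | h4 : q = 2 ∨ q = 3 ∨ 4 ≤ q := by omega
  · exact (hasPres_su42 hq).mono (by omega) (by omega)
  · exact (hasPres_su43 hq).mono (by omega) (by omega)
  · exact (hasPres_su_pair hq (by omega) le_rfl (by omega) le_rfl (Or.inl h4)
      (hasPres_su3 hq (by omega)) hasPres_alt_four).mono (by omega) (by omega)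

theorem hasPres_su5 (hq : UField σ q) : HasPres (SU 5 F q) 6 35 :=
  hasPres_su_of hq le_rfl hasPres_alt_five

theorem hasPres_su (hq : UField σ q) {n : ℕ} (hn : 4 ≤ n) : HasPres (SU n F q) 6 39 := by
  obtain rfl | h : n = 4 ∨ 5 ≤ n := by omega
  · exact (hasPres_su4 hq).mono le_rfl (by omega)
  · exact hasPres_su_of hq h (hasPres_alt h).2

end Cfsg.Agent.Pr
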